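import Mathlib
import Cfsg.Agent.Lead.Quat

namespace Cfsg.Agent.Helper19.C3S3

open scoped Pointwise

theorem zp3 {A : Type*} [Group A] (x : A) (hx : x ^ 3 = 1) (w : A)
    (hw : w ∈ Subgroup.zpowers x) : w = 1 ∨ w = x ∨ w = x⁻¹ := by
  obtain ⟨k, rfl⟩ := Subgroup.mem_zpowers_iff.mp hw
  have h := zpow_eq_zpow_emod' k hx
  have h0 : 0 ≤ k % ((3 : ℕ) : ℤ) := Int.emod_nonneg k (by norm_num)
  have h1 : k % ((3 : ℕ) : ℤ) < 3 := Int.emod_lt_of_pos k (by norm_num)
  have hinv : x ^ 2 = x⁻¹ := by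
    apply eq_inv_of_mul_eq_one_left
    rw [← pow_succ]; exact hx
  rw [h]
  obtain h2 | h2 | h2 : k % ((3 : ℕ) : ℤ) = 0 ∨ k % ((3 : ℕ) : ℤ) = 1 ∨ k % ((3 : ℕ) : ℤ) = 2 := by
    omega
  · left; rw [h2, zpow_zero]
  · right; left; rw [h2, zpow_one]
  · right; right; rw [h2, show (2 : ℤ) = ((2 : ℕ) : ℤ) by norm_num, zpow_natCast, hinv]

theorem inv_compl {A : Type*} [Group A] [Finite A] (hc : ∀ a b : A, a * b = b * a)
    (h3 : ∀ a : A, a ^ 3 = 1)
    (τ : A ≃* A) (hτ : ∀ a, τ (τ a) = a) (z : A) (hz1 : z ≠ 1) :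
    ∃ Y : Subgroup A, (∀ y ∈ Y, τ y ∈ Y) ∧ z ∉ Y ∧ Y ⊔ Subgroup.zpowers z = ⊤ := by
  classical
  have hnorm : ∀ K : Subgroup A, K.Normal := fun K =>
    ⟨fun n hn g => by rw [hc g n, mul_inv_cancel_right]; exact hn⟩
  let YY : Set (Subgroup A) := {Y | (∀ y ∈ Y, τ y ∈ Y) ∧ z ∉ Y}
  have hfin : YY.Finite := Set.toFinite _
  have hne : YY.Nonempty := ⟨⊥, by
    refine ⟨?_, ?_⟩
    · intro y hy; rw [Subgroup.mem_bot] at hy ⊢; rw [hy, map_one]
    · rw [Subgroup.mem_bot]; exact hz1⟩
  obtain ⟨Y, hYmax⟩ := hfin.exists_maximal hne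
  have hY : Y ∈ YY := hYmax.prop
  refine ⟨Y, hY.1, hY.2, ?_⟩
  have heig : ∀ x : A, (τ x = x ∨ τ x = x⁻¹) → x ∈ Y ⊔ Subgroup.zpowers z := by
    intro x hx
    by_contra hcon
    haveI := hnorm (Subgroup.zpowers x)
    haveI := hnorm (Subgroup.zpowers z)
    have hY' : Y ⊔ Subgroup.zpowers x ∈ YY := by
      refine ⟨?_, ?_⟩
      · intro w hw
        rw [← SetLike.mem_coe, Subgroup.mul_normal, Set.mem_mul] at hw
        obtain ⟨y, hy, v, hv, rfl⟩ := hw
        rw [map_mul]
        apply Subgroup.mul_mem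
        · exact Subgroup.mem_sup_left (hY.1 y hy)
        · apply Subgroup.mem_sup_right
          rcases zp3 x (h3 x) v hv with rfl | rfl | rfl
          · rw [map_one]; exact Subgroup.one_mem _
          · rcases hx with h | h
            · rw [h]; exact Subgroup.mem_zpowers v
            · rw [h]; exact Subgroup.inv_mem _ (Subgroup.mem_zpowers v)
          · rw [map_inv]
            rcases hx with h | h
            · rw [h]; exact Subgroup.inv_mem _ (Subgroup.mem_zpowers x)
            · rw [h, inv_inv]; exact Subgroup.mem_zpowers x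
      · intro hzm
        rw [← SetLike.mem_coe, Subgroup.mul_normal, Set.mem_mul] at hzm
        obtain ⟨y, hy, v, hv, hyv⟩ := hzm
        apply hcon
        have hvm : v ∈ Y ⊔ Subgroup.zpowers z := by
          have : v = y⁻¹ * z := by rw [← hyv]; group
          rw [this]
          exact Subgroup.mul_mem _ (Subgroup.mem_sup_left (Subgroup.inv_mem _ hy))
            (Subgroup.mem_sup_right (Subgroup.mem_zpowers z))
        rcases zp3 x (h3 x) v hv with h | h | h
        · exfalso; apply hY.2; rw [← hyv, h, mul_one]; exact hy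
        · rw [← h]; exact hvm
        · have : x = v⁻¹ := by rw [h, inv_inv]
          rw [this]; exact Subgroup.inv_mem _ hvm
    have hle : Y ≤ Y ⊔ Subgroup.zpowers x := le_sup_left
    have := hYmax.le_of_ge hY' hle
    exact hcon (Subgroup.mem_sup_left (this (Subgroup.mem_sup_right (Subgroup.mem_zpowers x))))
  rw [eq_top_iff]
  intro a _
  have h1 : a * τ a ∈ Y ⊔ Subgroup.zpowers z :=
    heig _ (Or.inl (by rw [map_mul, hτ, hc]))
  have h2 : a * (τ a)⁻¹ ∈ Y ⊔ Subgroup.zpowers z :=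
    heig _ (Or.inr (by rw [map_mul, map_inv, hτ, mul_inv_rev, inv_inv]))
  have h4 : a * a ∈ Y ⊔ Subgroup.zpowers z := by
    have : a * a = (a * τ a) * (a * (τ a)⁻¹) := by
      calc a * a = a * (a * τ a) * (τ a)⁻¹ := by group
        _ = a * (τ a * a) * (τ a)⁻¹ := by rw [hc (τ a) a]
        _ = (a * τ a) * (a * (τ a)⁻¹) := by group
    rw [this]; exact Subgroup.mul_mem _ h1 h2
  have h5 : a = (a * a) * (a * a) := by
    have e : (a * a) * (a * a) = a ^ 3 * a := by
      rw [pow_succ, pow_succ, pow_one]; simp only [mul_assoc]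
    rw [e, h3 a, one_mul]
  rw [h5]; exact Subgroup.mul_mem _ h4 h4

theorem perm9_cycleType {α : Type*} [Fintype α] [DecidableEq α] (hα : Fintype.card α = 9)
    (σ : Equiv.Perm α) (h3 : σ ^ 3 = 1) (hfix : ∀ a, σ a ≠ a) :
    σ.cycleType = Multiset.replicate 3 3 := by
  haveI : Fact (Nat.Prime 3) := ⟨by norm_num⟩
  have h1 := Equiv.Perm.cycleType_of_pow_prime_eq_one h3
  have h2 := Equiv.Perm.sum_cycleType σ
  have hs : σ.support = Finset.univ := by
    ext a; simp [Equiv.Perm.mem_support, hfix a]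
  rw [hs, Finset.card_univ, hα, h1, Multiset.sum_replicate, smul_eq_mul] at h2
  have h4 : Multiset.card σ.cycleType = 3 := by omega
  rw [h1, h4]

theorem perm9_card_centralizer {α : Type*} [Fintype α] [DecidableEq α] (hα : Fintype.card α = 9)
    (σ : Equiv.Perm α) (h3 : σ ^ 3 = 1) (hfix : ∀ a, σ a ≠ a) :
    Nat.card (Subgroup.centralizer ({σ} : Set (Equiv.Perm α))) = 162 := by
  rw [Equiv.Perm.nat_card_centralizer, perm9_cycleType hα σ h3 hfix, hα]
  decide

theorem zp2 {A : Type*} [Group A] (x : A) (hx : x ^ 2 = 1) (w : A)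
    (hw : w ∈ Subgroup.zpowers x) : w = 1 ∨ w = x := by
  obtain ⟨k, rfl⟩ := Subgroup.mem_zpowers_iff.mp hw
  have h := zpow_eq_zpow_emod' k hx
  have h0 : 0 ≤ k % ((2 : ℕ) : ℤ) := Int.emod_nonneg k (by norm_num)
  have h1 : k % ((2 : ℕ) : ℤ) < 2 := Int.emod_lt_of_pos k (by norm_num)
  rw [h]
  obtain h2 | h2 : k % ((2 : ℕ) : ℤ) = 0 ∨ k % ((2 : ℕ) : ℤ) = 1 := by omega
  · left; rw [h2, zpow_zero]
  · right; rw [h2, zpow_one]

theorem c3s3_main {G : Type*} [Group G] [Finite G] (hG : Nat.card G = 162)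
    (S : Sylow 3 G) (T : Sylow 2 G) (J : Subgroup G) [hJn : J.Normal] (hJcomm : IsMulCommutative J)
    (hJexp : ∀ a ∈ J, a ^ 3 = 1) (hJcard : Nat.card J = 27)
    (Z : Subgroup G) (hZ : Z = (S : Subgroup G) ⊓ Subgroup.centralizer ((S : Subgroup G) : Set G))
    (hZcard : Nat.card Z = 3)
    (hZT : Z ≤ Subgroup.centralizer ((T : Subgroup G) : Set G))
    (hST : (S : Subgroup G) ⊓ Subgroup.centralizer ((T : Subgroup G) : Set G) ≠ S)
    (c : Equiv.Perm (Fin 9)) (hc3 : c ^ 3 = 1) (hcfix : ∀ i, c i ≠ i) :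
    Nonempty (G ≃* Subgroup.centralizer ({c} : Set (Equiv.Perm (Fin 9)))) := by
  classical
  haveI : Fact (Nat.Prime 3) := ⟨by norm_num⟩
  haveI : Fact (Nat.Prime 2) := ⟨by norm_num⟩
  have hScard : Nat.card (S : Subgroup G) = 81 := by
    have h1 := S.card_eq_multiplicity
    rw [hG, show (162 : ℕ).factorization 3 = 4 by decide +kernel] at h1
    rw [h1]; norm_num
  have hTcard : Nat.card (T : Subgroup G) = 2 := by
    have h1 := T.card_eq_multiplicity
    rw [hG, show (162 : ℕ).factorization 2 = 1 by decide +kernel] at h1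
    rw [h1]; norm_num
  have hSidx : (S : Subgroup G).index = 2 := by
    have := (S : Subgroup G).card_mul_index
    rw [hScard, hG] at this
    omega
  haveI hSn : (S : Subgroup G).Normal := Subgroup.normal_of_index_eq_two hSidx
  have hS81 : ∀ s ∈ (S : Subgroup G), s ^ 81 = 1 := by
    intro s hs
    have := pow_card_eq_one' (G := (S : Subgroup G)) (x := ⟨s, hs⟩)
    rw [hScard] at this
    have h := congrArg Subtype.val this
    simpa using h
  obtain ⟨t, htT, ht1⟩ : ∃ t ∈ (T : Subgroup G), t ≠ 1 := by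
    by_contra hcon
    push Not at hcon
    have : (T : Subgroup G) = ⊥ := (Subgroup.eq_bot_iff_forall _).mpr hcon
    rw [this, Subgroup.card_bot] at hTcard
    omega
  have ht2' : t ^ 2 = 1 := by
    have := pow_card_eq_one' (G := (T : Subgroup G)) (x := ⟨t, htT⟩)
    rw [hTcard] at this
    have h := congrArg Subtype.val this
    simpa using h
  have ht2 : t * t = 1 := by rw [← pow_two]; exact ht2'
  have htinv : t⁻¹ = t := inv_eq_of_mul_eq_one_left ht2
  have hTmem : ∀ u ∈ (T : Subgroup G), u = 1 ∨ u = t := by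
    intro u hu
    have hzp : Subgroup.zpowers t = (T : Subgroup G) := by
      apply Subgroup.eq_of_le_of_card_ge
      · rw [Subgroup.zpowers_le]; exact htT
      · rw [Nat.card_zpowers, hTcard, orderOf_eq_prime ht2' ht1]
    rw [← hzp] at hu
    exact zp2 t ht2' u hu
  have hZS : Z ≤ (S : Subgroup G) := by rw [hZ]; exact inf_le_left
  have hZcS : ∀ z ∈ Z, ∀ s ∈ (S : Subgroup G), s * z = z * s := by
    intro z hz s hs
    rw [hZ] at hz
    exact Subgroup.mem_centralizer_iff.mp hz.2 s hs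
  have hZcT : ∀ z ∈ Z, ∀ u ∈ (T : Subgroup G), u * z = z * u := fun z hz u hu =>
    Subgroup.mem_centralizer_iff.mp (hZT hz) u hu
  have hST_top : (S : Subgroup G) ⊔ (T : Subgroup G) = ⊤ := by
    apply Subgroup.eq_top_of_card_eq
    have h1 : 81 ∣ Nat.card ((S : Subgroup G) ⊔ (T : Subgroup G) : Subgroup G) := by
      have := Subgroup.card_dvd_of_le (le_sup_left : (S : Subgroup G) ≤ (S : Subgroup G) ⊔ (T : Subgroup G))
      rwa [hScard] at this
    have h2 : 2 ∣ Nat.card ((S : Subgroup G) ⊔ (T : Subgroup G) : Subgroup G) := by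
      have := Subgroup.card_dvd_of_le (le_sup_right : (T : Subgroup G) ≤ (S : Subgroup G) ⊔ (T : Subgroup G))
      rwa [hTcard] at this
    have h3 : Nat.card ((S : Subgroup G) ⊔ (T : Subgroup G) : Subgroup G) ∣ 162 := by
      rw [← hG]; exact Subgroup.card_subgroup_dvd_card _
    have h4 : 81 * 2 ∣ Nat.card ((S : Subgroup G) ⊔ (T : Subgroup G) : Subgroup G) :=
      Nat.Coprime.mul_dvd_of_dvd_of_dvd (by norm_num) h1 h2
    rw [hG]; exact Nat.dvd_antisymm h3 h4
  have hZcen : ∀ z ∈ Z, ∀ g : G, g * z = z * g := by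
    intro z hz g
    have hle : (S : Subgroup G) ⊔ (T : Subgroup G) ≤ Subgroup.centralizer ({z} : Set G) := by
      apply sup_le
      · intro s hs
        rw [Subgroup.mem_centralizer_iff]
        intro h hh
        rw [Set.mem_singleton_iff] at hh
        rw [hh]; exact (hZcS z hz s hs).symm
      · intro u hu
        rw [Subgroup.mem_centralizer_iff]
        intro h hh
        rw [Set.mem_singleton_iff] at hh
        rw [hh]; exact (hZcT z hz u hu).symm
    have hg : g ∈ Subgroup.centralizer ({z} : Set G) := hle (by rw [hST_top]; trivial)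
    exact (Subgroup.mem_centralizer_iff.mp hg z rfl).symm
  have hJS : J ≤ (S : Subgroup G) := by
    intro j hj
    have h2 : j ^ 2 ∈ (S : Subgroup G) := Subgroup.sq_mem_of_index_two hSidx j
    have : j = (j ^ 2) ^ 2 := by
      rw [← pow_mul, show 2 * 2 = 3 + 1 by norm_num, pow_add, hJexp j hj, one_mul, pow_one]
    rw [this]; exact Subgroup.pow_mem _ h2 2
  have hZJ : Z ≤ J := by
    by_contra hcon
    have hK1 : J ⊔ Z ≤ (S : Subgroup G) := sup_le hJS hZS
    have hd1 : 27 ∣ Nat.card (J ⊔ Z : Subgroup G) := by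
      have := Subgroup.card_dvd_of_le (le_sup_left : J ≤ J ⊔ Z)
      rwa [hJcard] at this
    have hd2 : Nat.card (J ⊔ Z : Subgroup G) ∣ 81 := by
      have := Subgroup.card_dvd_of_le hK1
      rwa [hScard] at this
    have hne27 : Nat.card (J ⊔ Z : Subgroup G) ≠ 27 := by
      intro h
      have hJe : J = J ⊔ Z := Subgroup.eq_of_le_of_card_ge le_sup_left (by rw [h, hJcard])
      apply hcon
      have : Z ≤ J ⊔ Z := le_sup_right
      rw [← hJe] at this; exact this
    have h81 : Nat.card (J ⊔ Z : Subgroup G) = 81 := by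
      obtain ⟨k, hk⟩ := hd1
      have hle : Nat.card (J ⊔ Z : Subgroup G) ≤ 81 := Nat.le_of_dvd (by norm_num) hd2
      rw [hk] at hd2 hne27 hle ⊢
      have hk3 : k ≤ 3 := by omega
      interval_cases k
      · norm_num at hd2
      · exact absurd rfl hne27
      · norm_num at hd2
      · rfl
    have hKS : J ⊔ Z = (S : Subgroup G) :=
      Subgroup.eq_of_le_of_card_ge hK1 (by rw [h81, hScard])
    have hcJ : (S : Subgroup G) ≤ Subgroup.centralizer (J : Set G) := by
      rw [← hKS]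
      apply sup_le
      · intro a ha
        rw [Subgroup.mem_centralizer_iff]
        intro b hb
        have := hJcomm.is_comm.comm (⟨b, hb⟩ : J) ⟨a, ha⟩
        exact congrArg Subtype.val this
      · intro a ha
        rw [Subgroup.mem_centralizer_iff]
        intro b hb
        exact hZcS a ha b (hJS hb)
    have hJZ : J ≤ Z := by
      intro j hj
      rw [hZ]
      refine Subgroup.mem_inf.mpr ⟨hJS hj, Subgroup.mem_centralizer_iff.mpr ?_⟩
      intro s hs
      exact (Subgroup.mem_centralizer_iff.mp (hcJ hs) j hj).symm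
    have := Subgroup.card_le_of_le hJZ
    rw [hJcard, hZcard] at this
    omega
  obtain ⟨z, hzZ, hz1⟩ : ∃ z ∈ Z, z ≠ 1 := by
    by_contra hcon
    push Not at hcon
    have : Z = ⊥ := (Subgroup.eq_bot_iff_forall _).mpr hcon
    rw [this, Subgroup.card_bot] at hZcard
    omega
  have hz3 : z ^ 3 = 1 := hJexp z (hZJ hzZ)
  have hZmem : ∀ w ∈ Z, w = 1 ∨ w = z ∨ w = z⁻¹ := by
    intro w hw
    have hzp : Subgroup.zpowers z = Z := by
      apply Subgroup.eq_of_le_of_card_ge
      · rw [Subgroup.zpowers_le]; exact hzZ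
      · rw [Nat.card_zpowers, hZcard, orderOf_eq_prime hz3 hz1]
    rw [← hzp] at hw
    exact zp3 z hz3 w hw
  have hJc : ∀ a b : J, a * b = b * a := fun a b => hJcomm.is_comm.comm a b
  have hJ3 : ∀ a : J, a ^ 3 = 1 := fun a => Subtype.ext (by simpa using hJexp a.1 a.2)
  let τ : J ≃* J := MulAut.conjNormal t
  have hτapp : ∀ a : J, ((τ a : J) : G) = t * a * t⁻¹ := fun a => MulAut.conjNormal_apply t a
  have hττ : ∀ a : J, τ (τ a) = a := by
    intro a
    apply Subtype.ext
    rw [hτapp, hτapp, htinv]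
    calc t * (t * (a : G) * t) * t = (t * t) * (a : G) * (t * t) := by group
      _ = (a : G) := by rw [ht2, one_mul, mul_one]
  obtain ⟨Y, hYτ, hzY, hYtop⟩ := inv_compl hJc hJ3 τ hττ (⟨z, hZJ hzZ⟩ : J)
    (by intro h; exact hz1 (congrArg Subtype.val h))
  have hYcard : Nat.card Y = 9 := by
    have hz₀3 : (⟨z, hZJ hzZ⟩ : J) ^ 3 = 1 := hJ3 _
    have hz₀1 : (⟨z, hZJ hzZ⟩ : J) ≠ 1 := by intro h; exact hz1 (congrArg Subtype.val h)
    have hdisj : Disjoint Y (Subgroup.zpowers (⟨z, hZJ hzZ⟩ : J)) := by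
      rw [Subgroup.disjoint_def]
      intro w hwY hwz
      rcases zp3 _ hz₀3 w hwz with h | h | h
      · exact h
      · exact absurd (h ▸ hwY) hzY
      · exfalso; apply hzY
        have := Y.inv_mem hwY
        rw [h, inv_inv] at this; exact this
    haveI : (Subgroup.zpowers (⟨z, hZJ hzZ⟩ : J)).Normal :=
      ⟨fun n hn g => by rw [hJc g n, mul_inv_cancel_right]; exact hn⟩
    have hmul : (Y : Set J) * (Subgroup.zpowers (⟨z, hZJ hzZ⟩ : J) : Set J) = Set.univ := by
      rw [← Subgroup.mul_normal, hYtop]; rfl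
    have hcomp := Subgroup.isComplement'_of_disjoint_and_mul_eq_univ hdisj hmul
    have := hcomp.card_mul_card
    rw [Nat.card_zpowers, orderOf_eq_prime hz₀3 hz₀1] at this
    have hJ' : Nat.card J = 27 := hJcard
    omega
  set R₃ : Subgroup G := Y.map J.subtype with hR₃
  have hR₃card : Nat.card R₃ = 9 := by
    rw [hR₃, Subgroup.card_map_of_injective (Subgroup.subtype_injective J)]; exact hYcard
  have hR₃mem : ∀ g : G, g ∈ R₃ ↔ ∃ h : g ∈ J, (⟨g, h⟩ : J) ∈ Y := by
    intro g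
    rw [hR₃, Subgroup.mem_map]
    constructor
    · rintro ⟨y, hy, rfl⟩; exact ⟨y.2, hy⟩
    · rintro ⟨h, hy⟩; exact ⟨⟨g, h⟩, hy, rfl⟩
  have hR₃J : R₃ ≤ J := fun g hg => ((hR₃mem g).mp hg).1
  have hR₃t : ∀ r ∈ R₃, t * r * t⁻¹ ∈ R₃ := by
    intro r hr
    obtain ⟨h, hy⟩ := (hR₃mem r).mp hr
    rw [hR₃mem]
    refine ⟨hJn.conj_mem r h t, ?_⟩
    have := hYτ _ hy
    have e : τ ⟨r, h⟩ = ⟨t * r * t⁻¹, hJn.conj_mem r h t⟩ := Subtype.ext (hτapp _)
    rw [e] at this; exact this
  have hzR₃ : z ∉ R₃ := by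
    intro h
    obtain ⟨h', hy⟩ := (hR₃mem z).mp h
    exact hzY hy
  have hzinvR₃ : z⁻¹ ∉ R₃ := fun h => hzR₃ (by
    have := R₃.inv_mem h
    rwa [inv_inv] at this)
  have hJT : ∀ u ∈ J, u ∈ (T : Subgroup G) → u = 1 := by
    intro u huJ huT
    rcases hTmem u huT with h | h
    · exact h
    · exfalso; apply ht1
      have h3 := hJexp u huJ
      rw [h] at h3
      have : t ^ 3 = t := by rw [pow_succ, pow_two, ht2, one_mul]
      rw [this] at h3; exact h3
  have hTR₃ : ∀ u ∈ (T : Subgroup G), ∀ r ∈ R₃, u * r * u⁻¹ ∈ R₃ := by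
    intro u hu r hr
    rcases hTmem u hu with h | h
    · rw [h]; simpa using hr
    · rw [h]; exact hR₃t r hr
  let R : Subgroup G :=
    { carrier := {g | ∃ r ∈ R₃, ∃ u ∈ (T : Subgroup G), g = r * u}
      mul_mem' := by
        rintro a b ⟨r₁, hr₁, u₁, hu₁, rfl⟩ ⟨r₂, hr₂, u₂, hu₂, rfl⟩
        exact ⟨r₁ * (u₁ * r₂ * u₁⁻¹), R₃.mul_mem hr₁ (hTR₃ u₁ hu₁ r₂ hr₂), u₁ * u₂,
          Subgroup.mul_mem _ hu₁ hu₂, by group⟩
      one_mem' := ⟨1, R₃.one_mem, 1, Subgroup.one_mem _, by simp⟩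
      inv_mem' := by
        rintro a ⟨r, hr, u, hu, rfl⟩
        exact ⟨u⁻¹ * r⁻¹ * u⁻¹⁻¹, hTR₃ u⁻¹ (Subgroup.inv_mem _ hu) r⁻¹ (R₃.inv_mem hr), u⁻¹,
          Subgroup.inv_mem _ hu, by group⟩ }
  have hRcard : Nat.card R = 18 := by
    have e : (R₃ × (T : Subgroup G)) ≃ R :=
      Equiv.ofBijective (fun p => ⟨p.1.1 * p.2.1, ⟨p.1.1, p.1.2, p.2.1, p.2.2, rfl⟩⟩) (by
        constructor
        · rintro ⟨⟨r₁, hr₁⟩, ⟨u₁, hu₁⟩⟩ ⟨⟨r₂, hr₂⟩, ⟨u₂, hu₂⟩⟩ h
          have h' : r₁ * u₁ = r₂ * u₂ := congrArg Subtype.val h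
          have hx : r₂⁻¹ * r₁ = u₂ * u₁⁻¹ := by
            calc r₂⁻¹ * r₁ = r₂⁻¹ * (r₁ * u₁) * u₁⁻¹ := by group
              _ = r₂⁻¹ * (r₂ * u₂) * u₁⁻¹ := by rw [h']
              _ = u₂ * u₁⁻¹ := by group
          have h1 : r₂⁻¹ * r₁ = 1 :=
            hJT _ (hR₃J (R₃.mul_mem (R₃.inv_mem hr₂) hr₁))
              (by rw [hx]; exact Subgroup.mul_mem _ hu₂ (Subgroup.inv_mem _ hu₁))
          have hr : r₂ = r₁ := inv_mul_eq_one.mp h1
          subst hr
          have hu : u₁ = u₂ := mul_left_cancel h'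
          subst hu; rfl
        · rintro ⟨g, r, hr, u, hu, rfl⟩
          exact ⟨(⟨r, hr⟩, ⟨u, hu⟩), rfl⟩)
    rw [← Nat.card_congr e, Nat.card_prod, hR₃card, hTcard]
  have hZR : ∀ w ∈ Z, w ∈ R → w = 1 := by
    intro w hwZ hwR
    obtain ⟨r, hr, u, hu, hw⟩ := hwR
    have hu1 : u = 1 := by
      apply hJT u _ hu
      have : u = r⁻¹ * w := by rw [hw]; group
      rw [this]; exact J.mul_mem (J.inv_mem (hR₃J hr)) (hZJ hwZ)
    rw [hu1, mul_one] at hw
    rcases hZmem w hwZ with h | h | h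
    · exact h
    · exfalso; apply hzR₃; rw [← h, hw]; exact hr
    · exfalso; apply hzinvR₃; rw [← h, hw]; exact hr
  have hcore : R.normalCore = ⊥ := by
    by_contra hne
    have hNR : R.normalCore ≤ R := Subgroup.normalCore_le R
    haveI hNn : R.normalCore.Normal := Subgroup.normalCore_normal R
    by_cases hNS : R.normalCore ⊓ (S : Subgroup G) = ⊥
    · obtain ⟨n, hnN, hn1⟩ : ∃ n ∈ R.normalCore, n ≠ 1 := by
        by_contra hcon
        push Not at hcon
        exact hne ((Subgroup.eq_bot_iff_forall _).mpr hcon)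
      have hnS : n ∉ (S : Subgroup G) := fun h => hn1 (by
        have : n ∈ R.normalCore ⊓ (S : Subgroup G) := ⟨hnN, h⟩
        rw [hNS] at this; exact Subgroup.mem_bot.mp this)
      have hncent : ∀ s ∈ (S : Subgroup G), n * s = s * n := by
        intro s hs
        have hmem : n * s * n⁻¹ * s⁻¹ ∈ R.normalCore ⊓ (S : Subgroup G) := by
          constructor
          · have : n * s * n⁻¹ * s⁻¹ = n * (s * n⁻¹ * s⁻¹) := by group
            rw [this]
            exact Subgroup.mul_mem _ hnN (hNn.conj_mem _ (Subgroup.inv_mem _ hnN) s)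
          · exact Subgroup.mul_mem _ (hSn.conj_mem s hs n) (Subgroup.inv_mem _ hs)
        rw [hNS, Subgroup.mem_bot] at hmem
        calc n * s = (n * s * n⁻¹ * s⁻¹) * (s * n) := by group
          _ = s * n := by rw [hmem, one_mul]
      have hn2 : n * n = 1 := by
        have h1 : n * n ∈ (S : Subgroup G) := Subgroup.mul_self_mem_of_index_two hSidx n
        have h2 : n * n ∈ R.normalCore ⊓ (S : Subgroup G) := ⟨Subgroup.mul_mem _ hnN hnN, h1⟩
        rw [hNS] at h2; exact Subgroup.mem_bot.mp h2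
      have hodd : ∀ s ∈ (S : Subgroup G), s * s = 1 → s = 1 := by
        intro s hs hss
        have h81 := hS81 s hs
        have : s ^ 81 = s := by
          have e : s ^ 81 = (s * s) ^ 40 * s := by rw [← pow_two, ← pow_mul, ← pow_succ]
          rw [e, hss, one_pow, one_mul]
        rw [this] at h81; exact h81
      have htS : t ∉ (S : Subgroup G) := fun h => ht1 (hodd t h ht2)
      have htn : t * n ∈ (S : Subgroup G) := by
        rw [Subgroup.mul_mem_iff_of_index_two hSidx]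
        exact ⟨fun h => absurd h htS, fun h => absurd h hnS⟩
      have hts : t = (t * n) * n := by rw [mul_assoc, hn2, mul_one]
      have hs₁2 : (t * n) * (t * n) = 1 := by
        have h1 : ((t * n) * n) * ((t * n) * n) = (t * n) * (t * n) * (n * n) := by
          calc ((t * n) * n) * ((t * n) * n) = (t * n) * (n * (t * n)) * n := by group
            _ = (t * n) * ((t * n) * n) * n := by rw [hncent (t * n) htn]
            _ = (t * n) * (t * n) * (n * n) := by group
        rw [← hts, ht2, hn2, mul_one] at h1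
        exact h1.symm
      have hs₁1 : t * n = 1 := hodd _ htn hs₁2
      have htn' : t = n := by rw [hts, hs₁1, one_mul]
      apply hST
      apply le_antisymm inf_le_left
      intro s hs
      refine Subgroup.mem_inf.mpr ⟨hs, Subgroup.mem_centralizer_iff.mpr ?_⟩
      intro u hu
      rcases hTmem u hu with h | h
      · rw [h, one_mul, mul_one]
      · rw [h, htn']; exact hncent s hs
    · have hIS : IsPGroup 3 (S : Subgroup G) := S.isPGroup'
      have hsub : R.normalCore.subgroupOf (S : Subgroup G) ≠ ⊥ := by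
        intro h
        apply hNS
        rw [Subgroup.subgroupOf_eq_bot] at h
        exact disjoint_iff.mp h
      obtain ⟨b, hbN, hb1, hbZ⟩ := Cfsg.Agent.Lead.normal_inf_center_ne_bot' 3 hIS
        (R.normalCore.subgroupOf (S : Subgroup G)) hsub
      have hbZ' : (b : G) ∈ Z := by
        rw [hZ]
        refine Subgroup.mem_inf.mpr ⟨b.2, Subgroup.mem_centralizer_iff.mpr ?_⟩
        intro s hs
        have := Subgroup.mem_center_iff.mp hbZ ⟨s, hs⟩
        exact congrArg Subtype.val this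
      have hbR : (b : G) ∈ R := hNR (Subgroup.mem_subgroupOf.mp hbN)
      exact hb1 (Subtype.ext (hZR _ hbZ' hbR))
  let φ : G →* Equiv.Perm (G ⧸ R) := MulAction.toPermHom G (G ⧸ R)
  have hφinj : Function.Injective φ := by
    rw [← MonoidHom.ker_eq_bot_iff, ← Subgroup.normalCore_eq_ker]; exact hcore
  have hφz : ∀ q : G ⧸ R, φ z q ≠ q := by
    intro q
    induction q using QuotientGroup.induction_on with
    | H g =>
      intro h
      have h' : ((z * g : G) : G ⧸ R) = (g : G ⧸ R) := h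
      rw [QuotientGroup.eq] at h'
      have e : (z * g)⁻¹ * g = z⁻¹ := by
        rw [← hZcen z hzZ g]; group
      rw [e] at h'
      exact hz1 (by
        have := hZR z⁻¹ (Z.inv_mem hzZ) h'
        simpa using this)
  have hidx : R.index = 9 := by
    have := R.card_mul_index
    rw [hRcard, hG] at this; omega
  have hcardQ : Nat.card (G ⧸ R) = 9 := hidx
  let e₀ : (G ⧸ R) ≃ Fin 9 := Finite.equivFinOfCardEq hcardQ
  let Ψ₀ : G →* Equiv.Perm (Fin 9) := e₀.permCongrHom.toMonoidHom.comp φ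
  have hΨ₀inj : Function.Injective Ψ₀ := e₀.permCongrHom.injective.comp hφinj
  have hΨ₀z3 : (Ψ₀ z) ^ 3 = 1 := by rw [← map_pow, hz3, map_one]
  have hΨ₀fix : ∀ i, Ψ₀ z i ≠ i := by
    intro i h
    have h' : e₀ (φ z (e₀.symm i)) = i := h
    apply hφz (e₀.symm i)
    apply e₀.injective
    rw [h', Equiv.apply_symm_apply]
  have hct := perm9_cycleType (by simp) (Ψ₀ z) hΨ₀z3 hΨ₀fix
  have hcc := perm9_cycleType (by simp) c hc3 hcfix
  have hconj : IsConj (Ψ₀ z) c := Equiv.Perm.isConj_iff_cycleType_eq.mpr (hct.trans hcc.symm)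
  obtain ⟨g, hg⟩ := isConj_iff.mp hconj
  let Ψ : G →* Equiv.Perm (Fin 9) := (MulAut.conj g).toMonoidHom.comp Ψ₀
  have hΨinj : Function.Injective Ψ := (MulAut.conj g).injective.comp hΨ₀inj
  have hΨz : Ψ z = c := hg
  have hΨmem : ∀ x : G, Ψ x ∈ Subgroup.centralizer ({c} : Set (Equiv.Perm (Fin 9))) := by
    intro x
    rw [Subgroup.mem_centralizer_iff]
    intro h hh
    rw [Set.mem_singleton_iff] at hh
    rw [hh, ← hΨz, ← map_mul, ← map_mul, hZcen z hzZ x]
  let Ψ' : G →* Subgroup.centralizer ({c} : Set (Equiv.Perm (Fin 9))) := Ψ.codRestrict _ hΨmem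
  have hΨ'inj : Function.Injective Ψ' := by
    intro a b hab
    apply hΨinj
    exact congrArg Subtype.val hab
  have hcardC : Nat.card (Subgroup.centralizer ({c} : Set (Equiv.Perm (Fin 9)))) = 162 :=
    perm9_card_centralizer (by simp) c hc3 hcfix
  have hbij : Function.Bijective Ψ' :=
    hΨ'inj.bijective_of_nat_card_le (by rw [hcardC, hG])
  exact ⟨MulEquiv.ofBijective Ψ' hbij⟩

end Cfsg.Agent.Helper19.C3S3
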