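import Mathlib

/-!
Groups of order 64 with a fixed-point-free automorphism of order three:
basic identities, the centre has order four, squares are central.
-/

set_option autoImplicit false

namespace Cfsg.Agent.Helper19.Fpf3

section basic

variable {T : Type*} [Group T] [Finite T] (ρ : MulAut T) (h3 : ∀ t, ρ (ρ (ρ t)) = t)
  (hfp : ∀ y : T, ρ y = y → y = 1)

include h3 hfp

theorem prod3 (y : T) : y * ρ y * ρ (ρ y) = 1 := by
  have hinj : Function.Injective (fun t : T => t⁻¹ * ρ t) := by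
    intro t s hts
    have hts' : t⁻¹ * ρ t = s⁻¹ * ρ s := hts
    have h1 : ρ (s * t⁻¹) = s * t⁻¹ := by
      rw [map_mul, map_inv]
      have h2 : ρ s = s * (t⁻¹ * ρ t) := by rw [hts']; group
      rw [h2]; group
    have h4 := hfp _ h1
    exact (mul_inv_eq_one.mp h4).symm
  obtain ⟨t, ht⟩ := (Finite.injective_iff_surjective.mp hinj) y
  have ht' : t⁻¹ * ρ t = y := ht
  subst ht'
  simp only [map_mul, map_inv, h3]
  group

theorem prod3' (y : T) : ρ (ρ y) * ρ y * y = 1 := by
  have h := prod3 ρ h3 hfp y⁻¹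
  simp only [map_inv] at h
  have h2 := congrArg (fun g => g⁻¹) h
  simp only [mul_inv_rev, inv_inv, inv_one] at h2
  rw [mul_assoc]; exact h2

theorem comm_rho (y : T) : y * ρ y = ρ y * y := by
  have h1 := prod3 ρ h3 hfp y
  have h2 := prod3' ρ h3 hfp y
  have e1 : ρ (ρ y) = (y * ρ y)⁻¹ := eq_inv_of_mul_eq_one_right h1
  have e2 : ρ (ρ y) = (ρ y * y)⁻¹ := by
    rw [mul_assoc] at h2
    exact eq_inv_of_mul_eq_one_left h2
  exact inv_injective (e1.symm.trans e2)

theorem comm_rho2 (y : T) : y * ρ (ρ y) = ρ (ρ y) * y := by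
  have h := comm_rho ρ h3 hfp (ρ (ρ y))
  rw [h3] at h
  exact h.symm

omit hfp in
theorem rho_ne_one {y : T} (hy : y ≠ 1) : ρ y ≠ 1 := by
  intro h
  apply hy
  have := congrArg (fun g => ρ (ρ g)) h
  simpa [h3] using this

/-- Klein four relations for an involution -/
theorem klein (t : T) (ht : t * t = 1) :
    ρ t * ρ t = 1 ∧ ρ (ρ t) * ρ (ρ t) = 1 ∧ t * ρ t = ρ (ρ t) ∧ ρ t * t = ρ (ρ t) ∧
      t * ρ (ρ t) = ρ t ∧ ρ (ρ t) * t = ρ t ∧ ρ t * ρ (ρ t) = t ∧ ρ (ρ t) * ρ t = t := by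
  have hr : ρ t * ρ t = 1 := by rw [← map_mul, ht, map_one]
  have hs : ρ (ρ t) * ρ (ρ t) = 1 := by rw [← map_mul, hr, map_one]
  have hp := prod3 ρ h3 hfp t
  have hc := comm_rho ρ h3 hfp t
  have hc2 := comm_rho2 ρ h3 hfp t
  have hc3 := comm_rho ρ h3 hfp (ρ t)
  have e1 : t * ρ t = ρ (ρ t) := by
    have : t * ρ t = (ρ (ρ t))⁻¹ := eq_inv_of_mul_eq_one_left hp
    rw [this]
    exact inv_eq_of_mul_eq_one_left hs
  have e2 : ρ t * t = ρ (ρ t) := by rw [← hc]; exact e1
  have e3 : t * ρ (ρ t) = ρ t := by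
    rw [← e1, ← mul_assoc, ht, one_mul]
  have e4 : ρ (ρ t) * t = ρ t := by rw [← hc2]; exact e3
  have e5 : ρ t * ρ (ρ t) = t := by
    rw [← e2, ← mul_assoc, hr, one_mul]
  have e6 : ρ (ρ t) * ρ t = t := by rw [← hc3]; exact e5
  exact ⟨hr, hs, e1, e2, e3, e4, e5, e6⟩

theorem card_inv (hT : Nat.card T = 64) (K : Subgroup T) (hK : ∀ t ∈ K, ρ t ∈ K) :
    Nat.card K = 1 ∨ Nat.card K = 4 ∨ Nat.card K = 16 ∨ Nat.card K = 64 := by
  classical
  have : Fintype K := Fintype.ofFinite K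
  have hK' : ∀ t, t ∈ K ↔ ρ t ∈ K := fun t => ⟨hK t, fun h => by
    have := hK _ (hK _ h); rwa [h3] at this⟩
  let σ : Equiv.Perm K := ρ.toEquiv.subtypeEquiv hK'
  have hσ : ∀ k : K, ((σ k : K) : T) = ρ (k : T) := fun k => rfl
  have : Fact (Nat.Prime 3) := ⟨by norm_num⟩
  have hσ3 : σ ^ 3 ^ 1 = 1 := by
    ext k
    rw [pow_one, pow_succ, pow_two]
    simp only [Equiv.Perm.mul_apply, Equiv.Perm.one_apply, hσ]
    exact h3 k
  have hmod := Equiv.Perm.card_compl_support_modEq hσ3
  have hsupp : σ.supportᶜ = {1} := by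
    ext k
    simp only [Finset.mem_compl, Equiv.Perm.mem_support, not_not, Finset.mem_singleton]
    constructor
    · intro hk
      have h1 : ρ (k : T) = k := by rw [← hσ, hk]
      exact Subtype.ext (hfp _ h1)
    · rintro rfl
      exact Subtype.ext (by rw [hσ]; simp)
  rw [hsupp, Finset.card_singleton] at hmod
  have hd : Nat.card K ∣ 64 := hT ▸ Subgroup.card_subgroup_dvd_card K
  rw [← Nat.card_eq_fintype_card] at hmod
  have hm : Nat.card K % 3 = 1 := by
    have := hmod.symm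
    unfold Nat.ModEq at this
    omega
  have hle : Nat.card K ≤ 64 := Nat.le_of_dvd (by norm_num) hd
  generalize Nat.card K = n at *
  interval_cases n <;> omega

/-- the subgroup centralizing `t, ρ t, ρ² t` -/
def D (t : T) : Subgroup T := Subgroup.centralizer {t, ρ t, ρ (ρ t)}

omit [Finite T] h3 hfp in
theorem mem_D (t g : T) :
    g ∈ D ρ t ↔ t * g = g * t ∧ ρ t * g = g * ρ t ∧ ρ (ρ t) * g = g * ρ (ρ t) := by
  unfold D
  rw [Subgroup.mem_centralizer_iff]
  simp only [Set.mem_insert_iff, Set.mem_singleton_iff, forall_eq_or_imp, forall_eq]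

omit [Finite T] hfp in
theorem D_inv (t g : T) (hg : g ∈ D ρ t) : ρ g ∈ D ρ t := by
  rw [mem_D] at hg ⊢
  obtain ⟨h1, h2, h4⟩ := hg
  refine ⟨?_, ?_, ?_⟩
  · have := congrArg ρ h4
    simpa [h3] using this
  · have := congrArg ρ h1
    simpa using this
  · have := congrArg ρ h2
    simpa using this

omit [Finite T] h3 hfp in
theorem center_le_D (t : T) : Subgroup.center T ≤ D ρ t := by
  intro z hz
  rw [Subgroup.mem_center_iff] at hz
  rw [mem_D]
  exact ⟨hz _, hz _, hz _⟩

theorem self_mem_D (t : T) : t ∈ D ρ t := by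
  rw [mem_D]
  exact ⟨rfl, (comm_rho ρ h3 hfp t).symm, (comm_rho2 ρ h3 hfp t).symm⟩

omit [Finite T] h3 hfp in
theorem central_of_D_top (t : T) (h : D ρ t = ⊤) : t ∈ Subgroup.center T := by
  rw [Subgroup.mem_center_iff]
  intro g
  have hg : g ∈ D ρ t := by rw [h]; trivial
  rw [mem_D] at hg
  exact hg.1.symm

omit [Finite T] hfp in
theorem center_inv (t : T) (ht : t ∈ Subgroup.center T) : ρ t ∈ Subgroup.center T := by
  rw [Subgroup.mem_center_iff] at ht ⊢
  intro g
  have := congrArg ρ (ht (ρ (ρ g)))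
  simpa [h3] using this

/-- squares of a rho-invariant abelian subgroup four times as big as an invariant subgroup -/
theorem sq_mem_of_card (hT : Nat.card T = 64) (Z' D' : Subgroup T) (hle : Z' ≤ D')
    (hZ' : ∀ t ∈ Z', ρ t ∈ Z') (hD' : ∀ t ∈ D', ρ t ∈ D')
    (hab : ∀ g ∈ D', ∀ h ∈ D', g * h = h * g) (hcard : Nat.card D' = 4 * Nat.card Z') :
    ∀ y ∈ D', y ^ 2 ∈ Z' := by
  let E : Subgroup T :=
    { carrier := {y | y ∈ D' ∧ y ^ 2 ∈ Z'}
      mul_mem' := by
        rintro a b ⟨ha, ha2⟩ ⟨hb, hb2⟩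
        refine ⟨mul_mem ha hb, ?_⟩
        have hc : Commute a b := hab a ha b hb
        rw [hc.mul_pow]
        exact mul_mem ha2 hb2
      one_mem' := ⟨one_mem _, by rw [one_pow]; exact one_mem _⟩
      inv_mem' := by
        rintro a ⟨ha, ha2⟩
        refine ⟨inv_mem ha, ?_⟩
        rw [inv_pow]
        exact inv_mem ha2 }
  have hE : ∀ y, y ∈ E ↔ y ∈ D' ∧ y ^ 2 ∈ Z' := fun y => Iff.rfl
  have hEinv : ∀ t ∈ E, ρ t ∈ E := by
    intro t ht
    rw [hE] at ht ⊢
    refine ⟨hD' t ht.1, ?_⟩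
    rw [← map_pow]
    exact hZ' _ ht.2
  have hZE : Z' ≤ E := fun z hz => (hE z).mpr ⟨hle hz, pow_mem hz 2⟩
  have hED : E ≤ D' := fun y hy => ((hE y).mp hy).1
  have c1 := card_inv ρ h3 hfp hT Z' hZ'
  have c2 := card_inv ρ h3 hfp hT E hEinv
  have c3 := card_inv ρ h3 hfp hT D' hD'
  have l1 := Subgroup.card_le_of_le hZE
  have l2 := Subgroup.card_le_of_le hED
  have hcases : Nat.card E = Nat.card D' ∨ Nat.card E = Nat.card Z' := by omega
  rcases hcases with h | h
  · have hEq : E = D' := Subgroup.eq_of_le_of_card_ge hED (le_of_eq h.symm)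
    intro y hy
    rw [← hEq] at hy
    exact ((hE y).mp hy).2
  · exfalso
    have hEq : Z' = E := Subgroup.eq_of_le_of_card_ge hZE (le_of_eq h)
    have key : ∀ k : ℕ, ∀ y ∈ D', y ^ (2 ^ k) ∈ Z' → y ∈ Z' := by
      intro k
      induction k with
      | zero => intro y _ hy; simpa using hy
      | succ k ih =>
        intro y hy hy2
        apply ih y hy
        rw [hEq, hE]
        refine ⟨pow_mem hy _, ?_⟩
        rw [← pow_mul, ← pow_succ]
        exact hy2
    have hDZ : D' ≤ Z' := by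
      intro y hy
      apply key 6 y hy
      have : y ^ 2 ^ 6 = 1 := by
        have := pow_card_eq_one' (G := T) (x := y)
        rw [hT] at this
        exact this
      rw [this]
      exact one_mem _
    have l3 := Subgroup.card_le_of_le hDZ
    omega

theorem struct64 (hT : Nat.card T = 64) (hna : ¬ IsMulCommutative T) :
    Nat.card (Subgroup.center T) = 4 ∧ (∀ t : T, t ^ 2 ∈ Subgroup.center T) ∧
      (∀ z ∈ Subgroup.center T, z ^ 2 = 1) := by
  have : Fact (Nat.Prime 2) := ⟨Nat.prime_two⟩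
  have hp : IsPGroup 2 T := IsPGroup.of_card (n := 6) (by rw [hT]; norm_num)
  have hnt : Nontrivial T := by
    rw [← Finite.one_lt_card_iff_nontrivial, hT]; norm_num
  have hZnt : Nontrivial (Subgroup.center T) := hp.center_nontrivial
  have hZ1 : 1 < Nat.card (Subgroup.center T) := Finite.one_lt_card
  have hZinv : ∀ t ∈ Subgroup.center T, ρ t ∈ Subgroup.center T := center_inv ρ h3
  have hZc := card_inv ρ h3 hfp hT _ hZinv
  have hZtop : Subgroup.center T ≠ ⊤ := by
    intro h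
    apply hna
    refine ⟨⟨fun a b => ?_⟩⟩
    have hb : b ∈ Subgroup.center T := by rw [h]; trivial
    exact Subgroup.mem_center_iff.mp hb a
  have hZ64 : Nat.card (Subgroup.center T) ≠ 64 := by
    intro h
    exact hZtop (Subgroup.eq_top_of_card_eq _ (by rw [h, hT]))
  obtain ⟨t0, ht0⟩ : ∃ t0 : T, t0 ∉ Subgroup.center T := by
    by_contra hcon
    push Not at hcon
    exact hZtop (Subgroup.eq_top_iff' _ |>.mpr hcon)
  have hDinv : ∀ t : T, ∀ g ∈ D ρ t, ρ g ∈ D ρ t := fun t g hg => D_inv ρ h3 t g hg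
  have hDne : ∀ t : T, t ∉ Subgroup.center T → Nat.card (D ρ t) ≠ 64 := by
    intro t ht h
    exact ht (central_of_D_top ρ t (Subgroup.eq_top_of_card_eq _ (by rw [h, hT])))
  have hDneZ : ∀ t : T, t ∉ Subgroup.center T →
      Nat.card (D ρ t) ≠ Nat.card (Subgroup.center T) := by
    intro t ht h
    have hEq : Subgroup.center T = D ρ t :=
      Subgroup.eq_of_le_of_card_ge (center_le_D ρ t) (le_of_eq h)
    apply ht
    rw [hEq]
    exact self_mem_D ρ h3 hfp t
  have hZ4 : Nat.card (Subgroup.center T) = 4 := by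
    have c := card_inv ρ h3 hfp hT _ (hDinv t0)
    have l := Subgroup.card_le_of_le (center_le_D ρ t0)
    have n1 := hDne t0 ht0
    have n2 := hDneZ t0 ht0
    omega
  have hD16 : ∀ t : T, t ∉ Subgroup.center T → Nat.card (D ρ t) = 16 := by
    intro t ht
    have c := card_inv ρ h3 hfp hT _ (hDinv t)
    have l := Subgroup.card_le_of_le (center_le_D ρ t)
    have n1 := hDne t ht
    have n2 := hDneZ t ht
    omega
  have hDab : ∀ t : T, t ∉ Subgroup.center T → ∀ g ∈ D ρ t, ∀ h ∈ D ρ t, g * h = h * g := by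
    intro t ht
    let DD : Subgroup T := D ρ t ⊓ Subgroup.centralizer (D ρ t : Set T)
    have hDDinv : ∀ g ∈ DD, ρ g ∈ DD := by
      intro g hg
      rw [Subgroup.mem_inf] at hg ⊢
      refine ⟨hDinv t g hg.1, ?_⟩
      rw [Subgroup.mem_centralizer_iff]
      intro h hh
      have hh' : ρ (ρ h) ∈ D ρ t := hDinv t _ (hDinv t _ hh)
      have := congrArg ρ (Subgroup.mem_centralizer_iff.mp hg.2 _ hh')
      simpa [h3] using this
    have hZDD : Subgroup.center T ≤ DD := by
      intro z hz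
      rw [Subgroup.mem_inf]
      exact ⟨center_le_D ρ t hz, Subgroup.center_le_centralizer _ hz⟩
    have htDD : t ∈ DD := by
      rw [Subgroup.mem_inf]
      refine ⟨self_mem_D ρ h3 hfp t, ?_⟩
      rw [Subgroup.mem_centralizer_iff]
      intro h hh
      have := (mem_D ρ t h).mp hh
      exact this.1.symm
    have c := card_inv ρ h3 hfp hT _ hDDinv
    have l := Subgroup.card_le_of_le hZDD
    have l2 := Subgroup.card_le_of_le (inf_le_left : DD ≤ D ρ t)
    have n2 : Nat.card DD ≠ Nat.card (Subgroup.center T) := by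
      intro h
      have hEq : Subgroup.center T = DD := Subgroup.eq_of_le_of_card_ge hZDD (le_of_eq h)
      apply ht
      rw [hEq]
      exact htDD
    have hd := hD16 t ht
    have hEq : DD = D ρ t := Subgroup.eq_of_le_of_card_ge inf_le_left (by omega)
    intro g hg h hh
    have hg' : g ∈ DD := by rw [hEq]; exact hg
    rw [Subgroup.mem_inf] at hg'
    exact (Subgroup.mem_centralizer_iff.mp hg'.2 h hh).symm
  refine ⟨hZ4, ?_, ?_⟩
  · intro t
    by_cases ht : t ∈ Subgroup.center T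
    · exact pow_mem ht 2
    · exact sq_mem_of_card ρ h3 hfp hT (Subgroup.center T) (D ρ t) (center_le_D ρ t) hZinv
        (hDinv t) (hDab t ht) (by rw [hD16 t ht, hZ4]) t (self_mem_D ρ h3 hfp t)
  · intro z hz
    have := sq_mem_of_card ρ h3 hfp hT ⊥ (Subgroup.center T) bot_le
      (fun t ht => by rw [Subgroup.mem_bot] at ht ⊢; rw [ht, map_one]) hZinv
      (fun g hg h _ => (Subgroup.mem_center_iff.mp hg h).symm)
      (by rw [hZ4, Subgroup.card_bot]) z hz
    exact Subgroup.mem_bot.mp this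

end basic

end Cfsg.Agent.Helper19.Fpf3
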