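import Mathlib
import Cfsg.Agent.Helper19.Fpf3a

/-!
Commutator calculus in the groups of `Fpf3a`, bilinearity of the commutator over the
field of four elements, and the consequences of an involutory automorphism inverting `ρ`.
-/

set_option autoImplicit false

namespace Cfsg.Agent.Helper19.Fpf3

/-- commutator -/
def cm {T : Type*} [Group T] (u v : T) : T := u * v * u⁻¹ * v⁻¹

section comm

variable {T : Type*} [Group T] (hsq : ∀ t : T, t ^ 2 ∈ Subgroup.center T)
  (hz2 : ∀ z ∈ Subgroup.center T, z ^ 2 = 1)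

theorem cm_one_left (v : T) : cm 1 v = 1 := by unfold cm; group

theorem cm_one_right (u : T) : cm u 1 = 1 := by unfold cm; group

theorem cm_self (u : T) : cm u u = 1 := by unfold cm; group

theorem cm_eq_one_iff (u v : T) : cm u v = 1 ↔ u * v = v * u := by
  unfold cm
  constructor
  · intro h
    have e : u * v = (u * v * u⁻¹ * v⁻¹) * (v * u) := by group
    rw [e, h, one_mul]
  · intro h
    have e : u * v * u⁻¹ * v⁻¹ = (u * v) * (v * u)⁻¹ := by group
    rw [e, h, mul_inv_cancel]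

theorem cm_inv (u v : T) : (cm u v)⁻¹ = cm v u := by unfold cm; group

theorem cm_central_left (z v : T) (hz : z ∈ Subgroup.center T) : cm z v = 1 := by
  rw [cm_eq_one_iff]; exact (Subgroup.mem_center_iff.mp hz v).symm

theorem cm_central_right (u z : T) (hz : z ∈ Subgroup.center T) : cm u z = 1 := by
  rw [cm_eq_one_iff]; exact Subgroup.mem_center_iff.mp hz u

theorem cm_map (ρ : MulAut T) (u v : T) : ρ (cm u v) = cm (ρ u) (ρ v) := by
  unfold cm; simp only [map_mul, map_inv]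

include hsq

theorem cm_mem (u v : T) : cm u v ∈ Subgroup.center T := by
  have h1 : v * u ^ 2 = u ^ 2 * v := Subgroup.mem_center_iff.mp (hsq u) v
  have key : cm u v = (u * v) ^ 2 * (u ^ 2)⁻¹ * (v ^ 2)⁻¹ := by
    rw [eq_mul_inv_iff_mul_eq, eq_mul_inv_iff_mul_eq]
    calc cm u v * v ^ 2 * u ^ 2 = u * v * u⁻¹ * (v * u ^ 2) := by unfold cm; group
      _ = u * v * u⁻¹ * (u ^ 2 * v) := by rw [h1]
      _ = (u * v) ^ 2 := by simp only [pow_two]; group
  rw [key]
  exact mul_mem (mul_mem (hsq _) (inv_mem (hsq _))) (inv_mem (hsq _))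

theorem cm_central (u v g : T) : g * cm u v = cm u v * g :=
  Subgroup.mem_center_iff.mp (cm_mem hsq u v) g

theorem cm_mul_left (u u' v : T) : cm (u * u') v = cm u v * cm u' v := by
  have hc := cm_central hsq u' v
  calc cm (u * u') v = u * cm u' v * (v * u⁻¹ * v⁻¹) := by unfold cm; group
    _ = cm u' v * u * (v * u⁻¹ * v⁻¹) := by rw [hc u]
    _ = cm u' v * cm u v := by unfold cm; group
    _ = cm u v * cm u' v := (hc _).symm

theorem cm_mul_right (u v v' : T) : cm u (v * v') = cm u v * cm u v' := by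
  have hc := cm_central hsq u v'
  calc cm u (v * v') = u * v * u⁻¹ * (cm u v' * v⁻¹) := by unfold cm; group
    _ = u * v * u⁻¹ * (v⁻¹ * cm u v') := by rw [← hc v⁻¹]
    _ = cm u v * cm u v' := by unfold cm; group

theorem sq_mul (u v : T) : (u * v) ^ 2 = cm v u * u ^ 2 * v ^ 2 := by
  have hc := cm_central hsq v u
  calc (u * v) ^ 2 = u * cm v u * (u * v ^ 2) := by unfold cm; simp only [pow_two]; group
    _ = cm v u * u * (u * v ^ 2) := by rw [hc u]
    _ = cm v u * u ^ 2 * v ^ 2 := by simp only [pow_two]; group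

include hz2

theorem cm_sq (u v : T) : cm u v * cm u v = 1 := by
  have := hz2 _ (cm_mem hsq u v)
  rwa [pow_two] at this

theorem cm_symm (u v : T) : cm u v = cm v u := by
  calc cm u v = (cm v u)⁻¹ := (cm_inv v u).symm
    _ = cm v u := inv_eq_of_mul_eq_one_left (cm_sq hsq hz2 v u)

theorem cm_inv_left (t s : T) : cm t⁻¹ s = cm t s := by
  have h := cm_mul_left hsq t⁻¹ t s
  rw [inv_mul_cancel, cm_one_left] at h
  have h2 := cm_sq hsq hz2 t s
  calc cm t⁻¹ s = cm t⁻¹ s * (cm t s * cm t s) := by rw [h2, mul_one]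
    _ = (cm t⁻¹ s * cm t s) * cm t s := by rw [mul_assoc]
    _ = cm t s := by rw [← h, one_mul]

end comm

theorem bil_abs {A : Type*} [CommGroup A] (r : A → A) (hmul : ∀ a b, r (a * b) = r a * r b)
    (h1r : r 1 = 1) (h3 : ∀ a, r (r (r a)) = a) (hp : ∀ a, a * r a * r (r a) = 1)
    (hsq : ∀ a : A, a * a = 1) (W X Y : A) (h1 : W * X * r (r Y) = 1)
    (h2 : W * Y * r (r X) = 1) : X = r (r W) ∧ Y = X := by
  have hS : X * Y * r (r (X * Y)) = 1 := by
    rw [hmul, hmul]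
    calc X * Y * (r (r X) * r (r Y)) = (W * W) * (X * Y * (r (r X) * r (r Y))) := by
          rw [hsq, one_mul]
      _ = (W * X * r (r Y)) * (W * Y * r (r X)) := by ac_rfl
      _ = 1 := by rw [h1, h2, one_mul]
  have hrS : r (X * Y) = 1 := by
    have := hp (X * Y)
    calc r (X * Y) = (X * Y * r (r (X * Y))) * r (X * Y) := by rw [hS, one_mul]
      _ = X * Y * r (X * Y) * r (r (X * Y)) := by ac_rfl
      _ = 1 := this
  have hS1 : X * Y = 1 := by
    have := h3 (X * Y)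
    rw [hrS, h1r, h1r] at this
    exact this.symm
  have hXY : Y = X := by
    calc Y = (X * Y) * Y := by rw [hS1, one_mul]
      _ = X * (Y * Y) := by rw [mul_assoc]
      _ = X := by rw [hsq, mul_one]
  refine ⟨?_, hXY⟩
  rw [hXY] at h1
  have hW : W = r X := by
    calc W = W * (X * r X * r (r X)) := by rw [hp, mul_one]
      _ = (W * X * r (r X)) * r X := by ac_rfl
      _ = r X := by rw [h1, one_mul]
  rw [hW, h3]

section main

variable {T : Type*} [Group T] [Finite T] (ρ : MulAut T) (h3 : ∀ t, ρ (ρ (ρ t)) = t)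
  (hfp : ∀ y : T, ρ y = y → y = 1) (hsq : ∀ t : T, t ^ 2 ∈ Subgroup.center T)
  (hz2 : ∀ z ∈ Subgroup.center T, z ^ 2 = 1)

include h3 hfp hsq hz2

theorem bil (u v : T) : cm (ρ u) v = ρ (ρ (cm u v)) ∧ cm u (ρ v) = ρ (ρ (cm u v)) := by
  letI : CommGroup (Subgroup.center T) :=
    { (inferInstance : Group (Subgroup.center T)) with
      mul_comm := fun a b => Subtype.ext (Subgroup.mem_center_iff.mp b.2 a) }
  let r : Subgroup.center T → Subgroup.center T := fun z => ⟨ρ z, center_inv ρ h3 z z.2⟩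
  let W : Subgroup.center T := ⟨cm u v, cm_mem hsq u v⟩
  let X : Subgroup.center T := ⟨cm (ρ u) v, cm_mem hsq _ _⟩
  let Y : Subgroup.center T := ⟨cm u (ρ v), cm_mem hsq _ _⟩
  have h1 : W * X * r (r Y) = 1 := by
    apply Subtype.ext
    show cm u v * cm (ρ u) v * ρ (ρ (cm u (ρ v))) = 1
    rw [cm_map, cm_map, h3, ← cm_mul_left hsq, ← cm_mul_left hsq, prod3 ρ h3 hfp, cm_one_left]
  have h2 : W * Y * r (r X) = 1 := by
    apply Subtype.ext
    show cm u v * cm u (ρ v) * ρ (ρ (cm (ρ u) v)) = 1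
    rw [cm_map, cm_map, h3, ← cm_mul_right hsq, ← cm_mul_right hsq, prod3 ρ h3 hfp,
      cm_one_right]
  have key := bil_abs r (fun a b => Subtype.ext (map_mul ρ _ _)) (Subtype.ext (map_one ρ))
    (fun a => Subtype.ext (h3 _)) (fun a => Subtype.ext (prod3 ρ h3 hfp _))
    (fun a => Subtype.ext (by
      have := hz2 a a.2
      rw [pow_two] at this
      show (a : T) * (a : T) = 1
      exact this)) W X Y h1 h2
  have k1 : cm (ρ u) v = ρ (ρ (cm u v)) := congrArg Subtype.val key.1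
  have k2 : cm u (ρ v) = cm (ρ u) v := congrArg Subtype.val key.2
  exact ⟨k1, k2.trans k1⟩

theorem br2 (g u : T) : cm g (ρ (ρ u)) = ρ (cm g u) := by
  rw [(bil ρ h3 hfp hsq hz2 g (ρ u)).2, (bil ρ h3 hfp hsq hz2 g u).2, h3]

theorem bl2 (g u : T) : cm (ρ (ρ g)) u = ρ (cm g u) := by
  rw [(bil ρ h3 hfp hsq hz2 (ρ g) u).1, (bil ρ h3 hfp hsq hz2 g u).1, h3]

omit hsq hz2 in
theorem center_enum (hZ4 : Nat.card (Subgroup.center T) = 4) (c : T)
    (hc : c ∈ Subgroup.center T) (hc1 : c ≠ 1) (z : T) (hz : z ∈ Subgroup.center T) :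
    z = 1 ∨ z = c ∨ z = ρ c ∨ z = ρ (ρ c) := by
  have hρc : ρ c ≠ 1 := rho_ne_one ρ h3 hc1
  have hρρc : ρ (ρ c) ≠ 1 := rho_ne_one ρ h3 hρc
  have h12 : c ≠ ρ c := fun h => hc1 (hfp c h.symm)
  have h23 : ρ c ≠ ρ (ρ c) := fun h => h12 (ρ.injective h)
  have h13 : c ≠ ρ (ρ c) := fun h => by
    have := congrArg ρ h
    rw [h3] at this
    exact h12 this.symm
  have hS : ({1, c, ρ c, ρ (ρ c)} : Set T) = (Subgroup.center T : Set T) := by
    apply Set.eq_of_subset_of_ncard_le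
    · intro g hg
      simp only [Set.mem_insert_iff, Set.mem_singleton_iff] at hg
      rcases hg with h | h | h | h
      · rw [h]; exact one_mem _
      · rw [h]; exact hc
      · rw [h]; exact center_inv ρ h3 _ hc
      · rw [h]; exact center_inv ρ h3 _ (center_inv ρ h3 _ hc)
    · have e : (Subgroup.center T : Set T).ncard = 4 := by
        rw [← hZ4]; exact (Nat.card_coe_set_eq _).symm
      have e2 : ({1, c, ρ c, ρ (ρ c)} : Set T).ncard = 4 := by
        rw [Set.ncard_insert_of_notMem, Set.ncard_insert_of_notMem, Set.ncard_pair h23]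
        all_goals simp only [Set.mem_insert_iff, Set.mem_singleton_iff, not_or]
        exacts [⟨h12, h13⟩, ⟨hc1.symm, hρc.symm, hρρc.symm⟩]
      rw [e, e2]
    · exact Set.toFinite _
  have : z ∈ ({1, c, ρ c, ρ (ρ c)} : Set T) := by rw [hS]; exact hz
  simpa using this

variable (x : MulAut T) (hx2 : ∀ t, x (x t) = t) (hxr : ∀ t, x (ρ t) = ρ (ρ (x t)))

omit hsq hz2 in
include hxr in
theorem fix_unique (hZ4 : Nat.card (Subgroup.center T) = 4) (z z' : T)
    (hz : z ∈ Subgroup.center T) (hz' : z' ∈ Subgroup.center T) (hxz : x z = z)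
    (hxz' : x z' = z') (h1 : z ≠ 1) (h1' : z' ≠ 1) : z' = z := by
  rcases center_enum ρ h3 hfp hZ4 z hz h1 z' hz' with h | h | h | h
  · exact absurd h h1'
  · exact h
  · exfalso
    rw [h, hxr, hxz] at hxz'
    exact h1 (hfp z (ρ.injective hxz'))
  · exfalso
    rw [h, hxr, hxr, hxz, h3] at hxz'
    exact h1 (hfp z (ρ.injective hxz'.symm))

/-- elements fixed by `x` modulo the centre -/
def Px (x : MulAut T) (u : T) : Prop := ∃ z ∈ Subgroup.center T, x u = u * z

omit [Finite T] h3 hfp hz2 in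
include hx2 in
theorem Px_f (t : T) : Px x (t * x t) := by
  refine ⟨cm (x t)⁻¹ t⁻¹, cm_mem hsq _ _, ?_⟩
  rw [map_mul, hx2]; unfold cm; group

include hxr in
theorem cm_decomp (t s : T) :
    cm t s = cm (ρ (ρ (t * x t))) s * cm (ρ t * x (ρ t)) s := by
  have e1 : ρ (ρ (t * x t)) = ρ (ρ t) * ρ (ρ (x t)) := by rw [map_mul, map_mul]
  rw [e1, hxr, cm_mul_left hsq, cm_mul_left hsq]
  have hB := cm_central hsq (ρ (ρ (x t))) s
  have hB2 := cm_sq hsq hz2 (ρ (ρ (x t))) s
  have e2 : ρ (ρ t) * ρ t = t⁻¹ := eq_inv_of_mul_eq_one_left (prod3' ρ h3 hfp t)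
  calc cm t s = cm t⁻¹ s := (cm_inv_left hsq hz2 t s).symm
    _ = cm (ρ (ρ t)) s * cm (ρ t) s := by rw [← e2, cm_mul_left hsq]
    _ = cm (ρ (ρ t)) s * cm (ρ t) s * (cm (ρ (ρ (x t))) s * cm (ρ (ρ (x t))) s) := by
        rw [hB2, mul_one]
    _ = cm (ρ (ρ t)) s * (cm (ρ t) s * cm (ρ (ρ (x t))) s) * cm (ρ (ρ (x t))) s := by group
    _ = cm (ρ (ρ t)) s * (cm (ρ (ρ (x t))) s * cm (ρ t) s) * cm (ρ (ρ (x t))) s := by
        rw [hB (cm (ρ t) s)]
    _ = cm (ρ (ρ t)) s * cm (ρ (ρ (x t))) s * (cm (ρ t) s * cm (ρ (ρ (x t))) s) := by group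

include hx2 hxr in
theorem exists_u12 (hna : ¬ IsMulCommutative T) :
    ∃ u1 u2 : T, Px x u1 ∧ Px x u2 ∧ cm u1 u2 ≠ 1 := by
  by_contra hcon
  push Not at hcon
  apply hna
  refine ⟨⟨fun t s => ?_⟩⟩
  rw [← cm_eq_one_iff]
  have hP1 : ∀ t : T, Px x (t * x t) := Px_f hsq x hx2
  have key : ∀ g s : T, (∀ u, Px x u → cm g u = 1) → (∀ u, Px x u → cm g (ρ (ρ u)) = 1) →
      cm g s = 1 := by
    intro g s h1 h2
    have a1 : cm (ρ (ρ (s * x s))) g = 1 := by
      rw [cm_symm hsq hz2]; exact h2 _ (hP1 s)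
    have a2 : cm (ρ s * x (ρ s)) g = 1 := by
      rw [cm_symm hsq hz2]; exact h1 _ (hP1 (ρ s))
    rw [cm_symm hsq hz2 g s, cm_decomp ρ h3 hfp hsq hz2 x hxr s g, a1, a2, one_mul]
  have hA : ∀ u t : T, Px x u → cm u t = 1 := by
    intro u t hu
    apply key u t
    · intro u' hu'; exact hcon u u' hu hu'
    · intro u' hu'; rw [br2 ρ h3 hfp hsq hz2, hcon u u' hu hu', map_one]
  apply key t s
  · intro u hu; rw [cm_symm hsq hz2]; exact hA u t hu
  · intro u hu; rw [br2 ρ h3 hfp hsq hz2, cm_symm hsq hz2, hA u t hu, map_one]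

include hx2 hxr in
theorem exists_inv (hna : ¬ IsMulCommutative T) (hZ4 : Nat.card (Subgroup.center T) = 4) :
    ∃ a : T, a ∉ Subgroup.center T ∧ a * a = 1 := by
  obtain ⟨u1, u2, hu1, hu2, hne⟩ := exists_u12 ρ h3 hfp hsq hz2 x hx2 hxr hna
  have hfix : ∀ u : T, Px x u → x (u ^ 2) = u ^ 2 := by
    rintro u ⟨z, hz, hxu⟩
    rw [map_pow, hxu, pow_two, pow_two]
    have hzc := Subgroup.mem_center_iff.mp hz
    have hz2' : z * z = 1 := by have := hz2 z hz; rwa [pow_two] at this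
    calc u * z * (u * z) = u * (z * u) * z := by group
      _ = u * (u * z) * z := by rw [← hzc u]
      _ = u * u * (z * z) := by group
      _ = u * u := by rw [hz2', mul_one]
  have hPmul : Px x (u1 * u2) := by
    obtain ⟨z1, hz1, h1⟩ := hu1
    obtain ⟨z2, hz2m, h2⟩ := hu2
    refine ⟨z1 * z2, mul_mem hz1 hz2m, ?_⟩
    rw [map_mul, h1, h2]
    have := Subgroup.mem_center_iff.mp hz1 u2
    calc u1 * z1 * (u2 * z2) = u1 * (z1 * u2) * z2 := by group
      _ = u1 * (u2 * z1) * z2 := by rw [this]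
      _ = u1 * u2 * (z1 * z2) := by group
  have hn1 : u1 ∉ Subgroup.center T := fun h => hne (cm_central_left u1 u2 h)
  have hn2 : u2 ∉ Subgroup.center T := fun h => hne (cm_central_right u1 u2 h)
  have hn3 : u1 * u2 ∉ Subgroup.center T := by
    intro h
    apply hne
    have := cm_central_left (u1 * u2) u2 h
    rw [cm_mul_left hsq, cm_self, mul_one] at this
    exact this
  by_cases s1 : u1 ^ 2 = 1
  · exact ⟨u1, hn1, by rwa [pow_two] at s1⟩
  by_cases s2 : u2 ^ 2 = 1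
  · exact ⟨u2, hn2, by rwa [pow_two] at s2⟩
  by_cases s3 : (u1 * u2) ^ 2 = 1
  · exact ⟨u1 * u2, hn3, by rwa [pow_two] at s3⟩
  have e2 : u2 ^ 2 = u1 ^ 2 := fix_unique ρ h3 hfp x hxr hZ4 (u1 ^ 2) (u2 ^ 2) (hsq _) (hsq _)
    (hfix u1 hu1) (hfix u2 hu2) s1 s2
  have e3 : (u1 * u2) ^ 2 = u1 ^ 2 := fix_unique ρ h3 hfp x hxr hZ4 (u1 ^ 2) ((u1 * u2) ^ 2)
    (hsq _) (hsq _) (hfix u1 hu1) (hfix _ hPmul) s1 s3
  have hz0sq : u1 ^ 2 * u1 ^ 2 = 1 := by
    have := hz2 _ (hsq u1)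
    rwa [pow_two (u1 ^ 2)] at this
  have hcomm : cm u2 u1 = u1 ^ 2 := by
    have h := sq_mul hsq u1 u2
    rw [e3, e2, mul_assoc, hz0sq, mul_one] at h
    exact h.symm
  refine ⟨u1 * ρ u2, ?_, ?_⟩
  · intro h
    apply hne
    have := cm_central_left (u1 * ρ u2) u2 h
    rw [cm_mul_left hsq, (cm_eq_one_iff (ρ u2) u2).mpr (comm_rho ρ h3 hfp u2).symm,
      mul_one] at this
    exact this
  · rw [← pow_two, sq_mul hsq, (bil ρ h3 hfp hsq hz2 u2 u1).1, hcomm, ← map_pow, e2]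
    have k := klein ρ h3 hfp (u1 ^ 2) hz0sq
    rw [k.2.2.2.2.2.1, k.1]

theorem exists_b (hZ4 : Nat.card (Subgroup.center T) = 4) (a : T)
    (ha : a ∉ Subgroup.center T) (haa : a * a = 1) : ∃ b : T, b * b = 1 ∧ cm b a ≠ 1 := by
  obtain ⟨t0, ht0⟩ : ∃ t0, cm t0 a ≠ 1 := by
    by_contra hcon
    push Not at hcon
    apply ha
    rw [Subgroup.mem_center_iff]
    intro g
    exact (cm_eq_one_iff g a).mp (hcon g)
  have hc0c : cm t0 a ∈ Subgroup.center T := cm_mem hsq _ _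
  have k := klein ρ h3 hfp a haa
  have gen : ∀ y : T, y * y = 1 → cm t0 y = t0 ^ 2 → (t0 * y) * (t0 * y) = 1 := by
    intro y hy hcy
    rw [← pow_two, sq_mul hsq, cm_symm hsq hz2 y t0, hcy, pow_two y, hy, mul_one]
    have := hz2 _ (hsq t0)
    rw [pow_two (t0 ^ 2)] at this
    exact this
  have gen2 : ∀ y : T, cm y a = 1 → cm (t0 * y) a ≠ 1 := by
    intro y hy
    rw [cm_mul_left hsq, hy, mul_one]
    exact ht0
  rcases center_enum ρ h3 hfp hZ4 (cm t0 a) hc0c ht0 (t0 ^ 2) (hsq t0) with h | h | h | h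
  · exact ⟨t0, by rwa [pow_two] at h, ht0⟩
  · exact ⟨t0 * a, gen a haa h.symm, gen2 a (cm_self a)⟩
  · refine ⟨t0 * ρ (ρ a), gen _ k.2.1 ?_, gen2 _ ?_⟩
    · rw [h, br2 ρ h3 hfp hsq hz2]
    · rw [cm_eq_one_iff]; exact (comm_rho2 ρ h3 hfp a).symm
  · refine ⟨t0 * ρ a, gen _ k.1 ?_, gen2 _ ?_⟩
    · rw [h, (bil ρ h3 hfp hsq hz2 t0 a).2]
    · rw [cm_eq_one_iff]; exact (comm_rho ρ h3 hfp a).symm

include hx2 hxr in
theorem C_facts (hna : ¬ IsMulCommutative T) (hT : Nat.card T = 64) (C : Subgroup T)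
    (hC : ∀ y : T, y ∈ C ↔ x y = y) : Nat.card C = 8 ∧ ¬ IsMulCommutative C := by
  obtain ⟨u1, u2, hu1, hu2, hne⟩ := exists_u12 ρ h3 hfp hsq hz2 x hx2 hxr hna
  have adj : ∀ u : T, Px x u → ∃ z' ∈ Subgroup.center T, x (u * z') = u * z' := by
    rintro u ⟨z, hz, hxu⟩
    have hzz : z * z = 1 := by have := hz2 z hz; rwa [pow_two] at this
    have hxz : x z = z := by
      have h1 : x (x u) = u := hx2 u
      rw [hxu, map_mul, hxu] at h1
      have h2 : z * x z = 1 := by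
        have : u * (z * x z) = u * 1 := by rw [← mul_assoc, h1, mul_one]
        exact mul_left_cancel this
      calc x z = (z * z) * x z := by rw [hzz, one_mul]
        _ = z * (z * x z) := by rw [mul_assoc]
        _ = z := by rw [h2, mul_one]
    have k := klein ρ h3 hfp z hzz
    refine ⟨ρ z, center_inv ρ h3 z hz, ?_⟩
    rw [map_mul, hxu, hxr, hxz, mul_assoc, k.2.2.2.2.1]
  obtain ⟨z1, hz1, hf1⟩ := adj u1 hu1
  obtain ⟨z2, hz2', hf2⟩ := adj u2 hu2
  have hcm : cm (u1 * z1) (u2 * z2) ≠ 1 := by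
    rw [cm_mul_left hsq, cm_mul_right hsq u1, cm_mul_right hsq z1, cm_central_right u1 z2 hz2',
      cm_central_left z1 u2 hz1, cm_central_left z1 z2 hz1]
    simpa using hne
  have hnc : ¬ IsMulCommutative C := by
    intro hcomm
    apply hcm
    rw [cm_eq_one_iff]
    have := hcomm.is_comm.comm (⟨u1 * z1, (hC _).mpr hf1⟩ : C) ⟨u2 * z2, (hC _).mpr hf2⟩
    exact congrArg Subtype.val this
  have hle : Nat.card C ≤ 8 := by
    have hinj : Function.Injective (fun p : C × C => (p.1 : T) * ρ (p.2 : T)) := by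
      rintro ⟨c1, c1'⟩ ⟨c2, c2'⟩ h
      have h' : (c1 : T) * ρ (c1' : T) = c2 * ρ (c2' : T) := h
      have hw : (c2 : T)⁻¹ * c1 = ρ ((c2' : T) * (c1' : T)⁻¹) := by
        rw [map_mul, map_inv]
        have : (c1 : T) = c2 * ρ (c2' : T) * (ρ (c1' : T))⁻¹ := by rw [← h']; group
        rw [this]; group
      have hwC : (c2 : T)⁻¹ * c1 ∈ C := mul_mem (inv_mem c2.2) c1.2
      have hvC : (c2' : T) * (c1' : T)⁻¹ ∈ C := mul_mem c2'.2 (inv_mem c1'.2)
      have hx1 := (hC _).mp hwC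
      have hx2' := (hC _).mp hvC
      rw [hw, hxr, hx2'] at hx1
      have hv1 := hfp _ (ρ.injective hx1)
      have hw1 : (c2 : T)⁻¹ * c1 = 1 := by rw [hw, hv1, map_one]
      have e1 : (c1 : T) = c2 := (inv_mul_eq_one.mp hw1).symm
      have e2 : (c1' : T) = c2' := (mul_inv_eq_one.mp hv1).symm
      exact Prod.ext (Subtype.ext e1) (Subtype.ext e2)
    have h1 := Nat.card_le_card_of_injective _ hinj
    rw [Nat.card_prod, hT] at h1
    by_contra hc
    push Not at hc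
    nlinarith
  have hd : Nat.card C ∣ 64 := hT ▸ Subgroup.card_subgroup_dvd_card C
  have hpos : 0 < Nat.card C := Nat.card_pos
  have : Fact (Nat.Prime 2) := ⟨Nat.prime_two⟩
  refine ⟨?_, hnc⟩
  by_contra h8
  apply hnc
  have hcases : Nat.card C = 1 ∨ Nat.card C = 2 ∨ Nat.card C = 4 := by
    generalize Nat.card C = n at *
    interval_cases n <;> omega
  refine ⟨⟨fun a b => ?_⟩⟩
  rcases hcases with h | h | h
  · have := (Nat.card_eq_one_iff_unique.mp h).1
    exact Subsingleton.elim _ _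
  · have hcyc : IsCyclic C := isCyclic_of_prime_card (p := 2) h
    exact (IsCyclic.commGroup (α := C)).mul_comm a b
  · exact (IsPGroup.isMulCommutative_of_card_eq_prime_sq (p := 2)
      (by rw [h]; norm_num)).is_comm.comm a b

end main

end Cfsg.Agent.Helper19.Fpf3
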