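import Mathlib

/-!
The subgroup generated by squares and its index `ind2`, with the basic
inequalities used to bound the Frattini index of a 2-group.
-/

set_option autoImplicit false

namespace Cfsg.Agent.Helper19.FrattRank

/-- subgroup generated by the squares -/
def sq (A : Type*) [Group A] : Subgroup A := Subgroup.closure (Set.range fun x : A => x ^ 2)

theorem map_sq_le {A B : Type*} [Group A] [Group B] (f : A →* B) : (sq A).map f ≤ sq B := by
  unfold sq
  rw [MonoidHom.map_closure]
  apply Subgroup.closure_mono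
  rintro _ ⟨_, ⟨x, rfl⟩, rfl⟩
  exact ⟨f x, (map_pow f x 2).symm⟩

theorem map_sq_of_surjective {A B : Type*} [Group A] [Group B] (f : A →* B)
    (hf : Function.Surjective f) : (sq A).map f = sq B := by
  apply le_antisymm (map_sq_le f)
  unfold sq
  rw [MonoidHom.map_closure]
  apply Subgroup.closure_mono
  rintro _ ⟨y, rfl⟩
  obtain ⟨x, rfl⟩ := hf y
  exact ⟨x ^ 2, ⟨x, rfl⟩, map_pow f x 2⟩

instance sq_normal (A : Type*) [Group A] : (sq A).Normal := by
  constructor
  intro n hn g
  have h := map_sq_le (MulAut.conj g).toMonoidHom (Subgroup.mem_map_of_mem _ hn)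
  exact h

/-- index of the subgroup generated by squares -/
noncomputable def ind2 (A : Type*) [Group A] : ℕ := (sq A).index

theorem ind2_pos (A : Type*) [Group A] [Finite A] : 0 < ind2 A :=
  Nat.pos_of_ne_zero Subgroup.index_ne_zero_of_finite

theorem ind2_congr {A B : Type*} [Group A] [Group B] (e : A ≃* B) : ind2 A = ind2 B := by
  unfold ind2
  rw [← map_sq_of_surjective e.toMonoidHom e.surjective]
  exact (Subgroup.index_map_equiv (sq A) e).symm

theorem ind2_le_of_subgroup {A : Type*} [Group A] [Finite A] (D : Subgroup A) :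
    ind2 A ≤ D.index * ind2 D := by
  have h1 : (sq D).map D.subtype ≤ sq A := map_sq_le D.subtype
  have h2 := Subgroup.index_dvd_of_le h1
  rw [Subgroup.index_map_subtype] at h2
  have hpos : 0 < (sq D).index * D.index :=
    Nat.mul_pos (Nat.pos_of_ne_zero Subgroup.index_ne_zero_of_finite)
      (Nat.pos_of_ne_zero Subgroup.index_ne_zero_of_finite)
  have := Nat.le_of_dvd hpos h2
  unfold ind2
  rw [mul_comm]
  exact this

theorem ind2_le_range_ker {A B : Type*} [Group A] [Finite A] [Group B] (f : A →* B) :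
    ind2 A ≤ ind2 f.range * ind2 f.ker := by
  have e1 : (sq A).relIndex (sq A ⊔ f.ker) * (sq A ⊔ f.ker).index = (sq A).index :=
    Subgroup.relIndex_mul_index le_sup_left
  have e2 : (sq A ⊔ f.ker).index = ind2 f.range := by
    have h := Subgroup.index_map (sq A) f.rangeRestrict
    rw [map_sq_of_surjective f.rangeRestrict f.rangeRestrict_surjective, MonoidHom.ker_rangeRestrict,
      MonoidHom.range_eq_top.mpr f.rangeRestrict_surjective, Subgroup.index_top, mul_one] at h
    exact h.symm
  have e3 : (sq A).relIndex (sq A ⊔ f.ker) ≤ ind2 f.ker := by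
    rw [Subgroup.relIndex_sup_left]
    have h1 : sq f.ker ≤ (sq A).subgroupOf f.ker := by
      intro x hx
      rw [Subgroup.mem_subgroupOf]
      exact map_sq_le f.ker.subtype (Subgroup.mem_map_of_mem _ hx)
    exact Nat.le_of_dvd (ind2_pos _) (Subgroup.index_dvd_of_le h1)
  calc ind2 A = (sq A).relIndex (sq A ⊔ f.ker) * (sq A ⊔ f.ker).index := e1.symm
    _ ≤ ind2 f.ker * ind2 f.range := by rw [e2]; exact Nat.mul_le_mul_right _ e3
    _ = _ := mul_comm _ _

theorem ind2_cyclic (A : Type*) [Group A] [Finite A] [IsCyclic A] : ind2 A ≤ 2 := by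
  obtain ⟨x, hx⟩ := IsCyclic.exists_generator (α := A)
  have hs : Function.Surjective (fun k : Fin 2 => (QuotientGroup.mk (x ^ (k : ℕ)) : A ⧸ sq A)) := by
    intro y
    obtain ⟨a, rfl⟩ := QuotientGroup.mk_surjective y
    obtain ⟨m, hm⟩ := (Submonoid.mem_powers_iff _ _).mp (mem_powers_iff_mem_zpowers.mpr (hx a))
    refine ⟨⟨m % 2, Nat.mod_lt _ (by norm_num)⟩, ?_⟩
    show (QuotientGroup.mk (x ^ (m % 2)) : A ⧸ sq A) = QuotientGroup.mk a
    rw [QuotientGroup.eq, ← hm]
    have hm2 : x ^ m = x ^ (m % 2) * (x ^ 2) ^ (m / 2) := by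
      rw [← pow_mul, ← pow_add, Nat.mod_add_div]
    rw [hm2, inv_mul_cancel_left]
    exact Subgroup.pow_mem _ (show x ^ 2 ∈ sq A from Subgroup.subset_closure (Set.mem_range_self x)) _
  have := Nat.card_le_card_of_surjective _ hs
  rw [Nat.card_fin] at this
  exact this

theorem ind2_le_card (A : Type*) [Group A] [Finite A] : ind2 A ≤ Nat.card A :=
  Nat.le_of_dvd Nat.card_pos (Subgroup.index_dvd_card _)

theorem ind2_le_half (A : Type*) [Group A] [Finite A] (h : ∃ x : A, x ^ 2 ≠ 1) :
    2 * ind2 A ≤ Nat.card A := by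
  obtain ⟨x, hx⟩ := h
  have h1 : sq A ≠ ⊥ := by
    intro hb
    have : x ^ 2 ∈ sq A := Subgroup.subset_closure ⟨x, rfl⟩
    rw [hb, Subgroup.mem_bot] at this
    exact hx this
  have h2 : 1 < Nat.card (sq A) := (Subgroup.one_lt_card_iff_ne_bot (sq A)).mpr h1
  have h3 := Subgroup.card_mul_index (sq A)
  unfold ind2
  calc 2 * (sq A).index ≤ Nat.card (sq A) * (sq A).index := Nat.mul_le_mul_right _ h2
    _ = Nat.card A := h3

theorem ind2_le_four {A : Type*} [Group A] [Finite A] (x : A) (hx : Nat.card A ≤ 2 * orderOf x)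
    (H : Subgroup A) : ind2 H ≤ 4 := by
  have hCi : (Subgroup.zpowers x).index ≤ 2 := by
    have h := Subgroup.card_mul_index (Subgroup.zpowers x)
    rw [Nat.card_zpowers] at h
    have hpos : 0 < orderOf x := orderOf_pos x
    rw [← h] at hx
    rw [mul_comm 2] at hx
    exact Nat.le_of_mul_le_mul_left hx hpos
  have hDi : ((Subgroup.zpowers x).subgroupOf H).index ≤ 2 := by
    have h1 : (Subgroup.zpowers x ⊓ H).relIndex H * H.index = (Subgroup.zpowers x ⊓ H).index :=
      Subgroup.relIndex_mul_index inf_le_right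
    have h2 : (Subgroup.zpowers x ⊓ H).index ≤ (Subgroup.zpowers x).index * H.index :=
      Subgroup.index_inf_le
    have h3 : (Subgroup.zpowers x ⊓ H).relIndex H = (Subgroup.zpowers x).relIndex H :=
      Subgroup.inf_relIndex_right _ _
    have hpos : 0 < H.index := Nat.pos_of_ne_zero Subgroup.index_ne_zero_of_finite
    rw [← h1, h3] at h2
    have := Nat.le_of_mul_le_mul_right h2 hpos
    exact this.trans hCi
  haveI : IsCyclic ((Subgroup.zpowers x).subgroupOf H) := by
    let f : ((Subgroup.zpowers x).subgroupOf H) →* Subgroup.zpowers x :=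
      (H.subtype.comp ((Subgroup.zpowers x).subgroupOf H).subtype).codRestrict (Subgroup.zpowers x)
        (fun y => y.2)
    apply isCyclic_of_injective f
    intro a b hab
    have : ((a : H) : A) = ((b : H) : A) := congrArg (fun z : Subgroup.zpowers x => (z : A)) hab
    exact Subtype.ext (Subtype.ext this)
  have h1 := ind2_le_of_subgroup ((Subgroup.zpowers x).subgroupOf H)
  have h2 := ind2_cyclic ((Subgroup.zpowers x).subgroupOf H)
  calc ind2 H ≤ ((Subgroup.zpowers x).subgroupOf H).index * ind2 ((Subgroup.zpowers x).subgroupOf H) := h1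
    _ ≤ 2 * 2 := Nat.mul_le_mul hDi h2
    _ = 4 := by norm_num

theorem sq_le_frattini {P : Type*} [Group P] [Finite P] (hP : IsPGroup 2 P) :
    sq P ≤ frattini P := by
  haveI : Fact (Nat.Prime 2) := ⟨Nat.prime_two⟩
  unfold sq
  rw [Subgroup.closure_le]
  rintro _ ⟨x, rfl⟩
  show x ^ 2 ∈ frattini P
  unfold frattini Order.radical
  simp only [Subgroup.mem_iInf]
  intro M hM
  obtain ⟨n, hn⟩ := IsPGroup.iff_card.mp (hP.to_subgroup M)
  obtain ⟨m, hm⟩ := IsPGroup.iff_card.mp hP
  have hle : n ≤ m := by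
    have h := Subgroup.card_subgroup_dvd_card M
    rw [hn, hm] at h
    exact (Nat.pow_dvd_pow_iff_le_right (by norm_num)).mp h
  have hne : n ≠ m := by
    intro h
    apply hM.1
    apply (Subgroup.card_eq_iff_eq_top M).mp
    rw [hn, hm, h]
  obtain ⟨K, hK, hMK⟩ := Sylow.exists_subgroup_card_pow_succ (p := 2) (n := n)
    (by rw [hm]; exact pow_dvd_pow 2 (by omega)) hn
  rcases eq_or_lt_of_le hMK with h | h
  · exfalso
    rw [← h, hn] at hK
    have := Nat.pow_right_injective (le_refl 2) hK
    omega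
  · have hKtop : K = ⊤ := hM.2 K h
    have hidx : M.index = 2 := by
      have h3 := Subgroup.card_mul_index M
      have h4 : Nat.card P = 2 ^ (n + 1) := by
        rw [← hK, hKtop, Subgroup.card_top]
      rw [hn, h4, pow_succ] at h3
      exact Nat.eq_of_mul_eq_mul_left (by positivity) h3
    exact Subgroup.sq_mem_of_index_two hidx x

theorem frattini_index_le {P : Type*} [Group P] [Finite P] (hP : IsPGroup 2 P) :
    (frattini P).index ≤ ind2 P :=
  Nat.le_of_dvd (ind2_pos P) (Subgroup.index_dvd_of_le (sq_le_frattini hP))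

end Cfsg.Agent.Helper19.FrattRank
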