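import Mathlib

namespace Cfsg.Agent.Helper19.Imprim

theorem imprim_main (q : ℕ) [Fact q.Prime] {V : Type*} [AddCommGroup V] [Module (ZMod q) V]
    [Finite V] [Nontrivial V]
    {G : Type*} [Group G] [Finite G] (p : ℕ) [Fact p.Prime] (hG : IsPGroup p G)
    (ρ : G →* (V ≃ₗ[ZMod q] V)) (hρ : Function.Injective ρ)
    (hirr : ∀ W : Submodule (ZMod q) V, (∀ g : G, ∀ w ∈ W, ρ g w ∈ W) → W = ⊥ ∨ W = ⊤)
    (hpq : p ≠ q)
    (c e : G) (hc : ∀ g : G, g * c = c * g) (hc1 : c ≠ 1) (hcp : c ^ p = 1)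
    (hep : e ^ p = 1) (hec : ∀ k : ℕ, e * c ^ k ≠ 1)
    (hconj : ∀ g : G, ∃ m : ℕ, g * e * g⁻¹ = e * c ^ m) :
    ∃ (H : Subgroup G) (W : Fin p → Submodule (ZMod q) V), H.index = p ∧
      iSup W = ⊤ ∧ iSupIndep W ∧
      (∀ h ∈ H, ∀ i, ∀ w ∈ W i, ρ h w ∈ W i) ∧
      (∀ i, ∃ h ∈ H, h ≠ 1 ∧ ∀ w ∈ W i, ρ h w = w) ∧
      ∀ g : G, g ∉ H → ∃ σ : Equiv.Perm (Fin p), orderOf σ = p ∧
        ∀ i, (W i).map (ρ g : V →ₗ[ZMod q] V) = W (σ i) := by
  classical
  have hp : p.Prime := Fact.out
  have hq : q.Prime := Fact.out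
  have hmul : ∀ (x y : G) (v : V), ρ (x * y) v = ρ x (ρ y v) := by
    intro x y v; rw [map_mul]; rfl
  have hone : ∀ v : V, ρ 1 v = v := by intro v; rw [map_one]; rfl
  have hpne : ((p : ℕ) : ZMod q) ≠ 0 := by
    intro h
    rw [ZMod.natCast_eq_zero_iff] at h
    exact hpq ((Nat.prime_dvd_prime_iff_eq hq hp).mp h).symm
  have hzfix : ∀ z : G, (∀ g : G, g * z = z * g) → z ≠ 1 → ∀ v : V, ρ z v = v → v = 0 := by
    intro z hz hz1 v hv
    let W₀ : Submodule (ZMod q) V := LinearMap.ker ((ρ z : V →ₗ[ZMod q] V) - LinearMap.id)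
    have hmem : ∀ w : V, w ∈ W₀ ↔ ρ z w = w := by
      intro w
      simp only [W₀, LinearMap.mem_ker, LinearMap.sub_apply, LinearMap.id_apply,
        LinearEquiv.coe_coe, sub_eq_zero]
    have hinv : ∀ g : G, ∀ w ∈ W₀, ρ g w ∈ W₀ := by
      intro g w hw
      rw [hmem] at hw ⊢
      rw [← hmul, ← hz g, hmul, hw]
    rcases hirr W₀ hinv with h | h
    · have : v ∈ W₀ := (hmem v).mpr hv
      rw [h] at this; exact (Submodule.mem_bot _).mp this
    · exfalso; apply hz1
      apply hρ
      rw [map_one]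
      ext w
      have : w ∈ W₀ := by rw [h]; trivial
      exact (hmem w).mp this
  have hco : orderOf c = p := orderOf_eq_prime hcp hc1
  have hcd : ∀ d : ℕ, ¬ p ∣ d → c ^ d ≠ 1 := by
    intro d hd h
    apply hd
    rw [← hco]; exact orderOf_dvd_of_pow_eq_one h
  have hccomm : ∀ (d : ℕ) (g : G), g * c ^ d = c ^ d * g := by
    intro d g
    exact ((show Commute g c from hc g).pow_right d).eq
  have hnorm : ∀ (x : G), x ^ p = 1 → ∀ v : V,
      ρ x (∑ i ∈ Finset.range p, ρ (x ^ i) v) = ∑ i ∈ Finset.range p, ρ (x ^ i) v := by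
    intro x hx v
    rw [map_sum]
    have h1 : ∀ i ∈ Finset.range p, ρ x (ρ (x ^ i) v) = ρ (x ^ (i + 1)) v := by
      intro i _; rw [← hmul, ← pow_succ']
    rw [Finset.sum_congr rfl h1]
    have h2 := Finset.sum_range_succ (fun i => ρ (x ^ i) v) p
    have h3 := Finset.sum_range_succ' (fun i => ρ (x ^ i) v) p
    rw [h3] at h2
    simp only [hx, pow_zero] at h2
    exact add_right_cancel h2
  have hfixpow : ∀ (x : G) (w : V), ρ x w = w → ∀ n : ℕ, ρ (x ^ n) w = w := by
    intro x w hw n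
    induction n with
    | zero => rw [pow_zero]; exact hone w
    | succ n ih => rw [pow_succ, hmul, hw, ih]
  let W : Fin p → Submodule (ZMod q) V := fun k =>
    LinearMap.ker ((ρ (e * c ^ (k : ℕ)) : V →ₗ[ZMod q] V) - LinearMap.id)
  have hW : ∀ (k : Fin p) (w : V), w ∈ W k ↔ ρ (e * c ^ (k : ℕ)) w = w := by
    intro k w
    simp only [W, LinearMap.mem_ker, LinearMap.sub_apply, LinearMap.id_apply,
      LinearEquiv.coe_coe, sub_eq_zero]
  have hxp : ∀ k : ℕ, (e * c ^ k) ^ p = 1 := by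
    intro k
    rw [(show Commute e (c ^ k) from hccomm k e).mul_pow, hep, ← pow_mul, mul_comm k p, pow_mul,
      hcp, one_pow, one_mul]
  have hxx : ∀ a b : ℕ, (e * c ^ a) * (e * c ^ b) = (e * c ^ b) * (e * c ^ a) := by
    intro a b
    calc (e * c ^ a) * (e * c ^ b) = e * (c ^ a * e) * c ^ b := by simp only [mul_assoc]
      _ = e * (e * c ^ a) * c ^ b := by rw [← hccomm a e]
      _ = e * e * (c ^ a * c ^ b) := by simp only [mul_assoc]
      _ = e * e * (c ^ b * c ^ a) := by rw [← pow_add, ← pow_add, add_comm]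
      _ = e * (e * c ^ b) * c ^ a := by simp only [mul_assoc]
      _ = e * (c ^ b * e) * c ^ a := by rw [← hccomm b e]
      _ = (e * c ^ b) * (e * c ^ a) := by simp only [mul_assoc]
  have hdiff : ∀ a b : ℕ, a < b → b < p → ∀ s : V, ρ (e * c ^ a) s = s →
      ρ (e * c ^ b) s = s → s = 0 := by
    intro a b hab hbp s ha hb
    have hx : e * c ^ b = (e * c ^ a) * c ^ (b - a) := by
      rw [mul_assoc, ← pow_add, Nat.add_sub_cancel' hab.le]
    rw [hx, hmul] at hb
    have h1 : ρ (c ^ (b - a)) s = s := by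
      apply (ρ (e * c ^ a)).injective
      rw [hb, ha]
    refine hzfix (c ^ (b - a)) (hccomm _) (hcd _ ?_) s h1
    intro hdvd
    have := Nat.le_of_dvd (by omega) hdvd
    omega
  have hdouble : ∀ v : V,
      ∑ k ∈ Finset.range p, ∑ i ∈ Finset.range p, ρ ((e * c ^ k) ^ i) v = p • v := by
    intro v
    rw [Finset.sum_comm]
    have hterm : ∀ i ∈ Finset.range p, i ≠ 0 →
        ∑ k ∈ Finset.range p, ρ ((e * c ^ k) ^ i) v = 0 := by
      intro i hi hi0
      have h1 : ∀ k ∈ Finset.range p, ρ ((e * c ^ k) ^ i) v = ρ (e ^ i) (ρ ((c ^ i) ^ k) v) := by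
        intro k _
        have : (e * c ^ k) ^ i = e ^ i * (c ^ i) ^ k := by
          rw [(show Commute e (c ^ k) from hccomm k e).mul_pow, ← pow_mul, ← pow_mul, mul_comm k i]
        rw [this, hmul]
      rw [Finset.sum_congr rfl h1, ← map_sum]
      have hz : ∑ k ∈ Finset.range p, ρ ((c ^ i) ^ k) v = 0 := by
        apply hzfix (c ^ i) (hccomm i) (hcd i ?_)
        · exact hnorm (c ^ i) (by rw [← pow_mul, mul_comm, pow_mul, hcp, one_pow]) v
        · intro hdvd
          have := Nat.le_of_dvd (Nat.pos_of_ne_zero hi0) hdvd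
          have := Finset.mem_range.mp hi
          omega
      rw [hz, map_zero]
    rw [Finset.sum_eq_single 0 (fun i hi hi0 => hterm i hi hi0)
      (fun h => absurd (Finset.mem_range.mpr hp.pos) h)]
    simp only [pow_zero, hone, Finset.sum_const, Finset.card_range]
  have hsup : iSup W = ⊤ := by
    rw [eq_top_iff]
    intro v _
    have h1 : p • v ∈ iSup W := by
      rw [← hdouble v]
      apply Submodule.sum_mem
      intro k hk
      have hk' := Finset.mem_range.mp hk
      apply Submodule.mem_iSup_of_mem (⟨k, hk'⟩ : Fin p)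
      rw [hW]
      exact hnorm (e * c ^ k) (hxp k) v
    have h2 : v = ((p : ZMod q))⁻¹ • (p • v) := by
      rw [← Nat.cast_smul_eq_nsmul (ZMod q) p v, smul_smul, inv_mul_cancel₀ hpne, one_smul]
    rw [h2]; exact Submodule.smul_mem _ _ h1
  have hindep : iSupIndep W := by
    intro i
    rw [Submodule.disjoint_def]
    intro w hwi hws
    let P : V →ₗ[ZMod q] V :=
      ∑ n ∈ Finset.range p, (ρ ((e * c ^ (i : ℕ)) ^ n) : V →ₗ[ZMod q] V)
    have hP : ∀ u : V, P u = ∑ n ∈ Finset.range p, ρ ((e * c ^ (i : ℕ)) ^ n) u := by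
      intro u; simp only [P, LinearMap.sum_apply, LinearEquiv.coe_coe]
    have hker : ⨆ j, ⨆ (_ : j ≠ i), W j ≤ LinearMap.ker P := by
      apply iSup_le; intro j; apply iSup_le; intro hji
      intro u hu
      rw [LinearMap.mem_ker, hP]
      rw [hW] at hu
      have hsi : ρ (e * c ^ (i : ℕ)) (∑ n ∈ Finset.range p, ρ ((e * c ^ (i : ℕ)) ^ n) u)
          = ∑ n ∈ Finset.range p, ρ ((e * c ^ (i : ℕ)) ^ n) u := hnorm _ (hxp i) u
      have hsj : ρ (e * c ^ (j : ℕ)) (∑ n ∈ Finset.range p, ρ ((e * c ^ (i : ℕ)) ^ n) u)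
          = ∑ n ∈ Finset.range p, ρ ((e * c ^ (i : ℕ)) ^ n) u := by
        rw [map_sum]
        apply Finset.sum_congr rfl
        intro n _
        rw [← hmul, ((show Commute (e * c ^ (j : ℕ)) (e * c ^ (i : ℕ)) from hxx j i).pow_right n).eq,
          hmul, hu]
      have hne : (j : ℕ) ≠ (i : ℕ) := fun h => hji (Fin.ext h)
      rcases lt_or_gt_of_ne hne with h | h
      · exact hdiff j i h i.2 _ hsj hsi
      · exact hdiff i j h j.2 _ hsi hsj
    have hPw : P w = p • w := by
      rw [hP]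
      have : ∀ n ∈ Finset.range p, ρ ((e * c ^ (i : ℕ)) ^ n) w = w :=
        fun n _ => hfixpow _ w ((hW i w).mp hwi) n
      rw [Finset.sum_congr rfl this, Finset.sum_const, Finset.card_range]
    have h0 : P w = 0 := LinearMap.mem_ker.mp (hker hws)
    rw [hPw, ← Nat.cast_smul_eq_nsmul (ZMod q) p w] at h0
    exact (smul_eq_zero.mp h0).resolve_left hpne
  have hnc : ∃ g : G, g * e ≠ e * g := by
    by_contra hcon
    push Not at hcon
    have hbot : ∀ k : Fin p, W k = ⊥ := by
      intro k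
      rw [eq_bot_iff]
      intro w hw
      rw [hW] at hw
      rw [Submodule.mem_bot]
      refine hzfix (e * c ^ (k : ℕ)) ?_ (hec k) w hw
      intro g
      calc g * (e * c ^ (k : ℕ)) = (g * e) * c ^ (k : ℕ) := (mul_assoc _ _ _).symm
        _ = (e * g) * c ^ (k : ℕ) := by rw [hcon g]
        _ = e * (g * c ^ (k : ℕ)) := mul_assoc _ _ _
        _ = e * (c ^ (k : ℕ) * g) := by rw [hccomm (k : ℕ) g]
        _ = (e * c ^ (k : ℕ)) * g := (mul_assoc _ _ _).symm
    have : iSup W = ⊥ := by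
      rw [iSup_eq_bot]; exact hbot
    rw [this] at hsup
    exact bot_ne_top hsup
  let H : Subgroup G := Subgroup.centralizer ({e} : Set G)
  have hHmem : ∀ g : G, g ∈ H ↔ g * e = e * g := by
    intro g
    constructor
    · intro h; exact (Subgroup.mem_centralizer_iff.mp h e rfl).symm
    · intro h
      show g ∈ Subgroup.centralizer ({e} : Set G)
      rw [Subgroup.mem_centralizer_iff]
      intro x hx
      rw [Set.mem_singleton_iff.mp hx]; exact h.symm
  have hidx : H.index = p := by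
    obtain ⟨n, hn⟩ := IsPGroup.index hG H
    have hne1 : H.index ≠ 1 := by
      intro h
      rw [Subgroup.index_eq_one] at h
      obtain ⟨g, hg⟩ := hnc
      apply hg
      rw [← hHmem, h]; trivial
    have hle : H.index ≤ p := by
      haveI := Fintype.ofFinite G
      have hcov : (Finset.univ : Finset G) ⊆ (Finset.range p).biUnion
          (fun m => Finset.univ.filter (fun g : G => g * e * g⁻¹ = e * c ^ m)) := by
        intro g _
        obtain ⟨m, hm⟩ := hconj g
        rw [Finset.mem_biUnion]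
        refine ⟨m % p, Finset.mem_range.mpr (Nat.mod_lt _ hp.pos), ?_⟩
        rw [Finset.mem_filter]
        refine ⟨Finset.mem_univ _, ?_⟩
        rw [hm, pow_eq_pow_mod m hcp]
      have hfib : ∀ m ∈ Finset.range p,
          (Finset.univ.filter (fun g : G => g * e * g⁻¹ = e * c ^ m)).card ≤ Nat.card H := by
        intro m _
        by_cases hem : (Finset.univ.filter (fun g : G => g * e * g⁻¹ = e * c ^ m)) = ∅
        · rw [hem]; simp
        · obtain ⟨g₀, hg₀⟩ := Finset.nonempty_iff_ne_empty.mpr hem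
          rw [Finset.mem_filter] at hg₀
          have hHcard : Nat.card H = (Finset.univ.filter (fun g : G => g ∈ H)).card :=
            Nat.subtype_card _ (fun x => by simp)
          rw [hHcard]
          apply Finset.card_le_card_of_injOn (fun g => g₀⁻¹ * g)
          · intro g hg
            rw [Finset.mem_coe, Finset.mem_filter] at hg ⊢
            refine ⟨Finset.mem_univ _, ?_⟩
            rw [hHmem]
            have h1 : g * e = e * c ^ m * g := by rw [← hg.2]; group
            have h2 : g₀ * e = e * c ^ m * g₀ := by rw [← hg₀.2]; group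
            have h3 : e * g₀⁻¹ = g₀⁻¹ * (e * c ^ m) := by
              calc e * g₀⁻¹ = g₀⁻¹ * (g₀ * e) * g₀⁻¹ := by group
                _ = g₀⁻¹ * (e * c ^ m * g₀) * g₀⁻¹ := by rw [h2]
                _ = g₀⁻¹ * (e * c ^ m) := by group
            calc g₀⁻¹ * g * e = g₀⁻¹ * (g * e) := mul_assoc _ _ _
              _ = g₀⁻¹ * (e * c ^ m * g) := by rw [h1]
              _ = (g₀⁻¹ * (e * c ^ m)) * g := (mul_assoc _ _ _).symm
              _ = e * g₀⁻¹ * g := by rw [← h3]
              _ = e * (g₀⁻¹ * g) := mul_assoc _ _ _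
          · intro a _ b _ hab
            exact mul_left_cancel hab
      have hcard : Nat.card G ≤ p * Nat.card H := by
        calc Nat.card G = (Finset.univ : Finset G).card := by
              rw [Nat.card_eq_fintype_card, Finset.card_univ]
          _ ≤ ((Finset.range p).biUnion
              (fun m => Finset.univ.filter (fun g : G => g * e * g⁻¹ = e * c ^ m))).card :=
            Finset.card_le_card hcov
          _ ≤ ∑ m ∈ Finset.range p,
              (Finset.univ.filter (fun g : G => g * e * g⁻¹ = e * c ^ m)).card :=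
            Finset.card_biUnion_le
          _ ≤ ∑ m ∈ Finset.range p, Nat.card H := Finset.sum_le_sum hfib
          _ = p * Nat.card H := by rw [Finset.sum_const, Finset.card_range, smul_eq_mul]
      have hmulidx := H.card_mul_index
      have hpos : 0 < Nat.card H := Nat.card_pos
      rw [← hmulidx, mul_comm p] at hcard
      exact Nat.le_of_mul_le_mul_left hcard hpos
    rcases n with _ | _ | n
    · rw [pow_zero] at hn; exact absurd hn hne1
    · rw [hn]; simp
    · exfalso
      rw [hn] at hle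
      have h1 : p ^ 2 ≤ p ^ (n + 1 + 1) := Nat.pow_le_pow_right hp.pos (by omega)
      have h2 : p < p ^ 2 := by nlinarith [hp.two_le]
      omega
  refine ⟨H, W, hidx, hsup, hindep, ?_, ?_, ?_⟩
  · intro h hh i w hw
    rw [hW] at hw ⊢
    have hcomm : (e * c ^ (i : ℕ)) * h = h * (e * c ^ (i : ℕ)) := by
      calc (e * c ^ (i : ℕ)) * h = e * (c ^ (i : ℕ) * h) := mul_assoc _ _ _
        _ = e * (h * c ^ (i : ℕ)) := by rw [hccomm (i : ℕ) h]
        _ = (e * h) * c ^ (i : ℕ) := (mul_assoc _ _ _).symm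
        _ = (h * e) * c ^ (i : ℕ) := by rw [(hHmem h).mp hh]
        _ = h * (e * c ^ (i : ℕ)) := mul_assoc _ _ _
    rw [← hmul, hcomm, hmul, hw]
  · intro i
    refine ⟨e * c ^ (i : ℕ), ?_, hec i, fun w hw => (hW i w).mp hw⟩
    rw [hHmem, mul_assoc, ← hccomm (i : ℕ) e]
  · intro g hg
    obtain ⟨m, hm⟩ := hconj g
    have hgm : g * e = e * c ^ m * g := by rw [← hm]; group
    have hcm : c ^ m ≠ 1 := by
      intro h
      apply hg
      rw [hHmem, hgm, h, mul_one]
    have hm0 : m % p ≠ 0 := by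
      intro h
      apply hcm
      rw [pow_eq_pow_mod m hcp, h, pow_zero]
    haveI : NeZero p := ⟨hp.ne_zero⟩
    let μ : Fin p := ⟨m % p, Nat.mod_lt _ hp.pos⟩
    let σ : Equiv.Perm (Fin p) := Equiv.addRight μ
    have hσval : ∀ i : Fin p, c ^ ((σ i : Fin p) : ℕ) = c ^ m * c ^ (i : ℕ) := by
      intro i
      have : ((σ i : Fin p) : ℕ) = ((i : ℕ) + m % p) % p := by
        show ((i + μ : Fin p) : ℕ) = _
        rw [Fin.val_add]
      rw [this, ← pow_eq_pow_mod _ hcp, add_comm, pow_add, ← pow_eq_pow_mod m hcp]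
    have hkey : ∀ i : Fin p, g * (e * c ^ (i : ℕ)) = (e * c ^ ((σ i : Fin p) : ℕ)) * g := by
      intro i
      rw [hσval i]
      calc g * (e * c ^ (i : ℕ)) = (g * e) * c ^ (i : ℕ) := (mul_assoc _ _ _).symm
        _ = (e * c ^ m * g) * c ^ (i : ℕ) := by rw [hgm]
        _ = e * c ^ m * (g * c ^ (i : ℕ)) := mul_assoc _ _ _
        _ = e * c ^ m * (c ^ (i : ℕ) * g) := by rw [hccomm (i : ℕ) g]
        _ = (e * (c ^ m * c ^ (i : ℕ))) * g := by simp only [mul_assoc]
    have hσ1 : σ ≠ 1 := by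
      intro h
      have h0 : σ 0 = 0 := by rw [h]; rfl
      have h0' : (0 : Fin p) + μ = 0 := h0
      rw [zero_add] at h0'
      have := congrArg Fin.val h0'
      rw [Fin.val_zero] at this
      exact hm0 this
    have hσp : σ ^ p = 1 := by
      have h := card_nsmul_eq_zero' (G := Fin p) (x := μ)
      rw [Nat.card_eq_fintype_card, Fintype.card_fin] at h
      show (Equiv.addRight μ) ^ p = 1
      rw [Equiv.nsmul_addRight, h, Equiv.addRight_zero]
    have hσord : orderOf σ = p := orderOf_eq_prime hσp hσ1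
    refine ⟨σ, hσord, ?_⟩
    intro i
    ext w
    rw [Submodule.mem_map]
    constructor
    · rintro ⟨w', hw', rfl⟩
      rw [hW] at hw' ⊢
      rw [LinearEquiv.coe_coe, ← hmul, ← hkey i, hmul, hw']
    · intro hw
      rw [hW] at hw
      refine ⟨ρ g⁻¹ w, ?_, ?_⟩
      · rw [hW]
        have h1 : (e * c ^ (i : ℕ)) * g⁻¹ = g⁻¹ * (e * c ^ ((σ i : Fin p) : ℕ)) := by
          calc (e * c ^ (i : ℕ)) * g⁻¹ = g⁻¹ * (g * (e * c ^ (i : ℕ))) * g⁻¹ := by
                rw [inv_mul_cancel_left]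
            _ = g⁻¹ * ((e * c ^ ((σ i : Fin p) : ℕ)) * g) * g⁻¹ := by rw [hkey i]
            _ = g⁻¹ * (e * c ^ ((σ i : Fin p) : ℕ)) := by
                rw [mul_assoc, mul_assoc, mul_inv_cancel, mul_one]
        rw [← hmul, h1, hmul, hw]
      · rw [LinearEquiv.coe_coe, ← hmul, mul_inv_cancel, hone]

end Cfsg.Agent.Helper19.Imprim
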