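import Mathlib
import Cfsg.Agent.Lead.Kazarin

set_option autoImplicit false

namespace Cfsg.Agent.Helper19

universe u

theorem ppow_solvable {G : Type*} [Group G] [Finite G] (q k : ℕ) (hq : q.Prime)
    (h : Nat.card G = q ^ k) : Group.IsSolvable G := by
  haveI : Fact q.Prime := ⟨hq⟩
  have hp : IsPGroup q G := IsPGroup.of_card h
  haveI := hp.isNilpotent
  infer_instance

/-- in a finite cyclic group, two elements of order 2 coincide -/
theorem cyc_invol_unique {C : Type*} [Group C] [Finite C] [IsCyclic C] (z z' : C)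
    (hz : orderOf z = 2) (hz' : orderOf z' = 2) : z = z' := by
  classical
  haveI := Fintype.ofFinite C
  by_contra hne
  have h1 : (Finset.univ.filter fun a : C => a ^ 2 = 1).card ≤ 2 :=
    IsCyclic.card_pow_eq_one_le (by norm_num)
  have hz1 : z ≠ 1 := fun e => by rw [e, orderOf_one] at hz; omega
  have hz'1 : z' ≠ 1 := fun e => by rw [e, orderOf_one] at hz'; omega
  have h2 : ({1, z, z'} : Finset C) ⊆ Finset.univ.filter fun a : C => a ^ 2 = 1 := by
    intro a ha
    simp only [Finset.mem_insert, Finset.mem_singleton] at ha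
    rw [Finset.mem_filter]
    refine ⟨Finset.mem_univ _, ?_⟩
    rcases ha with rfl | rfl | rfl
    · simp
    · rw [← hz]; exact pow_orderOf_eq_one _
    · rw [← hz']; exact pow_orderOf_eq_one _
  have h3 : ({1, z, z'} : Finset C).card = 3 := by
    rw [Finset.card_insert_of_notMem, Finset.card_insert_of_notMem, Finset.card_singleton]
    · simpa using hne
    · simp only [Finset.mem_insert, Finset.mem_singleton, not_or]
      exact ⟨fun e => hz1 e.symm, fun e => hz'1 e.symm⟩
  have := Finset.card_le_card h2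
  omega

theorem cyc2_direct {G : Type u} [Group G] [Finite G]
    (triv : ∀ N : Subgroup G, N.Normal → Group.IsSolvable N → N = ⊥)
    (A : Subgroup G) (p s : ℕ) (hp : p.Prime) (hA : A.index = p ^ s)
    (B : Subgroup A) [hBn : B.Normal] (hB : IsCyclic B) (hAB : IsCyclic (A ⧸ B)) (r : ℕ)
    (hr : Nat.card (A ⧸ B) = 2 ^ r) : Group.IsSolvable G := by
  classical
  have kz : ∀ (x : G) (q b : ℕ), q.Prime →
      (Subgroup.centralizer ({x} : Set G)).index = q ^ b → x = 1 := by
    intro x q b hq hx
    obtain ⟨N, hN, hs, hxN⟩ := Cfsg.Agent.Lead.kazarin q hq x b hx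
    rw [triv N hN hs] at hxN
    exact Subgroup.mem_bot.mp hxN
  obtain ⟨B', hB'⟩ : ∃ B' : Subgroup G, B' = B.map A.subtype := ⟨_, rfl⟩
  have hcB' : Nat.card B' = Nat.card B := by
    rw [hB']; exact Subgroup.card_map_of_injective A.subtype_injective
  have hcA : Nat.card A = 2 ^ r * Nat.card B := by
    rw [← hr]; exact Subgroup.card_eq_card_quotient_mul_card_subgroup B
  have hcG : Nat.card A * p ^ s = Nat.card G := by rw [← hA]; exact A.card_mul_index
  have hB'idx : B'.index = 2 ^ r * p ^ s := by
    have h1 := B'.card_mul_index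
    rw [hcB', ← hcG, hcA] at h1
    have hpos : 0 < Nat.card B := Nat.card_pos
    have h2 : Nat.card B * B'.index = Nat.card B * (2 ^ r * p ^ s) := by rw [h1]; ring
    exact Nat.eq_of_mul_eq_mul_left hpos h2
  have hcomm : ∀ x ∈ B', ∀ y ∈ B', x * y = y * x := by
    intro x hx y hy
    rw [hB'] at hx hy
    obtain ⟨x', hx', rfl⟩ := hx
    obtain ⟨y', hy', rfl⟩ := hy
    obtain ⟨g, hg⟩ := IsCyclic.exists_generator (α := B)
    obtain ⟨i, hi⟩ := Subgroup.mem_zpowers_iff.mp (hg ⟨x', hx'⟩)
    obtain ⟨j, hj⟩ := Subgroup.mem_zpowers_iff.mp (hg ⟨y', hy'⟩)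
    have h1 : (⟨x', hx'⟩ : B) * ⟨y', hy'⟩ = ⟨y', hy'⟩ * ⟨x', hx'⟩ := by
      rw [← hi, ← hj, ← zpow_add, ← zpow_add, add_comm]
    have h2 := congrArg (fun z : B => ((z : A) : G)) h1
    simpa using h2
  have hcent : ∀ x ∈ B', B' ≤ Subgroup.centralizer ({x} : Set G) := by
    intro x hx y hy
    rw [Subgroup.mem_centralizer_iff]
    intro z hz
    rw [Set.mem_singleton_iff] at hz
    rw [hz]; exact hcomm x hx y hy
  by_cases hp2 : p = 2
  · have hx1 : ∀ x ∈ B', x = 1 := by
      intro x hx
      have h1 : (Subgroup.centralizer ({x} : Set G)).index ∣ 2 ^ (r + s) := by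
        have := Subgroup.index_dvd_of_le (hcent x hx)
        rw [hB'idx, hp2, ← pow_add] at this
        exact this
      obtain ⟨b, -, hb⟩ := (Nat.dvd_prime_pow Nat.prime_two).mp h1
      exact kz x 2 b Nat.prime_two hb
    have hB'bot : B' = ⊥ := (Subgroup.eq_bot_iff_forall _).mpr hx1
    have hcard : Nat.card G = 2 ^ (r + s) := by
      have h1 := B'.card_mul_index
      rw [hB'idx, hp2, ← pow_add] at h1
      rw [hB'bot, Subgroup.card_bot, one_mul] at h1
      exact h1.symm
    exact ppow_solvable 2 _ Nat.prime_two hcard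
  · have hpodd : ¬ 2 ∣ p := by
      intro h
      exact hp2 ((Nat.prime_dvd_prime_iff_eq Nat.prime_two hp).mp h).symm
    obtain ⟨g, hg⟩ := IsCyclic.exists_generator (α := A ⧸ B)
    obtain ⟨t, rfl⟩ := QuotientGroup.mk_surjective g
    have hdec : ∀ a : A, ∃ i : ℤ, ∃ b ∈ B, a = t ^ i * b := by
      intro a
      obtain ⟨i, hi⟩ := Subgroup.mem_zpowers_iff.mp (hg (a : A ⧸ B))
      refine ⟨i, (t ^ i)⁻¹ * a, ?_, by group⟩
      rw [← QuotientGroup.eq, ← hi]
      simp
    have hfix : ∀ x ∈ B', x * (t : G) = (t : G) * x → x = 1 := by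
      intro x hx hxt
      have hA' : A ≤ Subgroup.centralizer ({x} : Set G) := by
        intro a ha
        rw [Subgroup.mem_centralizer_iff]
        intro z hz
        rw [Set.mem_singleton_iff] at hz
        rw [hz]
        obtain ⟨i, b, hb, hab⟩ := hdec ⟨a, ha⟩
        have ha' : a = (t : G) ^ i * (b : G) := by
          have := congrArg (fun z : A => (z : G)) hab
          simpa using this
        have hbB' : (b : G) ∈ B' := by rw [hB']; exact ⟨b, hb, rfl⟩
        have h1 : x * (b : G) = (b : G) * x := hcomm x hx _ hbB'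
        have h2 : x * (t : G) ^ i = (t : G) ^ i * x := (Commute.zpow_right hxt i).eq
        rw [ha', ← mul_assoc, h2, mul_assoc, h1, mul_assoc]
      have h1 : (Subgroup.centralizer ({x} : Set G)).index ∣ p ^ s := by
        rw [← hA]; exact Subgroup.index_dvd_of_le hA'
      obtain ⟨b, -, hb⟩ := (Nat.dvd_prime_pow hp).mp h1
      exact kz x p b hp hb
    haveI : Fact (Nat.Prime 2) := ⟨Nat.prime_two⟩
    have hodd : ¬ 2 ∣ Nat.card B := by
      intro h2
      obtain ⟨z, hz⟩ := exists_prime_orderOf_dvd_card' 2 h2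
      have hconj : t * (z : A) * t⁻¹ ∈ B := hBn.conj_mem _ z.2 t
      have hz' : orderOf (⟨t * (z : A) * t⁻¹, hconj⟩ : B) = 2 := by
        rw [← hz, Subgroup.orderOf_mk, ← Subgroup.orderOf_coe z]
        exact orderOf_injective (MulAut.conj t).toMonoidHom (MulAut.conj t).injective (z : A)
      have e := cyc_invol_unique z ⟨_, hconj⟩ hz hz'
      have e2 : (z : A) = t * (z : A) * t⁻¹ := congrArg Subtype.val e
      have hzB' : ((z : A) : G) ∈ B' := by rw [hB']; exact ⟨z, z.2, rfl⟩
      have h3 : ((z : A) : G) * (t : G) = (t : G) * ((z : A) : G) := by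
        have := congrArg (fun w : A => (w : G)) e2
        simp only [Subgroup.coe_mul, InvMemClass.coe_inv] at this
        calc ((z : A) : G) * (t : G) = ((t : G) * ((z : A) : G) * (t : G)⁻¹) * (t : G) := by
              rw [← this]
          _ = (t : G) * ((z : A) : G) := by group
      have h4 := hfix _ hzB' h3
      have h5 : z = 1 := by
        apply Subtype.ext; apply Subtype.ext; simpa using h4
      rw [h5, orderOf_one] at hz
      omega
    obtain ⟨PA⟩ : Nonempty (Sylow 2 A) := inferInstance
    have hinj : Function.Injective ((QuotientGroup.mk' B).comp (PA : Subgroup A).subtype) := by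
      rw [injective_iff_map_eq_one]
      intro x hx
      have hxB : (x : A) ∈ B := (QuotientGroup.eq_one_iff _).mp hx
      have h1 : orderOf (x : A) ∣ Nat.card B := by
        have := orderOf_dvd_natCard (⟨(x : A), hxB⟩ : B)
        rwa [Subgroup.orderOf_mk] at this
      obtain ⟨k, hk⟩ := PA.2 x
      have h2 : orderOf (x : A) ∣ 2 ^ k := by
        apply orderOf_dvd_of_pow_eq_one
        have := congrArg Subtype.val hk
        simpa using this
      have hcop : Nat.Coprime (Nat.card B) (2 ^ k) :=
        Nat.Coprime.pow_right k ((Nat.coprime_comm.mp ((Nat.Prime.coprime_iff_not_dvd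
          Nat.prime_two).mpr hodd)))
      have h3 : orderOf (x : A) = 1 := Nat.eq_one_of_dvd_coprimes hcop h1 h2
      apply Subtype.ext
      simpa using orderOf_eq_one_iff.mp h3
    have hPAcyc : IsCyclic (PA : Subgroup A) := isCyclic_of_injective _ hinj
    have hQcyc : IsCyclic ((PA : Subgroup A).map A.subtype) :=
      isCyclic_of_surjective ((A.subtype).subgroupMap (PA : Subgroup A))
        (MonoidHom.subgroupMap_surjective _ _)
    have hQp : IsPGroup 2 ((PA : Subgroup A).map A.subtype) := PA.2.map A.subtype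
    have hQidx : ¬ 2 ∣ ((PA : Subgroup A).map A.subtype).index := by
      rw [Subgroup.index_map_subtype, hA]
      intro h
      rcases (Nat.Prime.dvd_mul Nat.prime_two).mp h with h | h
      · exact PA.not_dvd_index h
      · exact hpodd (Nat.Prime.dvd_of_dvd_pow Nat.prime_two h)
    obtain ⟨P, hPcyc⟩ : ∃ P : Sylow 2 G, IsCyclic P := ⟨hQp.toSylow hQidx, hQcyc⟩
    obtain ⟨K, hKn, hKc⟩ : ∃ K : Subgroup G, K.Normal ∧ K.IsComplement' (P : Subgroup G) := by
      by_cases h2G : 2 ∣ Nat.card G
      · have hmin : (Nat.card G).minFac = 2 := (Nat.minFac_eq_two_iff _).mpr h2G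
        exact ⟨_, MonoidHom.normal_ker _, IsCyclic.isComplement' hmin hPcyc⟩
      · refine ⟨⊤, inferInstance, ?_⟩
        have hPbot : (P : Subgroup G) = ⊥ := by
          obtain ⟨k, hk⟩ := P.2.exists_card_eq
          have hdvd : Nat.card (P : Subgroup G) ∣ Nat.card G := Subgroup.card_subgroup_dvd_card _
          rw [hk] at hdvd
          have hk0 : k = 0 := by
            by_contra hk0
            exact h2G ((dvd_pow_self 2 hk0).trans hdvd)
          rw [hk0, pow_zero] at hk
          exact Subgroup.eq_bot_of_card_eq _ hk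
        rw [hPbot]
        exact Subgroup.isComplement'_top_bot
    haveI := hKn
    obtain ⟨k, hk⟩ := P.2.exists_card_eq
    have hKP : Nat.card K * Nat.card (P : Subgroup G) = Nat.card G := hKc.card_mul_card
    have hKidx : K.index = 2 ^ k := by
      have h1 := K.card_mul_index
      rw [← hKP, hk] at h1
      exact Nat.eq_of_mul_eq_mul_left Nat.card_pos h1
    have hKodd : ¬ 2 ∣ Nat.card K := by
      have h1 := (P : Subgroup G).card_mul_index
      rw [← hKP, mul_comm (Nat.card K)] at h1
      have h2 : (P : Subgroup G).index = Nat.card K := Nat.eq_of_mul_eq_mul_left Nat.card_pos h1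
      rw [← h2]
      exact P.not_dvd_index
    have hB'K : B' ≤ K := by
      intro x hx
      have h1 : orderOf x ∣ Nat.card B := by
        rw [← hcB']
        have := orderOf_dvd_natCard (⟨x, hx⟩ : B')
        rwa [Subgroup.orderOf_mk] at this
      have h2 : orderOf (x : G ⧸ K) ∣ orderOf x := by
        apply orderOf_dvd_of_pow_eq_one
        rw [← QuotientGroup.mk_pow, pow_orderOf_eq_one]
        rfl
      have h3 : orderOf (x : G ⧸ K) ∣ 2 ^ k := by
        rw [← hKidx]; exact orderOf_dvd_natCard _
      have hcop : Nat.Coprime (Nat.card B) (2 ^ k) :=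
        Nat.Coprime.pow_right k ((Nat.coprime_comm.mp ((Nat.Prime.coprime_iff_not_dvd
          Nat.prime_two).mpr hodd)))
      have h4 : orderOf (x : G ⧸ K) = 1 := Nat.eq_one_of_dvd_coprimes hcop (h2.trans h1) h3
      exact (QuotientGroup.eq_one_iff x).mp (orderOf_eq_one_iff.mp h4)
    have hrel : B'.relIndex K ∣ p ^ s := by
      have h1 : B'.relIndex K * K.index = B'.index := Subgroup.relIndex_mul_index hB'K
      rw [hB'idx] at h1
      have h2 : B'.relIndex K ∣ 2 ^ r * p ^ s := Dvd.intro _ h1
      have h3 : B'.relIndex K ∣ Nat.card K := Subgroup.relIndex_dvd_card _ _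
      have hcop : Nat.Coprime (B'.relIndex K) (2 ^ r) := by
        apply Nat.Coprime.pow_right
        apply Nat.Coprime.coprime_dvd_left h3
        exact Nat.coprime_comm.mp ((Nat.Prime.coprime_iff_not_dvd Nat.prime_two).mpr hKodd)
      exact hcop.dvd_of_dvd_mul_left h2
    obtain ⟨RK, hRKc, hRKs, hRKmax⟩ := Cfsg.Agent.Lead.kz_exists_radical ↥K
    haveI := hRKc
    have hRKbot : RK.map K.subtype = ⊥ := by
      apply triv _ inferInstance
      exact Group.isSolvable_of_surjective (f := (K.subtype).subgroupMap RK)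
        (MonoidHom.subgroupMap_surjective _ _)
    have hx1 : ∀ x ∈ B', x = 1 := by
      intro x hx
      have hxK : x ∈ K := hB'K hx
      have hle : B'.subgroupOf K ≤ Subgroup.centralizer ({(⟨x, hxK⟩ : K)} : Set K) := by
        intro y hy
        rw [Subgroup.mem_subgroupOf] at hy
        rw [Subgroup.mem_centralizer_iff]
        intro z hz
        rw [Set.mem_singleton_iff] at hz
        rw [hz]
        apply Subtype.ext
        simp only [Subgroup.coe_mul]
        exact hcomm x hx _ hy
      have h1 : (Subgroup.centralizer ({(⟨x, hxK⟩ : K)} : Set K)).index ∣ p ^ s :=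
        (Subgroup.index_dvd_of_le hle).trans hrel
      obtain ⟨b, -, hb⟩ := (Nat.dvd_prime_pow hp).mp h1
      obtain ⟨N, hN, hNs, hxN⟩ := Cfsg.Agent.Lead.kazarin p hp (⟨x, hxK⟩ : K) b hb
      have h2 : x ∈ RK.map K.subtype := ⟨⟨x, hxK⟩, hRKmax N hN hNs hxN, rfl⟩
      rw [hRKbot] at h2
      exact Subgroup.mem_bot.mp h2
    have hB'bot : B' = ⊥ := (Subgroup.eq_bot_iff_forall _).mpr hx1
    rw [hB'bot, Subgroup.relIndex_bot_left] at hrel
    obtain ⟨j, -, hj⟩ := (Nat.dvd_prime_pow hp).mp hrel
    have hKbot : K = ⊥ := triv K hKn (ppow_solvable p j hp hj)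
    have hcard : Nat.card G = 2 ^ k := by
      rw [← hKP, hKbot, Subgroup.card_bot, one_mul, hk]
    exact ppow_solvable 2 _ Nat.prime_two hcard

theorem cyc2_main : ∀ (n : ℕ) (G : Type u) [Group G] [Finite G], Nat.card G = n →
    ∀ (A : Subgroup G) (p s : ℕ), p.Prime → A.index = p ^ s →
    ∀ (B : Subgroup A) [B.Normal], IsCyclic B → IsCyclic (A ⧸ B) →
    ∀ r : ℕ, Nat.card (A ⧸ B) = 2 ^ r → Group.IsSolvable G := by
  intro n
  induction n using Nat.strong_induction_on with
  | _ n ih =>
  intro G _ _ hn A p s hp hA B hBn hB hAB r hr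
  obtain ⟨R, hRc, hRs, hRmax⟩ := Cfsg.Agent.Lead.kz_exists_radical G
  haveI := hRc
  haveI hRn : R.Normal := Subgroup.normal_of_characteristic R
  by_cases hR : R = ⊥
  · exact cyc2_direct (fun N hN hs => le_bot_iff.mp (hR ▸ hRmax N hN hs)) A p s hp hA B hB hAB
      r hr
  · have hlt : Nat.card (G ⧸ R) < n := by
      rw [← hn, ← R.card_mul_index]
      have h1 : 1 < Nat.card R := by
        rw [Subgroup.one_lt_card_iff_ne_bot]; exact hR
      have h2 : 0 < R.index := Nat.pos_of_ne_zero Subgroup.index_ne_zero_of_finite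
      show R.index < Nat.card R * R.index
      nlinarith
    have hf : Function.Surjective (QuotientGroup.mk' R) := QuotientGroup.mk'_surjective R
    have hφ : Function.Surjective ((QuotientGroup.mk' R).subgroupMap A) :=
      (QuotientGroup.mk' R).subgroupMap_surjective A
    haveI hBbn : (B.map ((QuotientGroup.mk' R).subgroupMap A)).Normal := hBn.map _ hφ
    have hBbc : IsCyclic (B.map ((QuotientGroup.mk' R).subgroupMap A)) :=
      isCyclic_of_surjective (((QuotientGroup.mk' R).subgroupMap A).subgroupMap B)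
        (((QuotientGroup.mk' R).subgroupMap A).subgroupMap_surjective B)
    have hψ : Function.Surjective (QuotientGroup.map B
        (B.map ((QuotientGroup.mk' R).subgroupMap A)) ((QuotientGroup.mk' R).subgroupMap A)
        (Subgroup.le_comap_map _ B)) := by
      intro y
      obtain ⟨a', rfl⟩ := QuotientGroup.mk_surjective y
      obtain ⟨a, rfl⟩ := hφ a'
      exact ⟨(a : A ⧸ B), rfl⟩
    have hABb : IsCyclic ((A.map (QuotientGroup.mk' R)) ⧸
        (B.map ((QuotientGroup.mk' R).subgroupMap A))) := isCyclic_of_surjective _ hψ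
    have hcard : Nat.card ((A.map (QuotientGroup.mk' R)) ⧸
        (B.map ((QuotientGroup.mk' R).subgroupMap A))) ∣ 2 ^ r := by
      rw [← hr]; exact Subgroup.card_dvd_of_surjective _ hψ
    obtain ⟨r', -, hr'⟩ := (Nat.dvd_prime_pow Nat.prime_two).mp hcard
    have hidx : (A.map (QuotientGroup.mk' R)).index ∣ p ^ s := by
      rw [← hA]; exact Subgroup.index_map_dvd A hf
    obtain ⟨s', -, hs'⟩ := (Nat.dvd_prime_pow hp).mp hidx
    haveI : Group.IsSolvable (G ⧸ R) :=
      ih _ hlt (G ⧸ R) rfl (A.map (QuotientGroup.mk' R)) p s' hp hs'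
        (B.map ((QuotientGroup.mk' R).subgroupMap A)) hBbc hABb r' hr'
    haveI := hRs
    exact Group.isSolvable_of_ker_le_range R.subtype (QuotientGroup.mk' R) (by simp)

end Cfsg.Agent.Helper19
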