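import Mathlib
import Cfsg.Agent.Helper9.Recog

set_option autoImplicit false

namespace Cfsg.Agent.Helper19

open Cfsg.Agent.Helper9

/-- Two elements `a, b` with `a ^ (2k) = 1`, `b² = a ^ k`, `b a b⁻¹ = a⁻¹` give a homomorphism
from the generalized quaternion group. -/
theorem quat_hom_gen {D : Type*} [Group D] (k : ℕ) [NeZero k] (a b : D) (hk : a ^ (2 * k) = 1)
    (hb : b * b = a ^ k) (hab : b * a * b⁻¹ = a⁻¹) :
    ∃ F : QuaternionGroup k →* D, F (QuaternionGroup.a 1) = a ∧ F (QuaternionGroup.xa 0) = b := by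
  have hbb : b * b = zpw (2 * k) a (k : ZMod (2 * k)) := by rw [hb, zpw_natCast hk]
  let f : QuaternionGroup k → D := fun g =>
    match g with
    | QuaternionGroup.a i => zpw (2 * k) a i
    | QuaternionGroup.xa i => b * zpw (2 * k) a i
  have hmul : ∀ g h : QuaternionGroup k, f (g * h) = f g * f h := by
    intro g h
    rcases g with i | i <;> rcases h with j | j
    · show zpw (2 * k) a (i + j) = zpw (2 * k) a i * zpw (2 * k) a j
      exact zpw_add hk i j
    · show b * zpw (2 * k) a (j - i) = zpw (2 * k) a i * (b * zpw (2 * k) a j)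
      rw [← mul_assoc, zpw_mul_inv_conj hk hab, mul_assoc, ← zpw_add hk]
      congr 2; ring
    · show b * zpw (2 * k) a (i + j) = b * zpw (2 * k) a i * zpw (2 * k) a j
      rw [zpw_add hk, mul_assoc]
    · show zpw (2 * k) a ((k : ZMod (2 * k)) + j - i) =
        b * zpw (2 * k) a i * (b * zpw (2 * k) a j)
      rw [inv_conj_zpw hk hab, mul_assoc, ← mul_assoc b b, hbb, ← zpw_add hk, ← zpw_add hk]
      congr 1; ring
  refine ⟨MonoidHom.mk' f hmul, ?_, ?_⟩
  · show zpw (2 * k) a 1 = a
    exact zpw_one hk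
  · show b * zpw (2 * k) a 0 = b
    rw [zpw_zero, mul_one]

/-- normal form of elements of the generalized quaternion group -/
theorem quat_repr (k : ℕ) [NeZero k] (q : QuaternionGroup k) :
    ∃ j : ℕ, q = (QuaternionGroup.a 1) ^ j ∨ q = QuaternionGroup.xa 0 * (QuaternionGroup.a 1) ^ j := by
  haveI : NeZero (2 * k) := ⟨by have := NeZero.ne k; omega⟩
  cases q with
  | a i => exact ⟨i.val, Or.inl (by rw [QuaternionGroup.a_one_pow, ZMod.natCast_zmod_val])⟩
  | xa i =>
    exact ⟨i.val, Or.inr (by
      rw [QuaternionGroup.a_one_pow, QuaternionGroup.xa_mul_a, zero_add,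
        ZMod.natCast_zmod_val])⟩

/-- a homomorphism out of the generalized quaternion group fixing both generators is the
identity -/
theorem quat_hom_id (k : ℕ) [NeZero k] (ψ : QuaternionGroup k →* QuaternionGroup k)
    (h1 : ψ (QuaternionGroup.a 1) = QuaternionGroup.a 1)
    (h2 : ψ (QuaternionGroup.xa 0) = QuaternionGroup.xa 0) (q : QuaternionGroup k) : ψ q = q := by
  obtain ⟨j, hj | hj⟩ := quat_repr k q
  · rw [hj, map_pow, h1]
  · rw [hj, map_mul, map_pow, h1, h2]

end Cfsg.Agent.Helper19
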