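import Mathlib

namespace Cfsg.Agent.Helper19.Sp4

open Matrix

set_option maxRecDepth 1000000 in
theorem sl25_dec : ∀ a b c d : ZMod 5, a * d - b * c = 1 →
    (a * a + b * c) * a + (a * b + b * d) * c = 1 →
    (a * a + b * c) * b + (a * b + b * d) * d = 0 →
    (c * a + d * c) * a + (c * b + d * d) * c = 0 →
    (c * a + d * c) * b + (c * b + d * d) * d = 1 →
    ¬ (a = 1 ∧ b = 0 ∧ c = 0 ∧ d = 1) →
    ∃ p q r : ZMod 5, p * p + q * r = -1 ∧
      p * ((a * p + b * r) * d - (a * q - b * p) * c) + q * ((c * p + d * r) * d - (c * q - d * p) * c)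
        + r * (-(a * p + b * r) * b + (a * q - b * p) * a)
        - p * (-(c * p + d * r) * b + (c * q - d * p) * a) = 0 := by
  decide +kernel

/-- A self-map `T` of a finite type with `T^5 = id`: the cardinality is congruent mod 5 to the number of fixed points. -/
theorem sp_card_mod5 {α : Type*} [Finite α] (T : α → α) (hT : ∀ a, T (T (T (T (T a)))) = a) :
    Nat.card α ≡ Nat.card {a : α // T a = a} [MOD 5] := by
  classical
  haveI := Fintype.ofFinite α
  haveI : Fact (Nat.Prime 5) := ⟨by norm_num⟩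
  let f : Function.End α := T
  have hf : f ^ 5 ^ 1 = 1 := by
    have h5 : f ^ 5 ^ 1 = f * (f * (f * (f * f))) := by
      rw [pow_one]; simp [pow_succ, mul_assoc]
    rw [h5]
    funext a
    exact hT a
  have h := Equiv.Perm.card_fixedPoints_modEq (α := α) (f := f) (p := 5) (n := 1) hf
  rw [Fintype.card_eq_nat_card, Fintype.card_eq_nat_card] at h
  exact h

theorem sp_card_vec {F : Type*} [Field F] [Fintype F] (hF : Fintype.card F = 3)
    (M : Matrix (Fin 2 ⊕ Fin 2) (Fin 2 ⊕ Fin 2) F) :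
    (∀ v, M *ᵥ v = v) ∨
      ∃ d : ℕ, d ≤ 3 ∧ Nat.card {v : Fin 2 ⊕ Fin 2 → F // M *ᵥ v = v} = 3 ^ d ∧
        (d = 0 → ∀ v, M *ᵥ v = v → v = 0) := by
  classical
  let U : Submodule F (Fin 2 ⊕ Fin 2 → F) := LinearMap.ker (Matrix.toLin' M - LinearMap.id)
  have hU : ∀ v, v ∈ U ↔ M *ᵥ v = v := by
    intro v
    simp [U, LinearMap.mem_ker, sub_eq_zero, Matrix.toLin'_apply]
  have hcard : Nat.card {v : Fin 2 ⊕ Fin 2 → F // M *ᵥ v = v} = 3 ^ Module.finrank F U := by
    have h1 : Nat.card {v : Fin 2 ⊕ Fin 2 → F // M *ᵥ v = v} = Nat.card U :=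
      Nat.card_congr (Equiv.subtypeEquivRight (fun v => (hU v).symm))
    rw [h1, Module.natCard_eq_pow_finrank (K := F) (V := U), Nat.card_eq_fintype_card, hF]
  have hV : Module.finrank F (Fin 2 ⊕ Fin 2 → F) = 4 := by simp
  have hle : Module.finrank F U ≤ 4 := hV ▸ Submodule.finrank_le U
  by_cases h4 : Module.finrank F U = 4
  · left
    have : U = ⊤ := Submodule.eq_top_of_finrank_eq (by rw [h4, hV])
    intro v
    exact (hU v).mp (this ▸ Submodule.mem_top)
  · right
    refine ⟨Module.finrank F U, by omega, hcard, ?_⟩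
    intro h0 v hv
    have : U = ⊥ := Submodule.finrank_eq_zero.mp h0
    have hv' : v ∈ U := (hU v).mpr hv
    rw [this] at hv'
    simpa using hv'

theorem sp_neg_one {F : Type*} [Field F] [Fintype F] (hF : Fintype.card F = 3)
    (Z B : Matrix (Fin 2 ⊕ Fin 2) (Fin 2 ⊕ Fin 2) F)
    (hB5 : B * (B * (B * (B * B))) = 1) (hB1 : B ≠ 1) (hZ2 : Z * Z = 1) (hZ1 : Z ≠ 1)
    (hZB : Z * B = B * Z) : Z = -1 := by
  classical
  have hext : ∀ M : Matrix (Fin 2 ⊕ Fin 2) (Fin 2 ⊕ Fin 2) F, (∀ v, M *ᵥ v = v) → M = 1 := by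
    intro M h
    apply Matrix.toLin'.injective
    apply LinearMap.ext
    intro v
    simp [Matrix.toLin'_apply, h v]
  have hcV : Nat.card (Fin 2 ⊕ Fin 2 → F) = 81 := by
    rw [Nat.card_eq_fintype_card]; simp [hF]
  -- Step 1
  have h1 : ∀ v, B *ᵥ v = v → v = 0 := by
    rcases sp_card_vec hF B with h | ⟨d, hd, hc, h0⟩
    · exact absurd (hext B h) hB1
    · have hm := sp_card_mod5 (α := Fin 2 ⊕ Fin 2 → F) (fun v => B *ᵥ v) (by
        intro v
        simp only [Matrix.mulVec_mulVec]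
        rw [hB5, Matrix.one_mulVec])
      rw [hcV, hc] at hm
      have : d = 0 := by
        interval_cases d
        · rfl
        · exact absurd hm (by decide)
        · exact absurd hm (by decide)
        · exact absurd hm (by decide)
      exact h0 this
  -- Step 2
  have h2 : ∀ v, Z *ᵥ v = v → v = 0 := by
    rcases sp_card_vec hF Z with h | ⟨d, hd, hc, h0⟩
    · exact absurd (hext Z h) hZ1
    · have hinv : ∀ v, Z *ᵥ v = v → Z *ᵥ (B *ᵥ v) = B *ᵥ v := by
        intro v hv
        rw [Matrix.mulVec_mulVec, hZB, ← Matrix.mulVec_mulVec, hv]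
      obtain ⟨T, hT⟩ : ∃ T : {v : Fin 2 ⊕ Fin 2 → F // Z *ᵥ v = v} → {v : Fin 2 ⊕ Fin 2 → F // Z *ᵥ v = v},
          ∀ a, (T a).1 = B *ᵥ a.1 := ⟨fun v => ⟨B *ᵥ v.1, hinv v.1 v.2⟩, fun a => rfl⟩
      have hm := sp_card_mod5 T (by
          intro v
          apply Subtype.ext
          simp only [hT, Matrix.mulVec_mulVec]
          rw [hB5, Matrix.one_mulVec])
      have hfix : Nat.card {a : {v : Fin 2 ⊕ Fin 2 → F // Z *ᵥ v = v} // T a = a} = 1 := by
        rw [Nat.card_eq_one_iff_unique]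
        constructor
        · constructor
          intro a b
          apply Subtype.ext; apply Subtype.ext
          have ha := h1 a.1.1 (by rw [← hT]; exact congrArg Subtype.val a.2)
          have hb := h1 b.1.1 (by rw [← hT]; exact congrArg Subtype.val b.2)
          rw [ha, hb]
        · exact ⟨⟨⟨0, by simp⟩, by apply Subtype.ext; rw [hT]; simp⟩⟩
      rw [hc, hfix] at hm
      have : d = 0 := by
        interval_cases d
        · rfl
        · exact absurd hm (by decide)
        · exact absurd hm (by decide)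
        · exact absurd hm (by decide)
      exact h0 this
  -- Step 3
  have h3 : ∀ v, Z *ᵥ v = -v := by
    intro v
    have : Z *ᵥ (Z *ᵥ v + v) = Z *ᵥ v + v := by
      rw [Matrix.mulVec_add, Matrix.mulVec_mulVec, hZ2, Matrix.one_mulVec, add_comm]
    have := h2 _ this
    exact eq_neg_of_add_eq_zero_left this
  apply Matrix.toLin'.injective
  apply LinearMap.ext
  intro v
  simp [Matrix.toLin'_apply, h3 v]

theorem sp_sq_zero {F : Type*} [Field F] (h3 : (3 : F) = 0)
    (A : Matrix (Fin 2 ⊕ Fin 2) (Fin 2 ⊕ Fin 2) F)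
    (hA : Aᵀ * J (Fin 2) F * A = J (Fin 2) F) (hA3 : A * A * A = 1) :
    (A - 1) * (A - 1) = 0 := by
  classical
  have h2 : (2 : F) ≠ 0 := by
    intro h
    have : (1 : F) = 0 := by linear_combination h3 - h
    exact one_ne_zero this
  have hM3 : ∀ M : Matrix (Fin 2 ⊕ Fin 2) (Fin 2 ⊕ Fin 2) F, M + M + M = 0 := by
    intro M; ext i j
    simp only [Matrix.add_apply, Matrix.zero_apply]
    linear_combination (M i j) * h3
  set N := A - 1 with hN
  have hN3 : N * N * N = 0 := by
    have : N * N * N = A * A * A - 1 - ((A * A - A) + (A * A - A) + (A * A - A)) := by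
      simp only [hN]; noncomm_ring
    rw [this, hA3, hM3]; simp
  have hAJ : Aᵀ * J (Fin 2) F = J (Fin 2) F * (A * A) := by
    calc Aᵀ * J (Fin 2) F = Aᵀ * J (Fin 2) F * (A * A * A) := by rw [hA3, mul_one]
      _ = (Aᵀ * J (Fin 2) F * A) * (A * A) := by simp only [mul_assoc]
      _ = J (Fin 2) F * (A * A) := by rw [hA]
  have hNJ : Nᵀ * J (Fin 2) F = J (Fin 2) F * (N * N - N) := by
    have e1 : J (Fin 2) F * (N * N - N) = J (Fin 2) F * (A * A) - J (Fin 2) F
        - ((J (Fin 2) F * A - J (Fin 2) F) + (J (Fin 2) F * A - J (Fin 2) F) + (J (Fin 2) F * A - J (Fin 2) F)) := by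
      simp only [hN]; noncomm_ring
    rw [e1, hM3, sub_zero, hN, Matrix.transpose_sub, Matrix.transpose_one, sub_mul, one_mul, hAJ]
  set S := J (Fin 2) F * (N * N) with hS
  have hSt : Sᵀ = -S := by
    have e1 : (N * N - N) * (N * N - N) = N * N + (N * N * N) * N - (N * N * N) - (N * N * N) := by
      noncomm_ring
    calc Sᵀ = Nᵀ * Nᵀ * (J (Fin 2) F)ᵀ := by
            rw [hS, Matrix.transpose_mul, Matrix.transpose_mul]
      _ = -(Nᵀ * (Nᵀ * J (Fin 2) F)) := by rw [J_transpose, Matrix.mul_neg, mul_assoc]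
      _ = -(Nᵀ * (J (Fin 2) F * (N * N - N))) := by rw [hNJ]
      _ = -((Nᵀ * J (Fin 2) F) * (N * N - N)) := by rw [mul_assoc]
      _ = -(J (Fin 2) F * (N * N - N) * (N * N - N)) := by rw [hNJ]
      _ = -(J (Fin 2) F * ((N * N - N) * (N * N - N))) := by rw [mul_assoc]
      _ = -S := by rw [e1, hN3]; simp [hS]
  have hSN : S * N = 0 := by
    rw [hS, mul_assoc, hN3, mul_zero]
  by_contra hne
  have hS0 : S ≠ 0 := by
    intro h0
    apply hne
    have : J (Fin 2) F * S = -(N * N) := by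
      rw [hS, ← mul_assoc, J_squared, neg_one_mul]
    rw [h0, mul_zero] at this
    exact neg_eq_zero.mp this.symm
  obtain ⟨a, b, hab⟩ : ∃ a b, S a b ≠ 0 := by
    by_contra hcon
    push Not at hcon
    apply hS0
    ext i j
    simpa using hcon i j
  have hdiag : ∀ c, S c c = 0 := by
    intro c
    have := congrFun (congrFun hSt c) c
    simp only [Matrix.transpose_apply, Matrix.neg_apply] at this
    have h' : (2 : F) * S c c = 0 := by linear_combination this
    rcases mul_eq_zero.mp h' with h | h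
    · exact absurd h h2
    · exact h
  have hba : S b a = -S a b := by
    have := congrFun (congrFun hSt a) b
    simpa [Matrix.transpose_apply] using this
  have hrS : 2 ≤ S.rank := by
    have hdet : (S.submatrix ![a, b] ![a, b]).det ≠ 0 := by
      rw [Matrix.det_fin_two]
      simp only [Matrix.submatrix_apply, Matrix.cons_val_zero, Matrix.cons_val_one]
      rw [hdiag a, hdiag b, hba]
      simp only [zero_mul, mul_neg, sub_neg_eq_add, zero_add]
      exact mul_ne_zero hab hab
    have hu : IsUnit (S.submatrix ![a, b] ![a, b]) :=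
      (Matrix.isUnit_iff_isUnit_det _).mpr (IsUnit.mk0 _ hdet)
    have := Matrix.rank_of_isUnit _ hu
    have h' := Matrix.rank_submatrix_le S ![a, b] ![a, b]
    rw [this] at h'
    simpa using h'
  have hrN : N.rank ≤ 2 := by
    have := Matrix.rank_add_rank_le_card_of_mul_eq_zero hSN
    simp at this
    omega
  have hrNN : 2 ≤ (N * N).rank := by
    have := Matrix.rank_mul_le_right (J (Fin 2) F) (N * N)
    exact le_trans hrS this
  have hle : LinearMap.range (N * N).mulVecLin ≤ LinearMap.range N.mulVecLin := by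
    rintro _ ⟨v, rfl⟩
    exact ⟨N *ᵥ v, by simp [Matrix.mulVec_mulVec]⟩
  have heq : LinearMap.range (N * N).mulVecLin = LinearMap.range N.mulVecLin := by
    apply Submodule.eq_of_le_of_finrank_le hle
    show N.rank ≤ (N * N).rank
    omega
  apply hne
  apply Matrix.toLin'.injective
  apply LinearMap.ext
  intro v
  have hv : N *ᵥ v ∈ LinearMap.range (N * N).mulVecLin := by
    rw [heq]; exact ⟨v, rfl⟩
  obtain ⟨w, hw⟩ := hv
  have hw' : (N * N) *ᵥ w = N *ᵥ v := hw
  simp only [Matrix.toLin'_apply, map_zero, LinearMap.zero_apply]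
  rw [← Matrix.mulVec_mulVec, ← hw', Matrix.mulVec_mulVec, ← mul_assoc, hN3, Matrix.zero_mulVec]

theorem sp_main {F : Type*} [Field F] (h3 : (3 : F) = 0)
    (A I : Matrix (Fin 2 ⊕ Fin 2) (Fin 2 ⊕ Fin 2) F)
    (hA : Aᵀ * J (Fin 2) F * A = J (Fin 2) F) (hA3 : A * A * A = 1)
    (hI : I * I = -1) (hrel : (A * I * (A * A)) * I = -(I * (A * I * (A * A)))) :
    Module.finrank F ↥(LinearMap.ker (Matrix.toLin' A - LinearMap.id)) = 2 ∧
      ∀ v w : Fin 2 ⊕ Fin 2 → F, A *ᵥ v = v → A *ᵥ w = w → v ⬝ᵥ (J (Fin 2) F *ᵥ w) = 0 := by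
  classical
  have hM3 : ∀ M : Matrix (Fin 2 ⊕ Fin 2) (Fin 2 ⊕ Fin 2) F, M + M + M = 0 := by
    intro M; ext i j
    simp only [Matrix.add_apply, Matrix.zero_apply]
    linear_combination (M i j) * h3
  have hN2 := sp_sq_zero h3 A hA hA3
  set N := A - 1 with hN
  have hA1 : A = 1 + N := by rw [hN]; abel
  have hAA : A * A = 1 - N := by
    have e1 : A * A = 1 - N + (N + N + N) + N * N := by rw [hA1]; noncomm_ring
    rw [e1, hM3, hN2]; simp
  have hrel' : ((1 + N) * I * (1 - N)) * I + I * ((1 + N) * I * (1 - N)) = 0 := by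
    rw [hAA, hA1] at hrel
    rw [hrel]; abel
  have hI' : I * I + 1 = 0 := by rw [hI]; abel
  have key : N * (I * N * I) + I * N * I * N = 1 := by
    have e1 : N * (I * N * I) + I * N * I * N + (1 + 1 + 1) = 1
        - (((1 + N) * I * (1 - N)) * I + I * ((1 + N) * I * (1 - N)))
        + (1 + 1) * (I * I + 1) + N * (I * I + 1) - (I * I + 1) * N := by
      noncomm_ring
    rw [hrel', hI', hM3] at e1
    simpa using e1
  have hker : ∀ w : Fin 2 ⊕ Fin 2 → F, N *ᵥ w = 0 → w = N *ᵥ ((I * N * I) *ᵥ w) := by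
    intro w hw
    have h1 : (N * (I * N * I) + I * N * I * N) *ᵥ w = w := by rw [key, Matrix.one_mulVec]
    have e2 : (I * N * I * N) *ᵥ w = (I * N * I) *ᵥ (N *ᵥ w) := by rw [Matrix.mulVec_mulVec]
    have e3 : (N * (I * N * I)) *ᵥ w = N *ᵥ ((I * N * I) *ᵥ w) := by rw [Matrix.mulVec_mulVec]
    rw [Matrix.add_mulVec, e2, e3, hw, Matrix.mulVec_zero, add_zero] at h1
    exact h1.symm
  have hfix : ∀ w : Fin 2 ⊕ Fin 2 → F, A *ᵥ w = w ↔ N *ᵥ w = 0 := by
    intro w
    rw [hN, Matrix.sub_mulVec, Matrix.one_mulVec, sub_eq_zero]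
  constructor
  · have hf : Matrix.toLin' A - LinearMap.id = Matrix.toLin' N := by
      rw [hN, map_sub, Matrix.toLin'_one]
    rw [hf]
    have hkr : LinearMap.ker (Matrix.toLin' N) = LinearMap.range (Matrix.toLin' N) := by
      apply le_antisymm
      · intro w hw
        rw [LinearMap.mem_ker, Matrix.toLin'_apply] at hw
        exact ⟨(I * N * I) *ᵥ w, by rw [Matrix.toLin'_apply]; exact (hker w hw).symm⟩
      · rintro _ ⟨u, rfl⟩
        rw [LinearMap.mem_ker, Matrix.toLin'_apply, Matrix.toLin'_apply, Matrix.mulVec_mulVec, hN2,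
          Matrix.zero_mulVec]
    have hrn := LinearMap.finrank_range_add_finrank_ker (Matrix.toLin' N)
    rw [← hkr] at hrn
    have hV : Module.finrank F (Fin 2 ⊕ Fin 2 → F) = 4 := by simp
    rw [hV] at hrn
    omega
  · intro v w hv hw
    have hw0 := (hfix w).mp hw
    obtain ⟨u, hu⟩ : ∃ u, w = N *ᵥ u := ⟨_, hker w hw0⟩
    rw [hu, Matrix.mulVec_mulVec]
    have e1 : J (Fin 2) F * N = J (Fin 2) F * A - J (Fin 2) F := by rw [hN, mul_sub, mul_one]
    rw [e1, Matrix.sub_mulVec, dotProduct_sub, sub_eq_zero]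
    have e2 : (A *ᵥ v) ⬝ᵥ (J (Fin 2) F * A) *ᵥ u = v ⬝ᵥ (Aᵀ * (J (Fin 2) F * A)) *ᵥ u := by
      rw [Matrix.dotProduct_mulVec v, ← Matrix.vecMul_vecMul, Matrix.vecMul_transpose,
        ← Matrix.dotProduct_mulVec]
    calc v ⬝ᵥ (J (Fin 2) F * A) *ᵥ u = (A *ᵥ v) ⬝ᵥ (J (Fin 2) F * A) *ᵥ u := by rw [hv]
      _ = v ⬝ᵥ (Aᵀ * (J (Fin 2) F * A)) *ᵥ u := e2
      _ = v ⬝ᵥ J (Fin 2) F *ᵥ u := by rw [← mul_assoc, hA]

theorem sl25_transport {K : Type*} [Field K] [Fintype K] (hK : Fintype.card K = 5) (a b c d : K)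
    (h1 : a * d - b * c = 1)
    (h2 : (a * a + b * c) * a + (a * b + b * d) * c = 1)
    (h3 : (a * a + b * c) * b + (a * b + b * d) * d = 0)
    (h4 : (c * a + d * c) * a + (c * b + d * d) * c = 0)
    (h5 : (c * a + d * c) * b + (c * b + d * d) * d = 1)
    (hne : ¬ (a = 1 ∧ b = 0 ∧ c = 0 ∧ d = 1)) :
    ∃ p q r : K, p * p + q * r = -1 ∧
      p * ((a * p + b * r) * d - (a * q - b * p) * c) + q * ((c * p + d * r) * d - (c * q - d * p) * c)
        + r * (-(a * p + b * r) * b + (a * q - b * p) * a)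
        - p * (-(c * p + d * r) * b + (c * q - d * p) * a) = 0 := by
  let e : ZMod 5 ≃+* K := ZMod.ringEquivOfPrime K (by norm_num) hK
  obtain ⟨p, q, r, hpq, hT⟩ := sl25_dec (e.symm a) (e.symm b) (e.symm c) (e.symm d)
    (by simpa using congrArg e.symm h1) (by simpa using congrArg e.symm h2)
    (by simpa using congrArg e.symm h3) (by simpa using congrArg e.symm h4)
    (by simpa using congrArg e.symm h5)
    (fun ⟨ha, hb, hc, hd⟩ => hne ⟨by simpa using congrArg e ha, by simpa using congrArg e hb,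
      by simpa using congrArg e hc, by simpa using congrArg e hd⟩)
  refine ⟨e p, e q, e r, by simpa using congrArg e hpq, ?_⟩
  have := congrArg e hT
  simp only [map_sub, map_add, map_mul, map_neg, map_zero, RingEquiv.apply_symm_apply] at this
  exact this

theorem sl25_quat {K : Type*} [Field K] [Fintype K] (hK : Fintype.card K = 5)
    (x : Matrix.SpecialLinearGroup (Fin 2) K) (hx3 : x * x * x = 1) (hx1 : x ≠ 1) :
    ∃ i z y : Matrix.SpecialLinearGroup (Fin 2) K, z * z = 1 ∧ z ≠ 1 ∧ (∀ g, z * g = g * z) ∧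
      i * i = z ∧ (x * i * (x * x)) * i = z * (i * (x * i * (x * x))) ∧
      y * (y * (y * (y * y))) = 1 ∧ y ≠ 1 := by
  classical
  have h5 : (5 : K) = 0 := by
    have := Nat.cast_card_eq_zero K
    rw [hK] at this
    exact_mod_cast this
  have h2 : (2 : K) ≠ 0 := by
    intro h
    have : (1 : K) = 0 := by linear_combination h5 - 2 * h
    exact one_ne_zero this
  have hxx : x * x = x⁻¹ := eq_inv_of_mul_eq_one_left hx3
  set a := x.1 0 0 with ha
  set b := x.1 0 1 with hb
  set c := x.1 1 0 with hc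
  set d := x.1 1 1 with hd
  have hX : x.1 = !![a, b; c, d] := Matrix.eta_fin_two x.1
  have hdet : a * d - b * c = 1 := by
    have := x.2
    rw [Matrix.det_fin_two] at this
    exact this
  have hcube : (!![a, b; c, d] : Matrix (Fin 2) (Fin 2) K) * !![a, b; c, d] * !![a, b; c, d] = 1 := by
    have := congrArg (fun g : Matrix.SpecialLinearGroup (Fin 2) K => g.1) hx3
    simp only [Matrix.SpecialLinearGroup.coe_mul, Matrix.SpecialLinearGroup.coe_one] at this
    rw [← hX]; exact this
  have e00 := congrFun (congrFun hcube 0) 0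
  have e01 := congrFun (congrFun hcube 0) 1
  have e10 := congrFun (congrFun hcube 1) 0
  have e11 := congrFun (congrFun hcube 1) 1
  simp [Matrix.mul_apply, Fin.sum_univ_two] at e00 e01 e10 e11
  have hne : ¬ (a = 1 ∧ b = 0 ∧ c = 0 ∧ d = 1) := by
    rintro ⟨h1, h2', h3, h4⟩
    apply hx1
    apply Subtype.ext
    rw [hX, h1, h2', h3, h4, Matrix.SpecialLinearGroup.coe_one]
    exact Matrix.one_fin_two.symm
  obtain ⟨p, q, r, hpq, hT⟩ := sl25_transport hK a b c d hdet (by linear_combination e00)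
    (by linear_combination e01) (by linear_combination e10) (by linear_combination e11) hne
  obtain ⟨i, hi⟩ : ∃ i : Matrix.SpecialLinearGroup (Fin 2) K, i.1 = !![p, q; r, -p] :=
    ⟨⟨!![p, q; r, -p], by rw [Matrix.det_fin_two_of]; linear_combination -hpq⟩, rfl⟩
  obtain ⟨z, hz⟩ : ∃ z : Matrix.SpecialLinearGroup (Fin 2) K, z.1 = !![-1, 0; 0, -1] :=
    ⟨⟨!![-1, 0; 0, -1], by rw [Matrix.det_fin_two_of]; ring⟩, rfl⟩
  obtain ⟨y, hy⟩ : ∃ y : Matrix.SpecialLinearGroup (Fin 2) K, y.1 = !![1, 1; 0, 1] :=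
    ⟨⟨!![1, 1; 0, 1], by rw [Matrix.det_fin_two_of]; ring⟩, rfl⟩
  refine ⟨i, z, y, ?_, ?_, ?_, ?_, ?_, ?_, ?_⟩
  · apply Subtype.ext
    simp only [Matrix.SpecialLinearGroup.coe_mul, Matrix.SpecialLinearGroup.coe_one, hz]
    ext m n
    fin_cases m <;> fin_cases n <;> simp [Matrix.mul_apply, Fin.sum_univ_two]
  · intro h
    have := congrArg (fun g : Matrix.SpecialLinearGroup (Fin 2) K => g.1 0 0) h
    simp only [hz, Matrix.SpecialLinearGroup.coe_one] at this
    simp at this
    apply h2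
    linear_combination -this
  · intro g
    apply Subtype.ext
    simp only [Matrix.SpecialLinearGroup.coe_mul, hz]
    ext m n
    fin_cases m <;> fin_cases n <;> simp [Matrix.mul_apply, Fin.sum_univ_two]
  · apply Subtype.ext
    simp only [Matrix.SpecialLinearGroup.coe_mul, hz, hi]
    ext m n
    fin_cases m <;> fin_cases n <;> simp [Matrix.mul_apply, Fin.sum_univ_two] <;>
      first | ring1 | linear_combination hpq | linear_combination -hpq
  · rw [hxx]
    apply Subtype.ext
    simp only [Matrix.SpecialLinearGroup.coe_mul,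
      Matrix.SpecialLinearGroup.coe_inv, hz, hi, hX, Matrix.adjugate_fin_two_of]
    ext m n
    fin_cases m <;> fin_cases n <;> simp [Matrix.mul_apply, Fin.sum_univ_two] <;>
      first | ring1 | linear_combination hT | linear_combination -hT
  · apply Subtype.ext
    simp only [Matrix.SpecialLinearGroup.coe_mul, Matrix.SpecialLinearGroup.coe_one, hy]
    ext m n
    fin_cases m <;> fin_cases n <;> simp [Matrix.mul_apply, Fin.sum_univ_two] <;>
      first | ring1 | linear_combination h5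
  · intro h
    have := congrArg (fun g : Matrix.SpecialLinearGroup (Fin 2) K => g.1 0 1) h
    simp only [hy, Matrix.SpecialLinearGroup.coe_one] at this
    simp at this

end Cfsg.Agent.Helper19.Sp4
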