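import Mathlib
import Cfsg.Agent.Helper13.PRes

set_option autoImplicit false

namespace Cfsg.Agent.Helper19

/-- a permutation of order dividing `2^k` whose `2^(k-1)`-th power is fixed-point-free, on a set of
size `2^k * odd`, is odd -/
theorem ttd_sign {Ω : Type*} [Fintype Ω] [DecidableEq Ω] (π : Equiv.Perm Ω) (k m : ℕ)
    (hk : 1 ≤ k) (hπ : π ^ (2 ^ k) = 1) (hfix : ∀ x, (π ^ (2 ^ (k - 1))) x ≠ x)
    (hcard : Fintype.card Ω = 2 ^ k * m) (hm : Odd m) : Equiv.Perm.sign π = -1 := by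
  have hall : ∀ n ∈ π.cycleType, n = 2 ^ k := by
    intro n hn
    have hdvd : n ∣ 2 ^ k :=
      (Equiv.Perm.dvd_of_mem_cycleType hn).trans (orderOf_dvd_of_pow_eq_one hπ)
    obtain ⟨j, hjk, rfl⟩ := (Nat.dvd_prime_pow Nat.prime_two).mp hdvd
    by_contra hne
    have hj : j ≤ k - 1 := by
      have : j ≠ k := fun h => hne (by rw [h])
      omega
    obtain ⟨c, τ, hστ, hdisj, hc, hcc⟩ := Equiv.Perm.mem_cycleType_iff.mp hn
    have hc' := hc
    obtain ⟨x, hx, -⟩ := hc'
    have hτx : τ x = x := by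
      rcases hdisj x with h | h
      · exact absurd h hx
      · exact h
    have hcN : c ^ (2 ^ (k - 1)) = 1 := by
      apply orderOf_dvd_iff_pow_eq_one.mp
      rw [hc.orderOf, hcc]
      exact pow_dvd_pow 2 hj
    apply hfix x
    rw [hστ, hdisj.commute.mul_pow, Equiv.Perm.mul_apply,
      Equiv.Perm.pow_apply_eq_self_of_apply_eq_self hτx, hcN, Equiv.Perm.one_apply]
  have hsupp : π.support = Finset.univ := by
    ext x
    simp only [Equiv.Perm.mem_support, Finset.mem_univ, iff_true]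
    intro hx
    exact hfix x (Equiv.Perm.pow_apply_eq_self_of_apply_eq_self hx _)
  have hsum : π.cycleType.sum = 2 ^ k * m := by
    rw [Equiv.Perm.sum_cycleType, hsupp, Finset.card_univ, hcard]
  have hrep : π.cycleType = Multiset.replicate (Multiset.card π.cycleType) (2 ^ k) :=
    Multiset.eq_replicate_card.mpr hall
  have hcnt : Multiset.card π.cycleType = m := by
    have h := hsum
    rw [hrep, Multiset.sum_replicate, smul_eq_mul] at h
    have h2 : 0 < 2 ^ k := by positivity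
    exact Nat.eq_of_mul_eq_mul_right h2 (by rw [h, mul_comm])
  rw [Equiv.Perm.sign_of_cycleType, hsum, hcnt]
  obtain ⟨i, hi⟩ := hm
  obtain ⟨k', rfl⟩ : ∃ k', k = k' + 1 := ⟨k - 1, by omega⟩
  have : 2 ^ (k' + 1) * m + m = 2 * (2 ^ k' * m + i) + 1 := by rw [hi]; ring
  exact Odd.neg_one_pow ⟨2 ^ k' * m + i, this⟩

/-- the sign character of the action on cosets -/
theorem ttd_hom {H : Type*} [Group H] [Finite H] (X : Subgroup H) (d : H) (k m : ℕ) (hk : 1 ≤ k)
    (hd : d ^ (2 ^ k) = 1) (hfix : ∀ h : H, h⁻¹ * d ^ (2 ^ (k - 1)) * h ∉ X)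
    (hidx : X.index = 2 ^ k * m) (hm : Odd m) : ∃ ψ : H →* ℤˣ, ψ d = -1 := by
  classical
  haveI : Fintype (H ⧸ X) := Fintype.ofFinite _
  refine ⟨Equiv.Perm.sign.comp (MulAction.toPermHom H (H ⧸ X)), ?_⟩
  show Equiv.Perm.sign (MulAction.toPermHom H (H ⧸ X) d) = -1
  apply ttd_sign _ k m hk
  · rw [← map_pow, hd, map_one]
  · intro q
    induction q using QuotientGroup.induction_on with | _ g => ?_
    rw [← map_pow]
    intro h
    have e : (MulAction.toPermHom H (H ⧸ X) (d ^ 2 ^ (k - 1))) (g : H ⧸ X)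
        = ((d ^ 2 ^ (k - 1) * g : H) : H ⧸ X) := rfl
    rw [e, eq_comm, QuotientGroup.eq] at h
    apply hfix g
    simpa [mul_assoc] using h
  · rw [← hidx, Subgroup.index, Nat.card_eq_fintype_card]
  · exact hm

/-- `O^2(G)` has no nontrivial homomorphism to `ℤˣ` -/
theorem ttd_res_hom {G : Type*} [Group G] (ψ : ↥(Cfsg.pResidual 2 G) →* ℤˣ)
    (x : ↥(Cfsg.pResidual 2 G)) : ψ x = 1 := by
  have hle : Cfsg.pResidual 2 G ≤ (ψ.ker).map (Cfsg.pResidual 2 G).subtype := by
    apply (Subgroup.closure_le _).mpr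
    intro g hg
    have hg' : Nat.Coprime (orderOf g) 2 := hg
    have hgK : g ∈ Cfsg.pResidual 2 G := Subgroup.subset_closure hg
    refine ⟨⟨g, hgK⟩, ?_, rfl⟩
    rw [SetLike.mem_coe, MonoidHom.mem_ker]
    have h1 : (ψ ⟨g, hgK⟩) ^ orderOf g = 1 := by
      rw [← map_pow]
      have : (⟨g, hgK⟩ : ↥(Cfsg.pResidual 2 G)) ^ orderOf g = 1 :=
        Subtype.ext (by simp [pow_orderOf_eq_one])
      rw [this, map_one]
    have h2 : (ψ ⟨g, hgK⟩) ^ 2 = 1 := Int.units_sq _
    have h3 : orderOf (ψ ⟨g, hgK⟩) ∣ Nat.gcd (orderOf g) 2 :=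
      Nat.dvd_gcd (orderOf_dvd_of_pow_eq_one h1) (orderOf_dvd_of_pow_eq_one h2)
    rw [Nat.Coprime.gcd_eq_one hg'] at h3
    exact orderOf_eq_one_iff.mp (Nat.dvd_one.mp h3)
  obtain ⟨y, hy, hyx⟩ := hle x.2
  have : y = x := Subtype.ext hyx
  rw [← this]
  exact MonoidHom.mem_ker.mp hy

/-- in a dihedral group, the elements outside a cyclic subgroup of index 2 are involutions -/
theorem ttd_dih0 (n : ℕ) (hn : 2 ≤ n) (C : Subgroup (DihedralGroup n)) (hC : IsCyclic ↥C)
    (hCi : C.index = 2) (y : DihedralGroup n) (hy : y ∉ C) : orderOf y = 2 := by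
  haveI : NeZero n := ⟨by omega⟩
  have hcardC : Nat.card C = n := by
    have := C.card_mul_index
    rw [hCi, DihedralGroup.nat_card] at this
    omega
  obtain ⟨g, hg⟩ := hC.exists_generator
  have hog : orderOf (g : DihedralGroup n) = n := by
    rw [Subgroup.orderOf_coe, orderOf_eq_card_of_forall_mem_zpowers hg, hcardC]
  have hrot : ∀ i : ZMod n, DihedralGroup.r i = (DihedralGroup.r (1 : ZMod n)) ^ (i.val) := by
    intro i
    rw [DihedralGroup.r_one_pow, ZMod.natCast_zmod_val]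
  cases y with
  | sr i => exact DihedralGroup.orderOf_sr i
  | r i =>
    rcases hgv : (g : DihedralGroup n) with j | j
    · exfalso
      apply hy
      have hle : C ≤ Subgroup.zpowers (DihedralGroup.r (1 : ZMod n)) := by
        intro x hx
        obtain ⟨z, hz⟩ := Subgroup.mem_zpowers_iff.mp (hg ⟨x, hx⟩)
        have hxz : x = (g : DihedralGroup n) ^ z := by
          have := congrArg Subtype.val hz
          simpa using this.symm
        rw [hxz, hgv, hrot j]
        exact zpow_mem (pow_mem (Subgroup.mem_zpowers _) _) _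
      have heq : C = Subgroup.zpowers (DihedralGroup.r (1 : ZMod n)) := by
        apply Subgroup.eq_of_le_of_card_ge hle
        rw [hcardC, Nat.card_zpowers, DihedralGroup.orderOf_r_one]
      rw [heq, hrot i]
      exact pow_mem (Subgroup.mem_zpowers _) _
    · rw [hgv, DihedralGroup.orderOf_sr] at hog
      subst hog
      apply orderOf_eq_prime
      · rw [pow_two, DihedralGroup.r_mul_r]
        have key : ∀ i : ZMod 2, i + i = 0 := by decide
        rw [key i]
        rfl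
      · intro h
        apply hy
        rw [h]
        exact one_mem _

theorem ttd_dih {G : Type*} [Group G] (D C : Subgroup G) (n : ℕ) (hn : 2 ≤ n)
    (e : ↥D ≃* DihedralGroup n) (hCD : C ≤ D) (hC : IsCyclic ↥C) (hCi : C.relIndex D = 2)
    (x : G) (hxD : x ∈ D) (hxC : x ∉ C) : orderOf x = 2 := by
  set C' : Subgroup (DihedralGroup n) := (C.subgroupOf D).map (e : ↥D →* DihedralGroup n) with hC'
  have hcyc : IsCyclic ↥C' := by
    have e1 : ↥C ≃* ↥(C.subgroupOf D) := (Subgroup.subgroupOfEquivOfLe hCD).symm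
    have e2 : ↥(C.subgroupOf D) ≃* ↥C' :=
      (C.subgroupOf D).equivMapOfInjective (e : ↥D →* DihedralGroup n) e.injective
    exact isCyclic_of_surjective (e1.trans e2) (e1.trans e2).surjective
  have hidx : C'.index = 2 := by
    rw [hC', Subgroup.index_map_equiv]
    exact hCi
  have hy : e ⟨x, hxD⟩ ∉ C' := by
    rintro ⟨z, hz, hze⟩
    have : z = ⟨x, hxD⟩ := e.injective hze
    rw [this] at hz
    exact hxC (Subgroup.mem_subgroupOf.mp hz)
  have h := ttd_dih0 n hn C' hcyc hidx _ hy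
  rw [MulEquiv.orderOf_eq, Subgroup.orderOf_mk] at h
  exact h

theorem ttd_inj {G : Type*} [Group G] (A B M : Subgroup G) (hA : A ≤ M) (hB : B ≤ M)
    (hAB : A ⊓ B = ⊥) :
    Function.Injective (fun p : ↥A × ↥B =>
      (⟨(p.1 : G) * (p.2 : G), mul_mem (hA p.1.2) (hB p.2.2)⟩ : ↥M)) := by
  rintro ⟨a, b⟩ ⟨a', b'⟩ h
  have h' : (a : G) * (b : G) = (a' : G) * (b' : G) := congrArg Subtype.val h
  have hmem : (a' : G)⁻¹ * (a : G) ∈ A ⊓ B := by
    refine Subgroup.mem_inf.mpr ⟨mul_mem (inv_mem a'.2) a.2, ?_⟩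
    have : (a' : G)⁻¹ * (a : G) = (b' : G) * (b : G)⁻¹ := by
      calc (a' : G)⁻¹ * (a : G) = (a' : G)⁻¹ * ((a : G) * (b : G)) * (b : G)⁻¹ := by group
        _ = (a' : G)⁻¹ * ((a' : G) * (b' : G)) * (b : G)⁻¹ := by rw [h']
        _ = (b' : G) * (b : G)⁻¹ := by group
    rw [this]
    exact mul_mem b'.2 (inv_mem b.2)
  rw [hAB, Subgroup.mem_bot] at hmem
  have ha_eq : (a : G) = (a' : G) := by
    calc (a : G) = (a' : G) * ((a' : G)⁻¹ * (a : G)) := by group
      _ = (a' : G) := by rw [hmem, mul_one]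
  have hb_eq : (b : G) = (b' : G) := by
    rw [ha_eq] at h'
    exact mul_left_cancel h'
  exact Prod.ext (Subtype.ext ha_eq) (Subtype.ext hb_eq)

theorem ttd_card_le {G : Type*} [Group G] [Finite G] (A B M : Subgroup G) (hA : A ≤ M)
    (hB : B ≤ M) (hAB : A ⊓ B = ⊥) : Nat.card A * Nat.card B ≤ Nat.card M := by
  rw [← Nat.card_prod]
  exact Nat.card_le_card_of_injective _ (ttd_inj A B M hA hB hAB)

theorem ttd_prod {G : Type*} [Group G] [Finite G] (A B M : Subgroup G) (hA : A ≤ M) (hB : B ≤ M)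
    (hAB : A ⊓ B = ⊥) (hc : Nat.card M ≤ Nat.card A * Nat.card B) :
    ∀ s ∈ M, ∃ a ∈ A, ∃ b ∈ B, s = a * b := by
  intro s hs
  have hbij := (ttd_inj A B M hA hB hAB).bijective_of_nat_card_le
    (by rw [Nat.card_prod]; exact hc)
  obtain ⟨⟨a, b⟩, hab⟩ := hbij.2 ⟨s, hs⟩
  exact ⟨a, a.2, b, b.2, (congrArg Subtype.val hab).symm⟩

theorem ttd_card_eq {G : Type*} [Group G] [Finite G] (A B M : Subgroup G) (hA : A ≤ M)
    (hB : B ≤ M) (hAB : A ⊓ B = ⊥) (hs : ∀ s ∈ M, ∃ a ∈ A, ∃ b ∈ B, s = a * b) :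
    Nat.card M = Nat.card A * Nat.card B := by
  rw [← Nat.card_prod]
  symm
  apply Nat.card_eq_of_bijective _ ⟨ttd_inj A B M hA hB hAB, ?_⟩
  rintro ⟨s, hs'⟩
  obtain ⟨a, ha, b, hb, rfl⟩ := hs s hs'
  exact ⟨(⟨a, ha⟩, ⟨b, hb⟩), rfl⟩

theorem ttd_card_relIndex {G : Type*} [Group G] {A B : Subgroup G} (h : A ≤ B) :
    Nat.card B = Nat.card A * A.relIndex B := by
  rw [← Subgroup.relIndex_bot_left, ← Subgroup.relIndex_bot_left,
    Subgroup.relIndex_mul_relIndex ⊥ A B bot_le h]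

theorem ttd_relIndex_normal_dvd_index {G : Type*} [Group G] [Finite G] (N T : Subgroup G)
    [N.Normal] : T.relIndex N ∣ T.index := by
  have h1 := ttd_card_relIndex (inf_le_left : T ⊓ N ≤ T)
  have h2 := ttd_card_relIndex (inf_le_right : T ⊓ N ≤ N)
  have h3 := ttd_card_relIndex (le_sup_left : T ≤ T ⊔ N)
  have h4 := ttd_card_relIndex (le_sup_right : N ≤ T ⊔ N)
  rw [Subgroup.relIndex_sup_right] at h4
  rw [Subgroup.inf_relIndex_right] at h2
  rw [Subgroup.inf_relIndex_left] at h1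
  have e : T.relIndex (T ⊔ N) = T.relIndex N := by
    have hpos1 : 0 < Nat.card (T ⊓ N : Subgroup G) := Nat.card_pos
    have hpos2 : 0 < N.relIndex T := Nat.pos_of_ne_zero Subgroup.index_ne_zero_of_finite
    have : Nat.card (T ⊓ N : Subgroup G) * N.relIndex T * T.relIndex (T ⊔ N) =
        Nat.card (T ⊓ N : Subgroup G) * N.relIndex T * T.relIndex N := by
      calc Nat.card (T ⊓ N : Subgroup G) * N.relIndex T * T.relIndex (T ⊔ N)
          = Nat.card T * T.relIndex (T ⊔ N) := by rw [← h1]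
        _ = Nat.card (T ⊔ N : Subgroup G) := h3.symm
        _ = Nat.card N * N.relIndex T := h4
        _ = Nat.card (T ⊓ N : Subgroup G) * T.relIndex N * N.relIndex T := by rw [← h2]
        _ = Nat.card (T ⊓ N : Subgroup G) * N.relIndex T * T.relIndex N := by ring
    exact Nat.eq_of_mul_eq_mul_left (Nat.mul_pos hpos1 hpos2) this
  rw [← e, ← Subgroup.relIndex_mul_index (le_sup_left : T ≤ T ⊔ N)]
  exact dvd_mul_right _ _

theorem ttd_sylow_card {G : Type*} [Group G] [Finite G] (L A B : Subgroup G) (hA : A ≤ L)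
    (hB : B ≤ L) (hA2 : IsPGroup 2 A) (hB2 : IsPGroup 2 B) (hAs : ¬ 2 ∣ A.relIndex L)
    (hBs : ¬ 2 ∣ B.relIndex L) : Nat.card A = Nat.card B := by
  haveI : Fact (Nat.Prime 2) := ⟨Nat.prime_two⟩
  obtain ⟨a, ha⟩ := IsPGroup.iff_card.mp hA2
  obtain ⟨b, hb⟩ := IsPGroup.iff_card.mp hB2
  have e1 := ttd_card_relIndex hA
  have e2 := ttd_card_relIndex hB
  rw [ha] at e1
  rw [hb] at e2
  rw [ha, hb]
  have key : ∀ (a b m m' : ℕ), ¬ 2 ∣ m → ¬ 2 ∣ m' → 2 ^ a * m = 2 ^ b * m' → a ≤ b := by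
    intro a b m m' hm hm' h
    by_contra hlt
    push Not at hlt
    apply hm'
    obtain ⟨c, rfl⟩ : ∃ c, a = b + 1 + c := ⟨a - b - 1, by omega⟩
    have h3 : 2 ^ b * (2 ^ (1 + c) * m) = 2 ^ b * m' := by rw [← h]; ring
    have h4 := Nat.eq_of_mul_eq_mul_left (by positivity) h3
    rw [← h4]
    exact ⟨2 ^ c * m, by ring⟩
  have hab : a = b := le_antisymm (key a b _ _ hAs hBs (e1.symm.trans e2))
    (key b a _ _ hBs hAs (e2.symm.trans e1))
  rw [hab]

theorem ttd_main {G : Type*} [Group G] [Finite G] (L T S D C : Subgroup G)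
    (hL : Cfsg.pResidual 2 ↥L = ⊤)
    (hTL : T ≤ L) (hT2 : IsPGroup 2 T) (hTsyl : ¬ 2 ∣ T.relIndex L)
    (hS2 : IsPGroup 2 S) (hSsyl : ¬ 2 ∣ S.index) (hTS : T ≤ S)
    (hDS : D ≤ S) (hDih : ∃ n : ℕ, 2 ≤ n ∧ Nonempty (↥D ≃* DihedralGroup n)) (hDT : D ⊓ T = ⊥)
    (hTD : T ⊔ D = S) (hTDc : Nat.card T * Nat.card D = Nat.card S)
    (hCD : C ≤ D) (hC : IsCyclic ↥C) (hCi : C.relIndex D = 2)
    (h1 : ∀ x ∈ D, x ∉ C → orderOf x = 2 → ∀ g : G, g * x * g⁻¹ ∈ T ⊔ C → False)
    (h2 : ∀ c ∈ C, orderOf c = 2 → ∀ g : G, g * c * g⁻¹ ∈ T → False) :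
    ∃ K : Subgroup G, K.Normal ∧ K ⊔ D = ⊤ ∧
      ∀ T' : Subgroup G, T' ≤ L → IsPGroup 2 T' → ¬ 2 ∣ T'.relIndex L →
        T' ≤ K ∧ ¬ 2 ∣ T'.relIndex K := by
  classical
  haveI : Fact (Nat.Prime 2) := ⟨Nat.prime_two⟩
  obtain ⟨n, hn, ⟨e⟩⟩ := hDih
  set K := Cfsg.pResidual 2 G with hK
  haveI hKn : K.Normal := Helper13.pResidual_normal 2 G
  have hLK : L ≤ K := by
    intro x hx
    have hx' : (⟨x, hx⟩ : ↥L) ∈ Cfsg.pResidual 2 ↥L := by rw [hL]; trivial
    have hle : Cfsg.pResidual 2 ↥L ≤ K.subgroupOf L := by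
      apply (Subgroup.closure_le _).mpr
      intro y hy
      have hy' : Nat.Coprime (orderOf y) 2 := hy
      show (y : G) ∈ K
      apply Subgroup.subset_closure
      show Nat.Coprime (orderOf (y : G)) 2
      rw [Subgroup.orderOf_coe]
      exact hy'
    exact Subgroup.mem_subgroupOf.mp (hle hx')
  have hTK : T ≤ K := hTL.trans hLK
  have hSK : S ⊔ K = ⊤ := by
    have := Helper13.sylow_sup_pResidual 2 G (hS2.toSylow hSsyl)
    simpa using this
  have hSKodd : ¬ 2 ∣ S.relIndex K :=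
    fun h => hSsyl (h.trans (ttd_relIndex_normal_dvd_index K S))
  have hSKodd' : Odd (S.relIndex K) := Nat.not_even_iff_odd.mp (fun h => hSKodd h.two_dvd)
  have hinv : ∀ x ∈ D, x ∉ C → orderOf x = 2 :=
    fun x hxD hxC => ttd_dih D C n hn e hCD hC hCi x hxD hxC
  have hTDbot : T ⊓ D = ⊥ := by rw [inf_comm]; exact hDT
  have hSprod : ∀ s ∈ S, ∃ t ∈ T, ∃ d ∈ D, s = t * d :=
    ttd_prod T D S hTS hDS hTDbot (le_of_eq hTDc.symm)
  set E := D ⊓ K with hE
  have hTE : T ⊓ E = ⊥ := by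
    apply le_antisymm _ bot_le
    rw [← hTDbot]
    exact inf_le_inf_left T inf_le_left
  have hSKprod : ∀ s ∈ S ⊓ K, ∃ t ∈ T, ∃ d ∈ E, s = t * d := by
    intro s hs
    obtain ⟨hsS, hsK⟩ := Subgroup.mem_inf.mp hs
    obtain ⟨t, ht, d, hd, rfl⟩ := hSprod s hsS
    refine ⟨t, ht, d, Subgroup.mem_inf.mpr ⟨hd, ?_⟩, rfl⟩
    have : d = t⁻¹ * (t * d) := by group
    rw [this]
    exact mul_mem (inv_mem (hTK ht)) hsK
  have hTSK : T ≤ S ⊓ K := le_inf hTS hTK
  have hcardSK : Nat.card (S ⊓ K : Subgroup G) = Nat.card T * Nat.card E :=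
    ttd_card_eq T E (S ⊓ K) hTSK (le_inf (inf_le_left.trans hDS) inf_le_right) hTE hSKprod
  have hEbot : E = ⊥ := by
    by_contra hEne
    by_cases hEC : E ≤ C
    · -- E is cyclic inside C
      haveI hEcyc : IsCyclic ↥E := by
        haveI := hC
        exact isCyclic_of_surjective (Subgroup.subgroupOfEquivOfLe hEC).toMonoidHom
          (Subgroup.subgroupOfEquivOfLe hEC).surjective
      obtain ⟨d0, hd0⟩ := hEcyc.exists_generator
      have hordE : orderOf (d0 : G) = Nat.card E := by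
        rw [Subgroup.orderOf_coe, orderOf_eq_card_of_forall_mem_zpowers hd0]
      have hE2 : IsPGroup 2 ↥E := hS2.to_le (inf_le_left.trans hDS)
      obtain ⟨k, hk⟩ := IsPGroup.iff_card.mp hE2
      have hk1 : 1 ≤ k := by
        by_contra h0
        have hk0 : k = 0 := by omega
        rw [hk0, pow_zero] at hk
        exact hEne (Subgroup.card_eq_one.mp hk)
      have hdE : (d0 : G) ∈ E := d0.2
      have hdK : (d0 : G) ∈ K := (Subgroup.mem_inf.mp hdE).2
      have hdC : (d0 : G) ∈ C := hEC hdE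
      have hc2 : orderOf ((d0 : G) ^ 2 ^ (k - 1)) = 2 := by
        rw [orderOf_pow, hordE, hk]
        have hg : Nat.gcd (2 ^ k) (2 ^ (k - 1)) = 2 ^ (k - 1) :=
          Nat.gcd_eq_right (pow_dvd_pow 2 (by omega))
        rw [hg]
        obtain ⟨k', rfl⟩ : ∃ k', k = k' + 1 := ⟨k - 1, by omega⟩
        simp [pow_succ]
      have hcn : ∀ g : G, g * (d0 : G) ^ 2 ^ (k - 1) * g⁻¹ ∉ T :=
        fun g hg => h2 _ (pow_mem hdC _) hc2 g hg
      have hidx : T.relIndex K = 2 ^ k * S.relIndex K := by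
        have h3 := Subgroup.relIndex_mul_relIndex T (S ⊓ K) K hTSK inf_le_right
        rw [Subgroup.inf_relIndex_right] at h3
        have h4 := ttd_card_relIndex hTSK
        rw [hcardSK, hk] at h4
        have hpos : 0 < Nat.card T := Nat.card_pos
        have h5 : T.relIndex (S ⊓ K) = 2 ^ k := (Nat.eq_of_mul_eq_mul_left hpos h4).symm
        rw [← h3, h5]
      obtain ⟨ψ, hψ⟩ := ttd_hom (T.subgroupOf K) (⟨(d0 : G), hdK⟩ : ↥K) k (S.relIndex K) hk1
        (by
          apply Subtype.ext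
          show (d0 : G) ^ 2 ^ k = 1
          rw [← hk, ← hordE]
          exact pow_orderOf_eq_one _)
        (by
          intro h hh
          rw [Subgroup.mem_subgroupOf] at hh
          apply hcn (h : G)⁻¹
          simpa using hh)
        hidx hSKodd'
      have h1' := ttd_res_hom ψ ⟨(d0 : G), hdK⟩
      rw [h1'] at hψ
      exact absurd hψ (by decide)
    · obtain ⟨u, huE, huC⟩ := SetLike.not_le_iff_exists.mp hEC
      have huD : u ∈ D := (Subgroup.mem_inf.mp huE).1
      have huK : u ∈ K := (Subgroup.mem_inf.mp huE).2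
      have hu2 : orderOf u = 2 := hinv u huD huC
      have hun : ∀ g : G, g * u * g⁻¹ ∉ T ⊔ C := fun g hg => h1 u huD huC hu2 g hg
      have hTC : T ⊓ C = ⊥ := by
        apply le_antisymm _ bot_le
        rw [← hTDbot]
        exact inf_le_inf_left T hCD
      have hTCS : T ⊔ C ≤ S := sup_le hTS (hCD.trans hDS)
      have hcTC : Nat.card T * Nat.card C ≤ Nat.card (T ⊔ C : Subgroup G) :=
        ttd_card_le T C (T ⊔ C) le_sup_left le_sup_right hTC
      have hcD : Nat.card D = Nat.card C * 2 := by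
        have := ttd_card_relIndex hCD
        rw [hCi] at this
        exact this
      have hr := ttd_card_relIndex hTCS
      have hrel2 : (T ⊔ C).relIndex S ≤ 2 := by
        have hpos : 0 < Nat.card (T ⊔ C : Subgroup G) := Nat.card_pos
        by_contra hgt
        push Not at hgt
        have h3 : Nat.card (T ⊔ C : Subgroup G) * 3 ≤
            Nat.card (T ⊔ C : Subgroup G) * (T ⊔ C).relIndex S := Nat.mul_le_mul_left _ hgt
        rw [← hr, ← hTDc, hcD] at h3
        nlinarith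
      have hne0 : (T ⊔ C).relIndex S ≠ 0 := Subgroup.index_ne_zero_of_finite
      have hle2 : (T ⊔ C).relIndex (S ⊓ K) ≤ 2 :=
        (Subgroup.relIndex_le_of_le_right inf_le_left hne0).trans hrel2
      have hne1 : (T ⊔ C).relIndex (S ⊓ K) ≠ 1 := by
        intro h
        rw [Subgroup.relIndex_eq_one] at h
        apply hun 1
        have := h (Subgroup.mem_inf.mpr ⟨hDS huD, huK⟩)
        simpa using this
      have hne0' : (T ⊔ C).relIndex (S ⊓ K) ≠ 0 := Subgroup.index_ne_zero_of_finite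
      have hrel : (T ⊔ C).relIndex (S ⊓ K) = 2 := by omega
      have hidx : (T ⊔ C).relIndex K = 2 ^ 1 * S.relIndex K := by
        have h3 := Subgroup.relIndex_inf_mul_relIndex (T ⊔ C) S K
        rw [inf_eq_left.mpr hTCS, hrel] at h3
        rw [← h3]
        ring
      have hu2' : u ^ 2 = 1 := by
        have := pow_orderOf_eq_one u
        rw [hu2] at this
        exact this
      obtain ⟨ψ, hψ⟩ := ttd_hom ((T ⊔ C).subgroupOf K) (⟨u, huK⟩ : ↥K) 1 (S.relIndex K) le_rfl
        (by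
          apply Subtype.ext
          show u ^ 2 ^ 1 = 1
          rw [pow_one]
          exact hu2')
        (by
          intro h hh
          rw [Subgroup.mem_subgroupOf] at hh
          apply hun (h : G)⁻¹
          simpa using hh)
        hidx hSKodd'
      have h1' := ttd_res_hom ψ ⟨u, huK⟩
      rw [h1'] at hψ
      exact absurd hψ (by decide)
  have hTeq : Nat.card (S ⊓ K : Subgroup G) = Nat.card T := by
    rw [hcardSK, hEbot]
    simp
  have hTodd : ¬ 2 ∣ T.relIndex K := by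
    have h3 : T = S ⊓ K := Subgroup.eq_of_le_of_card_ge hTSK (le_of_eq hTeq)
    rw [h3, Subgroup.inf_relIndex_right]
    exact hSKodd
  refine ⟨K, hKn, ?_, ?_⟩
  · rw [eq_top_iff, ← hSK, ← hTD]
    exact sup_le (sup_le (hTK.trans le_sup_left) le_sup_right) le_sup_left
  · intro T' hT'L hT'2 hT'syl
    have hT'K : T' ≤ K := hT'L.trans hLK
    refine ⟨hT'K, ?_⟩
    have hcard : Nat.card T' = Nat.card T := ttd_sylow_card L T' T hT'L hTL hT'2 hT2 hT'syl hTsyl
    have e1 := ttd_card_relIndex hT'K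
    have e2 := ttd_card_relIndex hTK
    rw [hcard] at e1
    have h3 : T'.relIndex K = T.relIndex K := by
      have hpos : 0 < Nat.card T := Nat.card_pos
      exact Nat.eq_of_mul_eq_mul_left hpos (by rw [← e1, ← e2])
    rw [h3]
    exact hTodd

end Cfsg.Agent.Helper19
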