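import Mathlib
import Cfsg.Agent.Helper5.SU34

/-!
Automorphisms of the Sylow 2-subgroup of `PSU 3 F 4` (`|F| = 16`): via the
model group `HG F` of `Helper5.SU34`, no two involutory automorphisms have a
product of order three.
-/

set_option autoImplicit false

namespace Cfsg.Agent.Helper19.U34Aut

open Cfsg Cfsg.Agent.Helper5.SU34

section model

variable {F : Type*} [Field F] [Fintype F] [hF : Fact (Fintype.card F = 16)]

/-- three elements of equal norm summing to zero vanish -/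
theorem norm_key (x y : F) (h1 : x ^ 5 = y ^ 5) (h2 : (x + y) ^ 5 = x ^ 5) : x = 0 := by
  by_contra hx
  have h20 : (2 : F) = 0 := two0
  have e1 : (x + y) ^ 5 = x ^ 5 + x ^ 4 * y + x * y ^ 4 + y ^ 5 := by
    linear_combination (2 * x ^ 4 * y + 5 * x ^ 3 * y ^ 2 + 5 * x ^ 2 * y ^ 3 + 2 * x * y ^ 4) * h20
  have hx2 : x * (x ^ 4 + x ^ 3 * y + y ^ 4) = 0 := by
    linear_combination h2 - e1 + h1
  have hP2 : x ^ 4 + x ^ 3 * y + y ^ 4 = 0 := by
    rcases mul_eq_zero.mp hx2 with h | h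
    · exact absurd h hx
    · exact h
  have hQ : x ^ 3 * (x ^ 2 + x * y + y ^ 2) = 0 := by
    linear_combination h1 + y * hP2
  have hQ' : x ^ 2 + x * y + y ^ 2 = 0 := by
    rcases mul_eq_zero.mp hQ with h | h
    · exact absurd (pow_eq_zero_iff (by norm_num) |>.mp h) hx
    · exact h
  have h3 : y ^ 3 - x ^ 3 = 0 := by
    linear_combination (y - x) * hQ'
  have h4' : x ^ 3 * (x ^ 2 - y ^ 2) = 0 := by
    linear_combination h1 + y ^ 2 * h3
  have h4 : x ^ 2 - y ^ 2 = 0 := by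
    rcases mul_eq_zero.mp h4' with h | h
    · exact absurd (pow_eq_zero_iff (by norm_num) |>.mp h) hx
    · exact h
  have h5 : x * y = 0 := by
    linear_combination hQ' + h4 - x ^ 2 * h20
  have hy : y = 0 := by
    rcases mul_eq_zero.mp h5 with h | h
    · exact absurd h hx
    · exact h
  rw [hy] at h1
  have : x ^ 5 = 0 := by rw [h1]; ring
  exact hx (pow_eq_zero_iff (by norm_num) |>.mp this)

omit [Fintype F] hF in
/-- the third cube root of unity -/
theorem cube_third (z1 z2 z : F) (h1 : z1 ^ 3 = 1) (h2 : z2 ^ 3 = 1) (h : z ^ 3 = 1)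
    (h12 : z2 ≠ z1) (hz1 : z ≠ z1) (hz2 : z ≠ z2) : z = -(z1 + z2) := by
  have a1 : (z - z1) * (z ^ 2 + z * z1 + z1 ^ 2) = 0 := by linear_combination h - h1
  have a2 : (z2 - z1) * (z2 ^ 2 + z2 * z1 + z1 ^ 2) = 0 := by linear_combination h2 - h1
  have b1 : z ^ 2 + z * z1 + z1 ^ 2 = 0 := by
    rcases mul_eq_zero.mp a1 with h | h
    · exact absurd (sub_eq_zero.mp h) hz1
    · exact h
  have b2 : z2 ^ 2 + z2 * z1 + z1 ^ 2 = 0 := by
    rcases mul_eq_zero.mp a2 with h | h
    · exact absurd (sub_eq_zero.mp h) h12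
    · exact h
  have c : (z - z2) * (z + z2 + z1) = 0 := by linear_combination b1 - b2
  rcases mul_eq_zero.mp c with h | h
  · exact absurd (sub_eq_zero.mp h) hz2
  · linear_combination h

theorem norm_cube (b : F) (hb : b ≠ 0) : (b ^ 5) ^ 3 = 1 := by
  have h := p16 b
  have h' : b ^ 15 * b = 1 * b := by
    rw [one_mul]
    calc b ^ 15 * b = b ^ 16 := by ring
      _ = b := h
  have := mul_right_cancel₀ hb h'
  rw [← this]; ring

/-- the map induced on `F` by an automorphism of the model group -/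
def ind (w : F) (hw : w + w ^ 4 = 1) (φ : MulAut (HG F)) (b : F) : F := (φ (lift w hw b)).b

variable (w : F) (hw : w + w ^ 4 = 1)

theorem ind_spec (φ : MulAut (HG F)) (x : HG F) : (φ x).b = ind w hw φ x.b := by
  have h20 : (2 : F) = 0 := two0
  have hy : (lift w hw x.b)⁻¹ * x ∈ ZG F := by
    rw [mem_ZG, gmul_b, ginv_b, lift_b]; linear_combination x.b * h20
  have hy2 := ZG_sq _ hy
  have h3 : (φ ((lift w hw x.b)⁻¹ * x)) ^ 2 = 1 := by rw [← map_pow, hy2, map_one]
  have h4 := mem_ZG_of_sq _ h3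
  rw [mem_ZG] at h4
  have h5 : x = lift w hw x.b * ((lift w hw x.b)⁻¹ * x) := by group
  have h6 : φ x = φ (lift w hw x.b) * φ ((lift w hw x.b)⁻¹ * x) := by rw [← map_mul, ← h5]
  rw [h6, gmul_b, h4, add_zero]; rfl

theorem ind_add (φ : MulAut (HG F)) (b b' : F) :
    ind w hw φ (b + b') = ind w hw φ b + ind w hw φ b' := by
  have h := ind_spec w hw φ (lift w hw b * lift w hw b')
  rw [map_mul, gmul_b, gmul_b, lift_b, lift_b] at h
  exact h.symm

theorem ind_mul (φ ψ : MulAut (HG F)) (b : F) :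
    ind w hw (φ * ψ) b = ind w hw φ (ind w hw ψ b) := by
  show ((φ * ψ) (lift w hw b)).b = _
  rw [MulAut.mul_apply, ind_spec w hw φ]; rfl

theorem ind_one (b : F) : ind w hw 1 b = b := rfl

theorem ind_zero (φ : MulAut (HG F)) : ind w hw φ 0 = 0 := by
  have h := ind_add w hw φ 0 0
  rw [add_zero] at h
  exact left_eq_add.mp h

theorem ind_norm (φ : MulAut (HG F)) (b b' : F) (h : b ^ 5 = b' ^ 5) :
    (ind w hw φ b) ^ 5 = (ind w hw φ b') ^ 5 := by
  have h20 : (2 : F) = 0 := two0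
  have hsq : ∀ x : HG F, (x ^ 2).c = x.b ^ 5 := by
    intro x; rw [pow_two, gmul_c]; linear_combination x.c * h20
  have e : (lift w hw b) ^ 2 = (lift w hw b') ^ 2 := by
    ext
    · have h1 := sq_mem_ZG (lift w hw b)
      have h2 := sq_mem_ZG (lift w hw b')
      rw [mem_ZG] at h1 h2
      rw [h1, h2]
    · rw [hsq, hsq, lift_b, lift_b, h]
  have e2 : (φ ((lift w hw b) ^ 2)).c = (φ ((lift w hw b') ^ 2)).c := by rw [e]
  rw [map_pow, map_pow, hsq, hsq] at e2
  exact e2

theorem ind_triv (φ : MulAut (HG F)) (h : ∀ b, ind w hw φ b = b) : φ * φ = 1 := by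
  have h20 : (2 : F) = 0 := two0
  have hz : ∀ x : HG F, x⁻¹ * φ x ∈ ZG F := by
    intro x
    rw [mem_ZG, gmul_b, ginv_b, ind_spec w hw φ x, h]; linear_combination x.b * h20
  have hcomm : ∀ z ∈ ZG F, ∀ g : HG F, z * g = g * z := fun z hz g => (ZG_central z hz g).symm
  have hfix : ∀ z ∈ ZG F, φ z = z := by
    intro z hz'
    obtain ⟨a, b, hab⟩ := ZG_comm z hz'
    have h1 := congrArg φ hab
    rw [map_mul, map_mul, map_mul] at h1
    obtain ⟨za, hza, ha⟩ : ∃ za ∈ ZG F, φ a = a * za := ⟨a⁻¹ * φ a, hz a, by group⟩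
    obtain ⟨zb, hzb, hb⟩ : ∃ zb ∈ ZG F, φ b = b * zb := ⟨b⁻¹ * φ b, hz b, by group⟩
    rw [ha, hb] at h1
    have c1 : a * za * (b * zb) = a * b * (za * zb) := by
      calc a * za * (b * zb) = a * (za * b) * zb := by simp only [mul_assoc]
        _ = a * (b * za) * zb := by rw [hcomm za hza b]
        _ = a * b * (za * zb) := by simp only [mul_assoc]
    have c2 : φ z * (b * zb * (a * za)) = φ z * (b * a) * (za * zb) := by
      calc φ z * (b * zb * (a * za)) = φ z * (b * (zb * a) * za) := by simp only [mul_assoc]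
        _ = φ z * (b * (a * zb) * za) := by rw [hcomm zb hzb a]
        _ = φ z * (b * a) * (zb * za) := by simp only [mul_assoc]
        _ = φ z * (b * a) * (za * zb) := by rw [hcomm zb hzb za]
    rw [c1, c2] at h1
    have h2 := mul_right_cancel h1
    rw [hab] at h2
    exact (mul_right_cancel h2).symm
  apply MulEquiv.ext
  intro x
  obtain ⟨zx, hzx, hx⟩ : ∃ zx ∈ ZG F, φ x = x * zx := ⟨x⁻¹ * φ x, hz x, by group⟩
  rw [MulAut.mul_apply, MulAut.one_apply, hx, map_mul, hx, hfix zx hzx, mul_assoc, ← pow_two,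
    ZG_sq zx hzx, mul_one]

/-- an additive involution of `F` fixes two distinct nonzero elements -/
theorem inv_fixed (t : F → F) (hadd : ∀ b b', t (b + b') = t b + t b')
    (hinv : ∀ b, t (t b) = b) :
    ∃ u1 u2 : F, u1 ≠ 0 ∧ u2 ≠ 0 ∧ u1 ≠ u2 ∧ t u1 = u1 ∧ t u2 = u2 := by
  have h20 : (2 : F) = 0 := two0
  let D : F →+ F := AddMonoidHom.mk' (fun v => v + t v) (by intro a b; rw [hadd]; abel)
  have hD : ∀ v, D v = v + t v := fun v => rfl
  have hle : D.range ≤ D.ker := by
    rintro _ ⟨v, rfl⟩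
    rw [AddMonoidHom.mem_ker, hD, hD, hadd, hinv]
    linear_combination (v + t v) * h20
  have h1 := AddSubgroup.card_mul_index D.ker
  rw [AddSubgroup.index_ker, Nat.card_eq_fintype_card (α := F), hF.out] at h1
  have h3 : Nat.card D.range ≤ Nat.card D.ker := AddSubgroup.card_le_of_le hle
  have h4 : 4 ≤ Nat.card D.ker := by
    generalize Nat.card D.ker = k at *
    generalize Nat.card D.range = r at *
    by_contra hk
    have : k ≤ 3 := by omega
    interval_cases k <;> omega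
  have hfix : ∀ v ∈ D.ker, t v = v := by
    intro v hv
    rw [AddMonoidHom.mem_ker, hD] at hv
    linear_combination hv - v * h20
  have h5 : Nat.card D.ker = (D.ker : Set F).ncard := Nat.card_coe_set_eq (D.ker : Set F)
  have h6 : 2 < (D.ker : Set F).ncard := by omega
  obtain ⟨a, b, c, ha, hb, hc, hab, hac, hbc⟩ := (Set.two_lt_ncard_iff (Set.toFinite _)).mp h6
  by_cases ha0 : a = 0
  · subst ha0
    exact ⟨b, c, fun h => hab h.symm, fun h => hac h.symm, hbc, hfix b hb, hfix c hc⟩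
  · by_cases hb0 : b = 0
    · subst hb0
      exact ⟨a, c, ha0, fun h => hbc h.symm, hac, hfix a ha, hfix c hc⟩
    · exact ⟨a, b, ha0, hb0, hab, hfix a ha, hfix b hb⟩

/-- an involutory automorphism preserves norms -/
theorem inv_norm (τ : MulAut (HG F)) (hτ : τ * τ = 1) (b : F) :
    (ind w hw τ b) ^ 5 = b ^ 5 := by
  have h20 : (2 : F) = 0 := two0
  have hinv : ∀ b, ind w hw τ (ind w hw τ b) = b := by
    intro b; rw [← ind_mul, hτ, ind_one]
  obtain ⟨u1, u2, hu1, hu2, hu12, ht1, ht2⟩ := inv_fixed (ind w hw τ) (ind_add w hw τ) hinv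
  -- two fixed points of different norm
  obtain ⟨u, u', hu, hu', hne, htu, htu'⟩ : ∃ u u' : F, u ≠ 0 ∧ u' ≠ 0 ∧ u' ^ 5 ≠ u ^ 5 ∧
      ind w hw τ u = u ∧ ind w hw τ u' = u' := by
    by_cases h : u2 ^ 5 = u1 ^ 5
    · refine ⟨u1, u1 + u2, hu1, ?_, ?_, ht1, ?_⟩
      · intro h0
        apply hu12
        linear_combination h0 - u2 * h20
      · intro h'
        exact hu1 (norm_key u1 u2 h.symm h')
      · rw [ind_add, ht1, ht2]
    · exact ⟨u1, u2, hu1, hu2, h, ht1, ht2⟩
  by_cases hb : b = 0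
  · rw [hb, ind_zero]
  have htb : ind w hw τ b ≠ 0 := by
    intro h0
    apply hb
    have := hinv b
    rw [h0, ind_zero] at this
    exact this.symm
  by_cases c1 : b ^ 5 = u ^ 5
  · rw [ind_norm w hw τ b u c1, htu, c1]
  by_cases c2 : b ^ 5 = u' ^ 5
  · rw [ind_norm w hw τ b u' c2, htu', c2]
  have d1 : (ind w hw τ b) ^ 5 ≠ u ^ 5 := by
    intro h
    apply c1
    have := ind_norm w hw τ (ind w hw τ b) u (by rw [h])
    rw [hinv, htu] at this
    exact this
  have d2 : (ind w hw τ b) ^ 5 ≠ u' ^ 5 := by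
    intro h
    apply c2
    have := ind_norm w hw τ (ind w hw τ b) u' (by rw [h])
    rw [hinv, htu'] at this
    exact this
  rw [cube_third (u ^ 5) (u' ^ 5) _ (norm_cube u hu) (norm_cube u' hu') (norm_cube _ htb) hne d1 d2,
    cube_third (u ^ 5) (u' ^ 5) _ (norm_cube u hu) (norm_cube u' hu') (norm_cube b hb) hne c1 c2]

/-- two involutory automorphisms whose product has order dividing three commute trivially -/
theorem no_S3 (τ1 τ2 : MulAut (HG F)) (h1 : τ1 * τ1 = 1) (h2 : τ2 * τ2 = 1)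
    (h3 : (τ1 * τ2) ^ 3 = 1) : τ1 * τ2 = 1 := by
  obtain ⟨w, hw⟩ := exists_omega (F := F)
  have h20 : (2 : F) = 0 := two0
  have hN : ∀ b, (ind w hw (τ1 * τ2) b) ^ 5 = b ^ 5 := by
    intro b; rw [ind_mul, inv_norm w hw τ1 h1, inv_norm w hw τ2 h2]
  have h3' : ∀ b, ind w hw (τ1 * τ2) (ind w hw (τ1 * τ2) (ind w hw (τ1 * τ2) b)) = b := by
    intro b
    have : ind w hw ((τ1 * τ2) ^ 3) b = b := by rw [h3]; rfl
    rw [pow_succ, pow_two, ind_mul, ind_mul] at this
    exact this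
  have ha : ∀ v, ind w hw (τ1 * τ2) v = v := by
    intro v
    have e1 : (v + ind w hw (τ1 * τ2) v) + ind w hw (τ1 * τ2) (v + ind w hw (τ1 * τ2) v)
        = ind w hw (τ1 * τ2) (ind w hw (τ1 * τ2) (v + ind w hw (τ1 * τ2) v)) := by
      simp only [ind_add, h3']
      linear_combination (ind w hw (τ1 * τ2) v) * h20
    have hw0 := norm_key (v + ind w hw (τ1 * τ2) v)
      (ind w hw (τ1 * τ2) (v + ind w hw (τ1 * τ2) v)) (hN _).symm (by rw [e1, hN, hN])
    linear_combination hw0 - v * h20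
  have hsq := ind_triv w hw (τ1 * τ2) ha
  have : (τ1 * τ2) ^ 3 = (τ1 * τ2) * ((τ1 * τ2) * (τ1 * τ2)) := by rw [pow_succ', pow_two]
  rw [h3, hsq, mul_one] at this
  exact this.symm

theorem no_S3_aut {T : Type*} [Group T] (f : T ≃* HG F) (τ1 τ2 : MulAut T)
    (h1 : τ1 * τ1 = 1) (h2 : τ2 * τ2 = 1) (h3 : (τ1 * τ2) ^ 3 = 1) : τ1 * τ2 = 1 := by
  have := no_S3 (MulAut.congr f τ1) (MulAut.congr f τ2) (by rw [← map_mul, h1, map_one])
    (by rw [← map_mul, h2, map_one]) (by rw [← map_mul, ← map_pow, h3, map_one])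
  rw [← map_mul] at this
  exact (MulAut.congr f).injective (this.trans (map_one _).symm)

theorem no_S3_sub {T : Type*} [Group T] (f : T ≃* HG F) (H : Subgroup (MulAut T))
    (e : H ≃* Equiv.Perm (Fin 3)) : False := by
  have e1 : (Equiv.swap (0 : Fin 3) 1) * (Equiv.swap (0 : Fin 3) 1) = 1 := by decide
  have e2 : (Equiv.swap (1 : Fin 3) 2) * (Equiv.swap (1 : Fin 3) 2) = 1 := by decide
  have e3 : ((Equiv.swap (0 : Fin 3) 1) * (Equiv.swap (1 : Fin 3) 2)) ^ 3 = 1 := by decide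
  have e4 : (Equiv.swap (0 : Fin 3) 1) * (Equiv.swap (1 : Fin 3) 2) ≠ 1 := by decide
  have g1 : ((e.symm (Equiv.swap (0 : Fin 3) 1) : H) : MulAut T) *
      ((e.symm (Equiv.swap (0 : Fin 3) 1) : H) : MulAut T) = 1 := by
    rw [← Subgroup.coe_mul, ← map_mul, e1, map_one, Subgroup.coe_one]
  have g2 : ((e.symm (Equiv.swap (1 : Fin 3) 2) : H) : MulAut T) *
      ((e.symm (Equiv.swap (1 : Fin 3) 2) : H) : MulAut T) = 1 := by
    rw [← Subgroup.coe_mul, ← map_mul, e2, map_one, Subgroup.coe_one]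
  have g3 : (((e.symm (Equiv.swap (0 : Fin 3) 1) : H) : MulAut T) *
      ((e.symm (Equiv.swap (1 : Fin 3) 2) : H) : MulAut T)) ^ 3 = 1 := by
    rw [← Subgroup.coe_mul, ← Subgroup.coe_pow, ← map_mul, ← map_pow, e3, map_one,
      Subgroup.coe_one]
  have g4 := no_S3_aut f _ _ g1 g2 g3
  rw [← Subgroup.coe_mul, ← map_mul] at g4
  have g5 : e.symm ((Equiv.swap (0 : Fin 3) 1) * (Equiv.swap (1 : Fin 3) 2)) = 1 :=
    Subtype.ext g4
  exact e4 (e.symm.injective (g5.trans (map_one _).symm))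

end model

section final

variable {F : Type*} [Field F] [Fintype F] [hF : Fact (Fintype.card F = 16)]

theorem model_iso (S : Sylow 2 (PSU 3 F 4)) :
    Nonempty (HG F ≃* (S : Subgroup (PSU 3 F 4))) := by
  have : Fact (Nat.Prime 2) := ⟨Nat.prime_two⟩
  have : Finite (PSU 3 F 4) := inferInstance
  have hcard := card_PSU34 hF.out
  have hfac : (Nat.card (PSU 3 F 4)).factorization 2 = 6 := by
    rw [hcard]
    have e : (62400 : ℕ) = 2 ^ 6 * 975 := by norm_num
    rw [e, Nat.factorization_mul (by norm_num) (by norm_num), Nat.factorization_pow,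
      Finsupp.add_apply, Finsupp.smul_apply, Nat.Prime.factorization_self Nat.prime_two,
      Nat.factorization_eq_zero_of_not_dvd (show ¬ 2 ∣ 975 by norm_num)]
    norm_num
  let f : HG F →* PSU 3 F 4 := (QuotientGroup.mk' (Subgroup.center (SU 3 F 4))).comp toSU
  have hf : Function.Injective f := by
    rw [← MonoidHom.ker_eq_bot_iff]
    ext x
    rw [MonoidHom.mem_ker, Subgroup.mem_bot]
    constructor
    · intro hx
      have h1 : toSU x ∈ Subgroup.center (SU 3 F 4) := by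
        have : (QuotientGroup.mk' (Subgroup.center (SU 3 F 4))) (toSU x) = 1 := hx
        rwa [QuotientGroup.mk'_apply, QuotientGroup.eq_one_iff] at this
      rw [center_SU34 hF.out, Subgroup.mem_bot] at h1
      exact toSU_injective (h1.trans (map_one _).symm)
    · rintro rfl
      exact map_one f
  have hrange : Nat.card f.range = 2 ^ (Nat.card (PSU 3 F 4)).factorization 2 := by
    rw [hfac, ← Nat.card_congr (MonoidHom.ofInjective hf).toEquiv, card_HG]
    norm_num
  let S' : Sylow 2 (PSU 3 F 4) := Sylow.ofCard f.range hrange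
  have e1 : HG F ≃* (S' : Subgroup (PSU 3 F 4)) := MonoidHom.ofInjective hf
  have e2 : (S' : Subgroup (PSU 3 F 4)) ≃* (S : Subgroup (PSU 3 F 4)) := Sylow.equiv S' S
  exact ⟨e1.trans e2⟩

end final

end Cfsg.Agent.Helper19.U34Aut
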